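import Cfsg.Agent.ThreeFree.CaseB

/-!
A non-cyclic normal elementary abelian subgroup acting faithfully on the minimal normal subgroup.
-/

set_option autoImplicit false

namespace CfsgLib.ThreeFree

open Subgroup
open scoped commutatorElement

variable {G : Type*} [Group G] [Finite G]

theorem commute_of_pgroup {r : ℕ} (hr : r.Prime) {w x : G} (hw : orderOf w = r)
    (hn : x ∈ normalizer (zpowers w : Set G)) {j : ℕ} (hx : x ^ r ^ j = 1) : Commute x w := by
  set φ := (zpowers w).normalizerMonoidHom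
  have h1 : φ ⟨x, hn⟩ ^ r ^ j = 1 := by
    rw [← map_pow, show (⟨x, hn⟩ : normalizer (zpowers w : Set G)) ^ r ^ j = 1 from Subtype.ext hx, map_one]
  haveI : IsCyclic (zpowers w) := inferInstance
  have h2 := orderOf_dvd_natCard (φ ⟨x, hn⟩)
  rw [IsCyclic.card_mulAut, Nat.card_zpowers, hw, Nat.totient_prime hr] at h2
  have hlt : ¬ r ∣ r - 1 := fun h => by
    have := Nat.le_of_dvd (by have := hr.two_le; omega) h
    have := hr.two_le; omega
  have h3 := Nat.eq_one_of_dvd_coprimes (((hr.coprime_iff_not_dvd).mpr hlt).pow_left j)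
    (orderOf_dvd_of_pow_eq_one h1) h2
  exact mul_inv_eq_iff_eq_mul.mp (congrArg Subtype.val
    (DFunLike.congr_fun (orderOf_eq_one_iff.mp h3) (⟨w, mem_zpowers w⟩ : zpowers w)))

theorem commute_cores {L : Subgroup G} {r s : ℕ} [Fact r.Prime] [Fact s.Prime] (hrs : r ≠ s) {a b : G}
    (ha : a ∈ core L r) (hb : b ∈ core L s) : Commute a b := by
  have h1 : a * b * a⁻¹ * b⁻¹ ∈ core L s :=
    mul_mem (core_conj L s (core_le L r ha) hb) (inv_mem hb)
  have h2 : a * b * a⁻¹ * b⁻¹ ∈ core L r := by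
    rw [show a * b * a⁻¹ * b⁻¹ = a * (b * a⁻¹ * b⁻¹) by group]
    exact mul_mem ha (core_conj L r (core_le L s hb) (inv_mem ha))
  have h3 := Subgroup.mem_bot.mp (((core_isPGroup L r).disjoint_of_ne r s hrs _ _ (core_isPGroup L s)).le_bot ⟨h2, h1⟩)
  exact mul_inv_eq_iff_eq_mul.mp (mul_inv_eq_one.mp h3)

/-- An elementary abelian normal subgroup acting faithfully. -/
structure Faith (L V Z : Subgroup G) (p q r s : ℕ) : Prop extends Env L V p q r s where
  zcomm : IsMulCommutative Z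
  zexp : ∀ c ∈ Z, c ^ q = 1
  zpair : HasPair Z q
  znormal : L ≤ normalizer (Z : Set G)
  faithful : ∀ c ∈ Z, (∀ v ∈ V, Commute c v) → c = 1

namespace Faith

variable {L V Z : Subgroup G} {p q r s : ℕ}

omit [Finite G] in
theorem symm (h : Faith L V Z p q r s) : Faith L V Z p q s r :=
  { h with toEnv := h.toEnv.symm }

omit [Finite G] in
theorem zpgroup (h : Faith L V Z p q r s) : IsPGroup q Z := fun v =>
  ⟨1, by rw [pow_one]; exact Subtype.ext (h.zexp v v.2)⟩

theorem zco (h : Faith L V Z p q r s) {t : ℕ} (ht : t.Prime) (hne : t ≠ q) : t.Coprime (Nat.card Z) :=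
  coprime_of_isPGroup h.qprime ht hne h.zpgroup

omit [Finite G] in
theorem zne (h : Faith L V Z p q r s) : Z ≠ ⊥ := fun e => by
  obtain ⟨a, b, hab⟩ := h.zpair
  have := hab.amem
  rw [e, Subgroup.mem_bot] at this
  exact h.qprime.ne_one (by rw [← hab.aord, this, orderOf_one])

theorem fixes_of_not_central (h : Faith L V Z p q r s) {x : G} (hx : x ∈ L) (hxp : (orderOf x).Prime)
    (hxq : orderOf x ≠ q) (hne : ¬ ∀ c ∈ Z, Commute x c) : Fixes V x := by
  haveI := h.vcomm
  haveI := h.zcomm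
  by_contra hf
  refine hne fun c hc => ?_
  have h1 := master_abelian V Z hxp (pow_orderOf_eq_one x) (h.vnorm x) (fun g _ => h.vnorm g)
    (fun a ha => conj_mem_of_normalizer (h.znormal hx) ha) (h.zco hxp hxq) (by
      haveI := Fact.mk h.qprime
      obtain ⟨j, hj⟩ := IsPGroup.iff_card.mp h.zpgroup
      rw [hj]; exact (h.vco h.qprime h.pq.symm).pow_left j)
    (eq_one_of_not_fixes hf) c hc
  have h2 := h.faithful _ (Z.mul_mem hc (conj_mem_of_normalizer (h.znormal hx) (Z.inv_mem hc))) h1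
  have h3 : c = x * c * x⁻¹ := by
    rw [mul_eq_one_iff_eq_inv] at h2
    simpa [mul_assoc] using h2
  exact mul_inv_eq_iff_eq_mul.mp h3.symm

theorem not_fixes_of_central (h : Faith L V Z p q r s) {x : G} (hxp : (orderOf x).Prime) (hxq : orderOf x ≠ q)
    (hxpp : orderOf x ≠ p) (hc : ∀ c ∈ Z, Commute x c) : ¬ Fixes V x := by
  haveI := h.vcomm
  obtain ⟨a, b, hab⟩ := h.zpair
  refine hab.excludes h.qprime V (h.vnorm a) (h.vnorm b) (h.vco h.qprime h.pq.symm) (hc a hab.amem) (hc b hab.bmem) ?_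
  intro y hy v hv hyv hxv
  obtain ⟨hyZ, hyo, -⟩ := hab.comb h.qprime hy
  exact h.ntV hxp (hyo ▸ h.qprime) (by rw [hyo]; exact hxq) hxpp (by rw [hyo]; exact h.pq.symm) (hc y hyZ) hv hxv hyv

theorem isolated (h : Faith L V Z p q r s) {x y : G} (hy : y ∈ L) (hxp : (orderOf x).Prime)
    (hyp : (orderOf y).Prime) (hxy : orderOf x ≠ orderOf y) (hxq : orderOf x ≠ q) (hyq : orderOf y ≠ q)
    (hxpp : orderOf x ≠ p) (hypp : orderOf y ≠ p) (hc : Commute x y) (hV : Fixes V x) : ¬ Fixes Z x := by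
  rintro ⟨c, hcZ, hc1, hxc⟩
  haveI := h.vcomm
  obtain ⟨v, hv, hv1, hxv⟩ := hV
  have hco : orderOf c = q := orderOf_eq_of_pgroup h.qprime h.zexp hcZ hc1
  set M := V ⊓ centralizer ({x} : Set G)
  haveI : IsMulCommutative M := ⟨⟨fun u v => Subtype.ext (setLike_mul_comm u.2.1 v.2.1)⟩⟩
  set A := Z ⊓ centralizer ({x} : Set G)
  have key : ∀ d ∈ A, Commute y d → d = 1 := by
    intro d hd hyd
    by_contra hd1
    have hdo := orderOf_eq_of_pgroup h.qprime h.zexp hd.1 hd1
    exact h.noTriple x y d hxp hyp (hdo ▸ h.qprime) hxy (by rw [hdo]; exact hyq) (by rw [hdo]; exact hxq) hc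
      (mem_centralizer_singleton_iff.mp hd.2 : Commute d x).symm hyd
  have h1 := master_sub M A hyp (pow_orderOf_eq_one y) (mem_normalizer_of_commute hc (h.vnorm y))
    (fun g hg => mem_normalizer_of_commute (mem_centralizer_singleton_iff.mp hg.2 : Commute g x).symm (h.vnorm g))
    (fun d hd => conj_mem_of_normalizer (mem_normalizer_of_commute hc (h.znormal hy)) hd) key
    (by
      haveI := Fact.mk h.qprime
      obtain ⟨j, hj⟩ := IsPGroup.iff_card.mp (h.zpgroup.to_le (inf_le_left : A ≤ Z))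
      rw [hj]
      exact ((h.vco h.qprime h.pq.symm).coprime_dvd_right (card_dvd_of_le inf_le_left)).pow_left j)
    (fun u hu hyu => h.ntV hxp hyp hxy hxpp hypp hc hu.1 (mem_centralizer_singleton_iff.mp hu.2).symm hyu)
    c ⟨hcZ, mem_centralizer_singleton_iff.mpr hxc.eq.symm⟩ v ⟨hv, mem_centralizer_singleton_iff.mpr hxv.eq.symm⟩
  exact hv1 (h.ntV hxp (hco ▸ h.qprime) (by rw [hco]; exact hxq) hxpp (by rw [hco]; exact h.pq.symm) hxc hv hxv h1)

theorem false_of_abelian (h : Faith L V Z p q r s) {w y : G}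
    (hC : ∀ x ∈ L, orderOf x = r → (∀ c ∈ Z, Commute x c) → x ∈ zpowers w) (hwo : orderOf w = r)
    (hy : y ∈ L) (hyo : orderOf y = s) (hyw : Commute y w) (hyV : Fixes V y) (hyZ : ¬ Fixes Z y)
    {A : Subgroup G} (hAL : A ≤ L) (hAc : IsMulCommutative A) (hAe : ∀ u ∈ A, u ^ r = 1) (hwA : w ∈ A)
    (hyA : ∀ u ∈ A, y * u * y⁻¹ ∈ A) {d : G} (hd : d ∈ A) (hdw : d ∉ zpowers w) : False := by
  haveI := h.zcomm
  haveI := h.vcomm
  haveI := Fact.mk h.rprime
  have hAp : IsPGroup r A := fun u => ⟨1, by rw [pow_one]; exact Subtype.ext (hAe u u.2)⟩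
  have hyp : (orderOf y).Prime := hyo ▸ h.sprime
  have h1 := master_abelian Z A hyp (pow_orderOf_eq_one y) (h.znormal hy) (hAL.trans h.znormal) hyA
    (by rw [hyo]; exact coprime_of_isPGroup h.rprime h.sprime h.rs.symm hAp)
    (by
      obtain ⟨j, hj⟩ := IsPGroup.iff_card.mp hAp
      rw [hj]; exact (h.zco h.rprime h.qr.symm).pow_left j)
    (eq_one_of_not_fixes hyZ) d hd
  set c := d * (y * d⁻¹ * y⁻¹) with hcdef
  have hcA : c ∈ A := A.mul_mem hd (hyA _ (A.inv_mem hd))
  have hcw : c ∈ zpowers w := by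
    by_cases h0 : c = 1
    · rw [h0]; exact one_mem _
    · exact hC c (hAL hcA) (orderOf_eq_prime (hAe c hcA) h0) h1
  have hyc : Commute y c := by
    obtain ⟨k, hk⟩ := hcw
    rw [show c = w ^ k from hk.symm]; exact hyw.zpow_right k
  have hone := eq_one_of_twist (s := s) (hyo ▸ pow_orderOf_eq_one y)
    (show y * d * y⁻¹ = c⁻¹ * d by rw [hcdef]; group) hyc.inv_right (by
      rw [orderOf_inv]
      exact (coprime_of_isPGroup h.rprime h.sprime h.rs.symm hAp).coprime_dvd_right (A.orderOf_dvd_natCard hcA))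
  have hyd : Commute y d := by
    have : y * d * y⁻¹ = d := by rw [show y * d * y⁻¹ = c⁻¹ * d by rw [hcdef]; group, hone, one_mul]
    exact mul_inv_eq_iff_eq_mul.mp this
  have hp : IsPair A r w d := ⟨hwA, hd, hwo, orderOf_eq_prime (hAe d hd) (fun e => hdw (by rw [e]; exact one_mem _)),
    setLike_mul_comm hwA hd, hdw⟩
  refine hp.excludes h.rprime V (h.vnorm w) (h.vnorm d) (h.vco h.rprime h.pr.symm) hyw hyd ?_ hyV
  intro x hx v hv hxv hyv
  obtain ⟨-, hxo, hxc⟩ := hp.comb h.rprime hx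
  exact h.ntV (hxo ▸ h.rprime) hyp (by rw [hxo, hyo]; exact h.rs) (by rw [hxo]; exact h.pr.symm)
    (by rw [hyo]; exact h.ps.symm) (hxc y hyw hyd).symm hv hxv hyv

theorem false_of_normal_prime (h : Faith L V Z p q r s) {w : G} (hwL : w ∈ L) (hwo : orderOf w = r)
    (hn : L ≤ normalizer (zpowers w : Set G))
    (hC : ∀ x ∈ L, orderOf x = r → (∀ c ∈ Z, Commute x c) → x ∈ zpowers w)
    (hS : ∀ y ∈ L, orderOf y = s → Fixes V y)
    (hY : ∀ y ∈ L, orderOf y = s → Commute y w → ¬ Fixes Z y) : False := by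
  haveI := Fact.mk h.rprime
  haveI := Fact.mk h.sprime
  haveI := h.zcomm
  haveI := h.vcomm
  haveI := h.solv
  obtain ⟨a, b, hab⟩ := h.spair
  obtain ⟨y, hy, hyw⟩ := hab.exists_commute h.sprime h.rprime hwo hn
  obtain ⟨e, he, hef⟩ := hab.exists_fixes h.sprime Z h.zne (h.znormal hab.amem) (h.znormal hab.bmem)
    (h.zco h.sprime h.qs.symm)
  obtain ⟨hyL, hyo, -⟩ := hab.comb h.sprime hy
  obtain ⟨heL, heo, -⟩ := hab.comb h.sprime he
  have hye : Commute y e := hab.comb_commute h.sprime hy he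
  have hnew : ¬ Commute e w := fun hc => hY e heL heo hc hef
  have hdvd : s ∣ r - 1 := (commute_or_dvd h.rprime h.sprime hwo heo (hn heL)).resolve_left hnew
  have hr2 : r ≠ 2 := fun h2 => by rw [h2] at hdvd; exact h.sprime.ne_one (Nat.dvd_one.mp hdvd)
  have hyV : Fixes V y := hS y hyL hyo
  have hyZ : ¬ Fixes Z y := hY y hyL hyo hyw
  set Q := core L r
  have hQn : L ≤ normalizer (Q : Set G) := le_normalizer_of_conj fun g hg x hx => core_conj L r hg hx
  have hQp := core_isPGroup L r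
  have hwQ : w ∈ omegaCenter Q r := by
    refine ⟨le_core (N := zpowers w) (zpowers_le.mpr hwL) (fun g hg x hx => conj_mem_of_normalizer (hn hg) hx)
      (IsPGroup.of_card (n := 1) (by rw [pow_one, Nat.card_zpowers, hwo])) (mem_zpowers w),
      hwo ▸ pow_orderOf_eq_one w, fun c hc => ?_⟩
    obtain ⟨j, hj⟩ := hQp ⟨c, hc⟩
    exact (commute_of_pgroup h.rprime hwo (hn (core_le L r hc)) (congrArg Subtype.val hj)).symm
  have hQ0 : ¬ HasPair Q r := by
    intro hp
    obtain ⟨u₀, hu₀, -, hu₀w⟩ := exists_mem_layer hr2 hQp hwQ hwo hp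
    set T := layer Q r hr2 w hwQ
    have hTQ : T ≤ Q := fun u hu => hu.1
    have hTL : T ≤ L := hTQ.trans (core_le L r)
    have hcen : ∀ c ∈ zpowers w, ∀ u ∈ Q, Commute c u := by
      rintro c ⟨k, rfl⟩ u hu; exact (hwQ.2.2 u hu).zpow_left k
    have hwT : w ∈ T := ⟨hwQ.1, hwQ.2.1, fun g hg => by
      rw [commutatorElement_eq_one_iff_mul_comm.mpr (hwQ.2.2 g hg).eq]; exact one_mem _⟩
    have hLT : ∀ g ∈ L, ∀ u ∈ T, g * u * g⁻¹ ∈ T := fun g hg u hu =>
      ⟨core_conj L r hg hu.1, by rw [conj_pow, hu.2.1, mul_one, mul_inv_cancel], fun c hc => by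
        have hc' : g⁻¹ * c * g ∈ Q := by simpa using core_conj L r (L.inv_mem hg) hc
        have h1 := conj_mem_of_normalizer (hn hg) (hu.2.2 _ hc')
        have e : g * ⁅u, g⁻¹ * c * g⁆ * g⁻¹ = ⁅g * u * g⁻¹, c⁆ := by
          simp only [commutatorElement_def]; group
        rwa [e] at h1⟩
    set H := normalizer (zpowers w : Set G)
    set W := (zpowers w).subgroupOf H
    haveI : W.Normal := Subgroup.normal_in_normalizer
    set π := QuotientGroup.mk' W
    set Tb := (T.subgroupOf H).map π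
    haveI : IsMulCommutative Tb := ⟨⟨by
      rintro ⟨_, a, ha, rfl⟩ ⟨_, b, hb, rfl⟩
      refine Subtype.ext ?_
      show π a * π b = π b * π a
      rw [← commutatorElement_eq_one_iff_mul_comm, ← map_commutatorElement]
      exact (QuotientGroup.eq_one_iff _).mpr ((ha : (a : G) ∈ T).2.2 b (hTQ hb))⟩⟩
    have hTbp : IsPGroup r Tb := fun ⟨u, hu⟩ => ⟨1, by
      obtain ⟨a, ha, rfl⟩ := hu
      refine Subtype.ext ?_
      show π a ^ r ^ 1 = 1
      rw [pow_one, ← map_pow, show a ^ r = 1 from Subtype.ext (ha : (a : G) ∈ T).2.1, map_one]⟩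
    have hconjT : ∀ g : H, (g : G) ∈ L → ∀ u ∈ Tb, π g * u * (π g)⁻¹ ∈ Tb := by
      rintro g hg _ ⟨u, hu, rfl⟩
      exact ⟨g * u * g⁻¹, hLT g hg u hu, by simp⟩
    set Y : H ⧸ W := π ⟨y, hn hyL⟩ with hY'
    set E : H ⧸ W := π ⟨e, hn heL⟩ with hE'
    let δ : Tb →* H ⧸ W :=
      { toFun := fun u => (u : H ⧸ W) * (Y * (u : H ⧸ W)⁻¹ * Y⁻¹)
        map_one' := by simp
        map_mul' := fun a b => by
          have hinv : ∀ u : Tb, Y * (u : H ⧸ W)⁻¹ * Y⁻¹ ∈ Tb := fun u => hconjT _ hyL _ (Tb.inv_mem u.2)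
          have hc : Commute (b : H ⧸ W) (Y * (a : H ⧸ W)⁻¹ * Y⁻¹) := setLike_mul_comm b.2 (hinv a)
          calc ((a * b : Tb) : H ⧸ W) * (Y * ((a * b : Tb) : H ⧸ W)⁻¹ * Y⁻¹)
              = (a : H ⧸ W) * (b * ((Y * (b : H ⧸ W)⁻¹ * Y⁻¹) * (Y * (a : H ⧸ W)⁻¹ * Y⁻¹))) := by
                rw [Subgroup.coe_mul]; group
            _ = (a : H ⧸ W) * (b * ((Y * (a : H ⧸ W)⁻¹ * Y⁻¹) * (Y * (b : H ⧸ W)⁻¹ * Y⁻¹))) := by
                rw [(show Commute (Y * (b : H ⧸ W)⁻¹ * Y⁻¹) (Y * (a : H ⧸ W)⁻¹ * Y⁻¹) from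
                  setLike_mul_comm (hinv b) (hinv a)).eq]
            _ = _ := by rw [← mul_assoc (b : H ⧸ W), hc.eq]; group }
    set M := δ.range
    have hMT : M ≤ Tb := by rintro _ ⟨u, rfl⟩; exact Tb.mul_mem u.2 (hconjT _ hyL _ (Tb.inv_mem u.2))
    haveI : IsMulCommutative M := ⟨⟨fun u v => Subtype.ext (setLike_mul_comm (hMT u.2) (hMT v.2))⟩⟩
    by_cases hM : M = ⊥
    · have h1 : δ ⟨π ⟨u₀, hn (hTL hu₀)⟩, ⟨u₀, hn (hTL hu₀)⟩, hu₀, rfl⟩ = 1 := by
        have hm : δ ⟨π ⟨u₀, hn (hTL hu₀)⟩, ⟨u₀, hn (hTL hu₀)⟩, hu₀, rfl⟩ ∈ M := ⟨_, rfl⟩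
        rwa [hM, Subgroup.mem_bot] at hm
      have h2 : π (⟨u₀, hn (hTL hu₀)⟩ * (⟨y, hn hyL⟩ * ⟨u₀, hn (hTL hu₀)⟩⁻¹ * ⟨y, hn hyL⟩⁻¹)) = 1 := by
        simp only [map_mul, map_inv]; exact h1
      obtain ⟨k, hk⟩ := (QuotientGroup.eq_one_iff _).mp h2
      have hk' : w ^ k = u₀ * (y * u₀⁻¹ * y⁻¹) := hk
      have hone := eq_one_of_twist (s := s) (hyo ▸ pow_orderOf_eq_one y)
        (show y * u₀ * y⁻¹ = (w ^ k)⁻¹ * u₀ by rw [hk']; group) (hyw.zpow_right k).inv_right (by
          rw [orderOf_inv]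
          exact ((Nat.coprime_primes h.sprime h.rprime).mpr h.rs.symm).coprime_dvd_right
            (orderOf_dvd_of_pow_eq_one (by rw [← zpow_natCast, ← zpow_mul, mul_comm, zpow_mul, zpow_natCast, ← hwo,
              pow_orderOf_eq_one, one_zpow])))
      have hyu : y * u₀ * y⁻¹ = u₀ := by rw [show y * u₀ * y⁻¹ = (w ^ k)⁻¹ * u₀ by rw [hk']; group, hone, one_mul]
      have hmem : ∀ x ∈ closure ({w, u₀} : Set G), y * x * y⁻¹ ∈ closure ({w, u₀} : Set G) := by
        intro x hx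
        induction hx using Subgroup.closure_induction with
        | mem x hx =>
          rcases hx with rfl | rfl
          · rw [hyw.eq, mul_inv_cancel_right]; exact subset_closure (Set.mem_insert _ _)
          · rw [hyu]; exact subset_closure (Set.mem_insert_of_mem _ rfl)
        | one => simp
        | mul u v _ _ hu hv =>
          rw [show y * (u * v) * y⁻¹ = (y * u * y⁻¹) * (y * v * y⁻¹) by group]; exact mul_mem hu hv
        | inv u _ hu => rw [show y * u⁻¹ * y⁻¹ = (y * u * y⁻¹)⁻¹ by group]; exact inv_mem hu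
      have hcomm : Commute w u₀ := hwQ.2.2 u₀ (hTQ hu₀)
      have hclc : IsMulCommutative (closure ({w, u₀} : Set G)) := Subgroup.isMulCommutative_closure (by
        rintro u (rfl | rfl) v (rfl | rfl) <;> first | rfl | exact hcomm.eq | exact hcomm.eq.symm)
      have hcl : closure ({w, u₀} : Set G) ≤ T := (closure_le T).mpr (by rintro x (rfl | rfl); exacts [hwT, hu₀])
      exact h.false_of_abelian hC hwo hyL hyo hyw hyV hyZ (hcl.trans hTL) hclc (fun u hu => (hcl hu).2.1)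
        (subset_closure (Set.mem_insert _ _)) hmem (subset_closure (Set.mem_insert_of_mem _ rfl)) hu₀w
    · have hnE : E ∈ normalizer (M : Set (H ⧸ W)) := by
        have key : ∀ g : H, (g : G) ∈ L → Commute (π g) Y → ∀ m ∈ M, π g * m * (π g)⁻¹ ∈ M := by
          rintro g hg hgY _ ⟨u, rfl⟩
          refine ⟨⟨π g * u * (π g)⁻¹, hconjT g hg _ u.2⟩, ?_⟩
          show π g * u * (π g)⁻¹ * (Y * (π g * u * (π g)⁻¹)⁻¹ * Y⁻¹) = π g * (u * (Y * (u : H ⧸ W)⁻¹ * Y⁻¹)) * (π g)⁻¹
          have h1 : Y * π g = π g * Y := hgY.eq.symm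
          have h2 : (π g)⁻¹ * Y⁻¹ = Y⁻¹ * (π g)⁻¹ := hgY.inv_inv.eq
          calc π g * u * (π g)⁻¹ * (Y * (π g * u * (π g)⁻¹)⁻¹ * Y⁻¹)
              = π g * u * (π g)⁻¹ * ((Y * π g) * (u : H ⧸ W)⁻¹ * ((π g)⁻¹ * Y⁻¹)) := by group
            _ = _ := by rw [h1, h2]; group
        have hEY : Commute E Y := by
          show π _ * π _ = π _ * π _
          rw [← map_mul, ← map_mul]; exact congrArg π (Subtype.ext hye.symm.eq)
        rw [Subgroup.mem_normalizer_iff]
        refine fun m => ⟨key ⟨e, hn heL⟩ heL hEY m, fun hm => ?_⟩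
        have := key ⟨e, hn heL⟩⁻¹ (L.inv_mem heL) (by rw [map_inv]; exact hEY.inv_left) _ hm
        rw [map_inv] at this
        simpa [mul_assoc, E] using this
      have hEY : Commute Y E := by
        show π _ * π _ = π _ * π _
        rw [← map_mul, ← map_mul]; exact congrArg π (Subtype.ext hye.eq)
      have hYs : Y ^ s = 1 := by
        rw [hY', ← map_pow, show (⟨y, hn hyL⟩ : H) ^ s = 1 from Subtype.ext (hyo ▸ pow_orderOf_eq_one y), map_one]
      have hEs : E ^ s = 1 := by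
        rw [hE', ← map_pow, show (⟨e, hn heL⟩ : H) ^ s = 1 from Subtype.ext (heo ▸ pow_orderOf_eq_one e), map_one]
      have hYn : Y ∈ normalizer (M : Set (H ⧸ W)) := by
        refine le_normalizer_of_conj (L := zpowers Y) ?_ (mem_zpowers Y)
        intro g hg m hm
        obtain ⟨u, rfl⟩ := hm
        obtain ⟨k, rfl⟩ := hg
        have hk : Y ^ k = π (⟨y, hn hyL⟩ ^ k) := (map_zpow π _ k).symm
        refine ⟨⟨Y ^ k * u * (Y ^ k)⁻¹, by rw [hk]; exact hconjT _ (L.zpow_mem hyL k) _ u.2⟩, ?_⟩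
        show Y ^ k * u * (Y ^ k)⁻¹ * (Y * (Y ^ k * u * (Y ^ k)⁻¹)⁻¹ * Y⁻¹) = Y ^ k * (u * (Y * (u : H ⧸ W)⁻¹ * Y⁻¹)) * (Y ^ k)⁻¹
        group
      have hMco : s.Coprime (Nat.card M) := coprime_of_isPGroup h.rprime h.sprime h.rs.symm (hTbp.to_le hMT)
      obtain ⟨x, hxE, m, hm, hm1, hxm⟩ : ∃ x : H, (∃ i : ℕ, x = ⟨e, hn heL⟩ * ⟨y, hn hyL⟩ ^ i) ∧
          ∃ m ∈ M, m ≠ 1 ∧ Commute (π x) m := by
        rcases fix_pair_sub M hM h.sprime hEY hYs hEs hYn hnE hMco with ⟨m, hm, hm1, hc⟩ | ⟨i, m, hm, hm1, hc⟩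
        · exfalso
          refine hm1 ?_
          obtain ⟨u, rfl⟩ := hm
          have h1 : Y * (u : H ⧸ W) * Y⁻¹ = (δ u)⁻¹ * u := by
            show Y * (u : H ⧸ W) * Y⁻¹ = ((u : H ⧸ W) * (Y * (u : H ⧸ W)⁻¹ * Y⁻¹))⁻¹ * u
            group
          exact inv_eq_one.mp (eq_one_of_twist hYs h1 hc.inv_right
            ((coprime_of_isPGroup h.rprime h.sprime h.rs.symm hTbp).coprime_dvd_right
              (Tb.orderOf_dvd_natCard (Tb.inv_mem (hMT ⟨u, rfl⟩)))))
        · exact ⟨_, ⟨i, rfl⟩, m, hm, hm1, by rw [map_mul, map_pow]; exact hc⟩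
      obtain ⟨i, rfl⟩ := hxE
      set x : G := e * y ^ i with hx
      have hxL : x ∈ L := L.mul_mem heL (L.pow_mem hyL i)
      have hxy : Commute x y := hye.symm.mul_left ((Commute.refl y).pow_left i)
      have hxw : ¬ Commute x w := fun hc => hnew (by
        have := hc.mul_left (hyw.pow_left i).inv_left
        rwa [hx, mul_inv_cancel_right] at this)
      obtain ⟨u, hu, rfl⟩ := hMT hm
      have huT : (u : G) ∈ T := hu
      have hxu : x * u * x⁻¹ * (u : G)⁻¹ ∈ zpowers w := by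
        rw [Commute, SemiconjBy, ← commutatorElement_eq_one_iff_mul_comm, ← map_commutatorElement] at hxm
        obtain ⟨k, hk⟩ := (QuotientGroup.eq_one_iff _).mp hxm
        exact ⟨k, hk⟩
      have huw : (u : G) ∉ zpowers w := fun hh => hm1 ((QuotientGroup.eq_one_iff u).mpr hh)
      have hxwn : ∀ c ∈ zpowers w, x * c * x⁻¹ ∈ zpowers w := fun c hc => conj_mem_of_normalizer (hn hxL) hc
      let A : Subgroup G :=
        { carrier := {v | v ∈ T ∧ x * v * x⁻¹ * v⁻¹ ∈ zpowers w}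
          one_mem' := ⟨T.one_mem, by simp⟩
          mul_mem' := fun {u v} hu hv => ⟨T.mul_mem hu.1 hv.1, by
            rw [show x * (u * v) * x⁻¹ * (u * v)⁻¹ = (x * u * x⁻¹ * u⁻¹) * (u * (x * v * x⁻¹ * v⁻¹) * u⁻¹) by group,
              show u * (x * v * x⁻¹ * v⁻¹) * u⁻¹ = x * v * x⁻¹ * v⁻¹ by
                rw [← (hcen _ hv.2 u (hTQ hu.1)).eq, mul_inv_cancel_right]]
            exact mul_mem hu.2 hv.2⟩
          inv_mem' := fun {u} hu => ⟨T.inv_mem hu.1, by
            rw [show x * u⁻¹ * x⁻¹ * u⁻¹⁻¹ = u⁻¹ * (x * u * x⁻¹ * u⁻¹)⁻¹ * u by group,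
              mul_assoc, (hcen _ (inv_mem hu.2) u (hTQ hu.1)).eq, inv_mul_cancel_left]
            exact inv_mem hu.2⟩ }
      have hAc : IsMulCommutative A := ⟨⟨fun a b => Subtype.ext <| by
        have hc : ⁅(a : G), (b : G)⁆ ∈ zpowers w := a.2.1.2.2 b (hTQ b.2.1)
        have e1 : x * ⁅(a : G), (b : G)⁆ * x⁻¹ = ⁅(a : G), (b : G)⁆ := by
          have ha := hcen _ a.2.2
          have hb := hcen _ b.2.2
          rw [show x * ⁅(a : G), (b : G)⁆ * x⁻¹ = ⁅(x * a * x⁻¹ * (a : G)⁻¹) * a, (x * b * x⁻¹ * (b : G)⁻¹) * b⁆ by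
            simp only [commutatorElement_def]; group]
          set ca := x * a * x⁻¹ * (a : G)⁻¹
          set cb := x * b * x⁻¹ * (b : G)⁻¹
          have hcaQ : ca ∈ Q := (zpowers_le.mpr hwQ.1) a.2.2
          have hcbQ : cb ∈ Q := (zpowers_le.mpr hwQ.1) b.2.2
          rw [commutatorElement_def, commutatorElement_def]
          calc ca * a * (cb * b) * (ca * a)⁻¹ * (cb * b)⁻¹
              = ca * (a * cb) * b * (a : G)⁻¹ * (ca⁻¹ * (b : G)⁻¹) * cb⁻¹ := by group
            _ = ca * (cb * a) * b * (a : G)⁻¹ * ((b : G)⁻¹ * ca⁻¹) * cb⁻¹ := by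
                rw [(hb a (hTQ a.2.1)).eq, ((ha b (hTQ b.2.1)).inv_inv).eq]
            _ = (ca * cb) * (a * b * (a : G)⁻¹ * (b : G)⁻¹) * (ca⁻¹ * cb⁻¹) := by group
            _ = _ := by
                have h4 : Commute (ca * cb) (a * b * (a : G)⁻¹ * (b : G)⁻¹) :=
                  (ha _ (Q.mul_mem (Q.mul_mem (Q.mul_mem (hTQ a.2.1) (hTQ b.2.1)) (Q.inv_mem (hTQ a.2.1))) (Q.inv_mem (hTQ b.2.1)))).mul_left
                    (hb _ (Q.mul_mem (Q.mul_mem (Q.mul_mem (hTQ a.2.1) (hTQ b.2.1)) (Q.inv_mem (hTQ a.2.1))) (Q.inv_mem (hTQ b.2.1))))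
                rw [h4.eq, ← (ha cb hcbQ).inv_inv.eq.symm]
                group
        have h1 := eq_one_of_commute_zpowers (hwo ▸ h.rprime) hxw _ hc (mul_inv_eq_iff_eq_mul.mp e1)
        exact commutatorElement_eq_one_iff_mul_comm.mp h1⟩⟩
      refine h.false_of_abelian hC hwo hyL hyo hyw hyV hyZ (A := A) (fun v hv => hTL hv.1) hAc (fun v hv => hv.1.2.1)
        ⟨hwT, mul_mem (hxwn w (mem_zpowers w)) (inv_mem (mem_zpowers w))⟩ ?_ (d := (u : G)) ⟨huT, hxu⟩ huw
      intro v (hv : v ∈ T ∧ x * v * x⁻¹ * v⁻¹ ∈ zpowers w)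
      refine ⟨hLT y hyL v hv.1, ?_⟩
      have hyc : ∀ c ∈ zpowers w, y * c * y⁻¹ = c := by
        rintro c ⟨k, rfl⟩; rw [(hyw.zpow_right k).eq, mul_inv_cancel_right]
      have e2 : x * (y * v * y⁻¹) * x⁻¹ * (y * v * y⁻¹)⁻¹ = y * (x * v * x⁻¹ * v⁻¹) * y⁻¹ := by
        calc x * (y * v * y⁻¹) * x⁻¹ * (y * v * y⁻¹)⁻¹ = (x * y) * v * (y⁻¹ * x⁻¹) * (y * v * y⁻¹)⁻¹ := by group
          _ = (y * x) * v * (x⁻¹ * y⁻¹) * (y * v * y⁻¹)⁻¹ := by rw [hxy.eq, hxy.inv_inv.eq.symm]
          _ = _ := by group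
      rw [e2, hyc _ hv.2]; exact hv.2
  -- the core is cyclic
  have hyQ : ∀ c ∈ Q, Commute y c :=
    commute_of_not_pair hr2 hQp hQ0 hwQ hwo h.sprime h.rs.symm hyo (hQn hyL) hyw
  by_cases hS0 : core L s = ⊥
  · have := mem_core_of_centralizes L hyL hyo fun t ht hd c hc => by
      rcases h.primes t ht hd with rfl | rfl
      · exact hyQ c hc
      · rw [hS0, Subgroup.mem_bot] at hc; rw [hc]; exact Commute.one_right y
    rw [hS0, Subgroup.mem_bot] at this
    exact h.sprime.ne_one (by rw [← hyo, this, orderOf_one])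
  obtain ⟨t, ht, hto⟩ := exists_omegaCenter (core_isPGroup L s) hS0
  set W' := omegaCenter (core L s) s
  have hW'w : ∀ x ∈ W', Commute x w := fun x hx => (commute_cores h.rs hwQ.1 hx.1).symm
  have hW' : ¬ HasPair W' s := by
    intro hp
    obtain ⟨x, hx, hxo, hxf⟩ := hp.exists_fixes h.sprime Z h.zne (fun x hx => h.znormal (core_le L s hx.1))
      (h.zco h.sprime h.qs.symm)
    exact hY x (core_le L s hx.1) hxo (hW'w x hx) hxf
  have hall : ∀ x ∈ W', x ∈ zpowers t := fun x hx => by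
    by_cases h1 : x = 1
    · rw [h1]; exact one_mem _
    · exact mem_zpowers_of_not_pair hW' ht hto hx (orderOf_eq_prime hx.2.1 h1) (ht.2.2 x hx.1)
  have hnt : L ≤ normalizer (zpowers t : Set G) := fun g hg => zpowers_conj hall ht
    (le_normalizer_of_conj (fun g hg x hx => omegaCenter_conj
      (le_normalizer_of_conj (fun g hg x hx => core_conj L s hg hx) hg) hx) hg)
  obtain ⟨x, hxL, hxo, hxw⟩ : ∃ x ∈ L, orderOf x = r ∧ x ∉ zpowers w := by
    obtain ⟨a, b, hab⟩ := h.rpair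
    by_contra hcon
    push Not at hcon
    have ha := hcon a hab.amem hab.aord
    have hb := hcon b hab.bmem hab.bord
    have hz' := Subgroup.eq_of_le_of_card_ge (zpowers_le.mpr ha) (by
      rw [Nat.card_zpowers, Nat.card_zpowers, hwo, hab.aord])
    exact hab.notMem (hz' ▸ hb)
  have hxwc : Commute x w := commute_of_same h.rprime hwo hxo (hn hxL)
  rcases commute_or_dvd h.sprime h.rprime hto hxo (hnt hxL) with hxt | hd2
  · have hp : IsPair L r w x := ⟨hwL, hxL, hwo, hxo, hxwc.symm, hxw⟩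
    have htL : t ∈ L := core_le L s ht.1
    refine hp.excludes h.rprime V (h.vnorm w) (h.vnorm x) (h.vco h.rprime h.pr.symm) (hW'w t ht) hxt.symm ?_
      (hS t htL hto)
    intro u hu v hv huv htv
    obtain ⟨-, huo, huc⟩ := hp.comb h.rprime hu
    exact h.ntV (huo ▸ h.rprime) (hto ▸ h.sprime) (by rw [huo, hto]; exact h.rs) (by rw [huo]; exact h.pr.symm)
      (by rw [hto]; exact h.ps.symm) (huc t (hW'w t ht) hxt.symm).symm hv huv htv
  · have hs2 := h.sprime.two_le
    have hr2' := h.rprime.two_le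
    have h1 : r ≤ s - 1 := Nat.le_of_dvd (show 0 < s - 1 by omega) hd2
    have h2 : s ≤ r - 1 := Nat.le_of_dvd (show 0 < r - 1 by omega) hdvd
    omega

/-- Elements centralising `Z` in the core of their subgroup. -/
theorem false_of_core_centralizer (h : Faith L V Z p q r s)
    (hC : core (L ⊓ centralizer (Z : Set G)) r ≠ ⊥) : False := by
  haveI := Fact.mk h.rprime
  haveI := h.vcomm
  haveI := h.zcomm
  set C := L ⊓ centralizer (Z : Set G)
  have hCZ : ∀ x ∈ C, ∀ c ∈ Z, Commute x c := fun x hx c hc => (Subgroup.mem_centralizer_iff.mp hx.2 c hc).symm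
  have hCn : ∀ g ∈ L, ∀ x ∈ C, g * x * g⁻¹ ∈ C := fun g hg x hx => by
    refine ⟨L.mul_mem (L.mul_mem hg hx.1) (L.inv_mem hg), Subgroup.mem_centralizer_iff.mpr fun c hc => ?_⟩
    have h1 : g⁻¹ * c * g ∈ Z := by
      simpa using conj_mem_of_normalizer ((normalizer (Z : Set G)).inv_mem (h.znormal hg)) hc
    have h2 := hCZ x hx _ h1
    calc c * (g * x * g⁻¹) = g * ((g⁻¹ * c * g) * x) * g⁻¹ := by group
      _ = g * (x * (g⁻¹ * c * g)) * g⁻¹ := by rw [h2.eq]
      _ = g * x * g⁻¹ * c := by group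
  set W := omegaCenter (core C r) r
  have hWC : W ≤ C := fun x hx => core_le C r hx.1
  obtain ⟨w, hw, hwo⟩ := exists_omegaCenter (core_isPGroup C r) hC
  have good : ∀ x ∈ C, orderOf x = r → ¬ Fixes V x := fun x hx hxo =>
    h.not_fixes_of_central (hxo ▸ h.rprime) (by rw [hxo]; exact h.qr.symm) (by rw [hxo]; exact h.pr.symm) (hCZ x hx)
  have nopair : ∀ {D : Subgroup G}, D ≤ C → ¬ HasPair D r := fun {D} hD hp => by
    obtain ⟨x, hx, hxo, hxf⟩ := hp.exists_fixes h.rprime V h.vne (fun g _ => h.vnorm g) (h.vco h.rprime h.pr.symm)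
    exact good x (hD hx) hxo hxf
  have hall : ∀ x ∈ W, x ∈ zpowers w := fun x hx => by
    by_cases h1 : x = 1
    · rw [h1]; exact one_mem _
    · exact mem_zpowers_of_not_pair (nopair hWC) hw hwo hx (orderOf_eq_prime hx.2.1 h1) (hw.2.2 x hx.1)
  have hwC := hWC hw
  have hn : L ≤ normalizer (zpowers w : Set G) := fun g hg => zpowers_conj hall hw
    (le_normalizer_of_conj (L := L) (fun g hg x hx => omegaCenter_conj
      (le_normalizer_of_conj (L := L) (fun g hg x hx => core_conj' (le_normalizer_of_conj hCn hg) hx) hg) hx) hg)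
  have hwgood := good w hwC hwo
  have hwp : (orderOf w).Prime := hwo ▸ h.rprime
  refine h.false_of_normal_prime hwC.1 hwo hn ?_ ?_ ?_
  · intro x hx hxo hxZ
    have hxw := commute_of_same h.rprime hwo hxo (hn hx)
    exact mem_zpowers_of_not_pair (nopair le_rfl) hwC hwo
      (show x ∈ C from ⟨hx, Subgroup.mem_centralizer_iff.mpr fun c hc => (hxZ c hc).eq.symm⟩) hxo hxw.symm
  · intro y hy hyo
    have hyp : (orderOf y).Prime := hyo ▸ h.sprime
    refine h.fixes_of_not_central hy hyp (by rw [hyo]; exact h.qs.symm) fun hyZ => ?_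
    have hygood := h.not_fixes_of_central hyp (by rw [hyo]; exact h.qs.symm) (by rw [hyo]; exact h.ps.symm) hyZ
    by_cases hyw : Commute y w
    · obtain ⟨a, b, hab⟩ := h.zpair
      exact h.noTriple a w y (hab.aord ▸ h.qprime) hwp hyp (by rw [hab.aord, hwo]; exact h.qr)
        (by rw [hwo, hyo]; exact h.rs) (by rw [hab.aord, hyo]; exact h.qs) (hCZ w hwC a hab.amem).symm
        (hyZ a hab.amem).symm hyw.symm
    · exact hygood (fixes_of_moves V hwp hyp (hn hy) hyw (h.vnorm w) (h.vnorm y) (hwo ▸ h.vco h.rprime h.pr.symm)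
        fun hall => hwgood (fixes_of_centralizes h.vne hall))
  · intro y hy hyo hyw hyZ
    have hyp : (orderOf y).Prime := hyo ▸ h.sprime
    obtain ⟨c, hc, hc1, hyc⟩ := hyZ
    have hco := orderOf_eq_of_pgroup h.qprime h.zexp hc hc1
    exact h.noTriple c w y (hco ▸ h.qprime) hwp hyp (by rw [hco, hwo]; exact h.qr) (by rw [hwo, hyo]; exact h.rs)
      (by rw [hco, hyo]; exact h.qs) (hCZ w hwC c hc).symm hyc.symm hyw.symm

theorem false_of_core (h : Faith L V Z p q r s) (hC : core L r ≠ ⊥)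
    (hnone : ∀ x ∈ L, (orderOf x).Prime → ¬ ∀ c ∈ Z, Commute x c) : False := by
  haveI := Fact.mk h.rprime
  haveI := h.vcomm
  haveI := h.zcomm
  set W := omegaCenter (core L r) r
  have hWL : W ≤ L := fun x hx => core_le L r hx.1
  have hWn : ∀ g ∈ L, ∀ x ∈ W, g * x * g⁻¹ ∈ W := fun g hg x hx =>
    omegaCenter_conj (le_normalizer_of_conj (fun g hg x hx => core_conj L r hg hx) hg) hx
  have bad : ∀ y ∈ L, orderOf y = s → Fixes V y := fun y hy hyo =>
    h.fixes_of_not_central hy (hyo ▸ h.sprime) (by rw [hyo]; exact h.qs.symm) (hnone y hy (hyo ▸ h.sprime))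
  by_cases hp : HasPair W r
  · obtain ⟨a, b, hab⟩ := hp
    haveI := omegaCenter_comm (core L r) r
    have hWp : IsPGroup r W := (core_isPGroup L r).to_le fun x hx => hx.1
    obtain ⟨y, hy, hyo, c, hc, hc1, hyc⟩ := h.spair.exists_fixes h.sprime W (fun e => by
        have := hab.amem
        rw [e, Subgroup.mem_bot] at this
        exact h.rprime.ne_one (by rw [← hab.aord, this, orderOf_one]))
      (le_normalizer_of_conj hWn) (coprime_of_isPGroup h.rprime h.sprime h.rs.symm hWp)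
    have hyp : (orderOf y).Prime := hyo ▸ h.sprime
    have hco : orderOf c = r := orderOf_eq_prime hc.2.1 hc1
    have hyfree : ¬ Fixes Z y := h.isolated (hWL hc) hyp (hco ▸ h.rprime) (by rw [hyo, hco]; exact h.rs.symm)
      (by rw [hyo]; exact h.qs.symm) (by rw [hco]; exact h.qr.symm) (by rw [hyo]; exact h.ps.symm)
      (by rw [hco]; exact h.pr.symm) hyc (bad y hy hyo)
    have hcent : ∀ d ∈ W, Commute y d := fun d hd => by
      have h1 := master_abelian Z W hyp (pow_orderOf_eq_one y) (h.znormal hy) (hWL.trans h.znormal)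
        (fun a ha => hWn y hy a ha) (by rw [hyo]; exact coprime_of_isPGroup h.rprime h.sprime h.rs.symm hWp)
        (by
          obtain ⟨j, hj⟩ := IsPGroup.iff_card.mp hWp
          rw [hj]; exact (h.zco h.rprime h.qr.symm).pow_left j)
        (eq_one_of_not_fixes hyfree) d hd
      have hm : d * (y * d⁻¹ * y⁻¹) ∈ W := W.mul_mem hd (hWn y hy _ (W.inv_mem hd))
      have h2 : d * (y * d⁻¹ * y⁻¹) = 1 := by_contra fun hne =>
        hnone _ (hWL hm) (by rw [orderOf_eq_prime hm.2.1 hne]; exact h.rprime) h1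
      have h3 : d = y * d * y⁻¹ := by
        rw [mul_eq_one_iff_eq_inv] at h2
        simpa [mul_assoc] using h2
      exact mul_inv_eq_iff_eq_mul.mp h3.symm
    refine hab.excludes h.rprime V (h.vnorm a) (h.vnorm b) (h.vco h.rprime h.pr.symm) (hcent a hab.amem)
      (hcent b hab.bmem) ?_ (bad y hy hyo)
    intro x hx v hv hxv hyv
    obtain ⟨hxW, hxo, -⟩ := hab.comb h.rprime hx
    exact h.ntV (hxo ▸ h.rprime) hyp (by rw [hxo, hyo]; exact h.rs) (by rw [hxo]; exact h.pr.symm)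
      (by rw [hyo]; exact h.ps.symm) (hcent x hxW).symm hv hxv hyv
  · obtain ⟨w, hw, hwo⟩ := exists_omegaCenter (core_isPGroup L r) hC
    have hall : ∀ x ∈ W, x ∈ zpowers w := fun x hx => by
      by_cases h1 : x = 1
      · rw [h1]; exact one_mem _
      · exact mem_zpowers_of_not_pair hp hw hwo hx (orderOf_eq_prime hx.2.1 h1) (hw.2.2 x hx.1)
    have hn : L ≤ normalizer (zpowers w : Set G) := fun g hg => zpowers_conj hall hw (le_normalizer_of_conj hWn hg)
    refine h.false_of_normal_prime (hWL hw) hwo hn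
      (fun x hx hxo hxZ => absurd hxZ (hnone x hx (hxo ▸ h.rprime))) bad fun y hy hyo hyw => ?_
    exact h.isolated (hWL hw) (hyo ▸ h.sprime) (hwo ▸ h.rprime) (by rw [hyo, hwo]; exact h.rs.symm)
      (by rw [hyo]; exact h.qs.symm) (by rw [hwo]; exact h.qr.symm) (by rw [hyo]; exact h.ps.symm)
      (by rw [hwo]; exact h.pr.symm) hyw (bad y hy hyo)

theorem false (h : Faith L V Z p q r s) : False := by
  haveI := h.solv
  haveI := Fact.mk h.rprime
  haveI := Fact.mk h.sprime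
  by_cases hc : ∃ x ∈ L, (orderOf x).Prime ∧ ∀ c ∈ Z, Commute x c
  · obtain ⟨x, hx, hxp, hxZ⟩ := hc
    set C := L ⊓ centralizer (Z : Set G)
    have hxC : x ∈ C := ⟨hx, Subgroup.mem_centralizer_iff.mpr fun c hc => (hxZ c hc).eq.symm⟩
    haveI : Group.IsSolvable C := solvable_of_solvable_injective (Subgroup.inclusion_injective (inf_le_left : C ≤ L))
    by_cases hr : core C r = ⊥
    · by_cases hs : core C s = ⊥
      · have htriv : ∀ t : ℕ, t.Prime → t ∣ Nat.card C → ∀ c ∈ core C t, Commute x c := fun t ht hd c hc' => by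
          rcases h.primes t ht (hd.trans (card_dvd_of_le inf_le_left)) with rfl | rfl
          · rw [hr, Subgroup.mem_bot] at hc'; rw [hc']; exact Commute.one_right x
          · rw [hs, Subgroup.mem_bot] at hc'; rw [hc']; exact Commute.one_right x
        haveI := Fact.mk hxp
        have := mem_core_of_centralizes C hxC rfl htriv
        rcases h.primes _ hxp (L.orderOf_dvd_natCard hx) with e | e
        · rw [e, hr, Subgroup.mem_bot] at this
          exact hxp.ne_one (by rw [this, orderOf_one])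
        · rw [e, hs, Subgroup.mem_bot] at this
          exact hxp.ne_one (by rw [this, orderOf_one])
      · exact h.symm.false_of_core_centralizer hs
    · exact h.false_of_core_centralizer hr
  · push Not at hc
    have hnone : ∀ x ∈ L, (orderOf x).Prime → ¬ ∀ c ∈ Z, Commute x c := fun x hx hp hall => by
      obtain ⟨c, hc', hne⟩ := hc x hx hp
      exact hne (hall c hc')
    by_cases hr : core L r = ⊥
    · by_cases hs : core L s = ⊥
      · obtain ⟨a, b, hab⟩ := h.spair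
        have := mem_core_of_centralizes L hab.amem hab.aord fun t ht hd c hc' => by
          rcases h.primes t ht hd with rfl | rfl
          · rw [hr, Subgroup.mem_bot] at hc'; rw [hc']; exact Commute.one_right a
          · rw [hs, Subgroup.mem_bot] at hc'; rw [hc']; exact Commute.one_right a
        rw [hs, Subgroup.mem_bot] at this
        exact h.sprime.ne_one (by rw [← hab.aord, this, orderOf_one])
      · exact h.symm.false_of_core hs hnone
    · exact h.false_of_core hr hnone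

end Faith

end CfsgLib.ThreeFree
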