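import Cfsg.Agent.ThreeFree.CaseB

/-!
A solvable group whose cores are cyclic of odd order has no independent pair of its largest prime.
-/

set_option autoImplicit false

namespace CfsgLib.ThreeFree

open Subgroup

variable {G : Type*} [Group G] [Finite G]

/-- In a solvable group two elements centralising every core commute. -/
theorem commute_of_centralizes_cores (K : Subgroup G) [Group.IsSolvable K] {x y : G} (hx : x ∈ K) (hy : y ∈ K)
    (hcx : ∀ t : ℕ, t.Prime → t ∣ Nat.card K → ∀ c ∈ core K t, Commute x c)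
    (hcy : ∀ t : ℕ, t.Prime → t ∣ Nat.card K → ∀ c ∈ core K t, Commute y c) : Commute x y := by
  have key : ∀ {u : G} (hu : u ∈ K), (∀ t : ℕ, t.Prime → t ∣ Nat.card K → ∀ c ∈ core K t, Commute u c) →
      (⟨u, hu⟩ : K) ∈ centralizer (Cfsg.fittingSubgroup K : Set K) := by
    intro u hu hc
    rw [Subgroup.mem_centralizer_iff]
    intro f hf
    have hle : Cfsg.fittingSubgroup K ≤ centralizer ({⟨u, hu⟩} : Set K) := by
      rw [Hall.fitting_eq_iSup_primes]
      refine iSup_le fun t c hc' => mem_centralizer_singleton_iff.mpr (Subtype.ext ?_)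
      haveI : Fact (t : ℕ).Prime := ⟨t.2⟩
      by_cases hd : (t : ℕ) ∣ Nat.card K
      · exact (hc t t.2 hd c ⟨c, hc', rfl⟩).eq.symm
      · have hb : (c : G) ∈ core K t := ⟨c, hc', rfl⟩
        rw [core_eq_bot_of_not_dvd K hd, Subgroup.mem_bot] at hb
        simp [hb]
    exact mem_centralizer_singleton_iff.mp (hle hf)
  exact congrArg Subtype.val (Subgroup.mem_centralizer_iff.mp (key hy hcy) _ (Hall.centralizer_fitting_le (key hx hcx)))

theorem not_pair_of_cores (K : Subgroup G) [Group.IsSolvable K] {q r s : ℕ} (hq : q.Prime) (hr : r.Prime)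
    (hs : s.Prime) (hqs : q < s) (hrs : r < s)
    (hK : ∀ t : ℕ, t.Prime → t ∣ Nat.card K → t = q ∨ t = r ∨ t = s)
    (hfree : ∀ t : ℕ, t.Prime → core K t ≠ ⊥ → t ≠ 2 ∧ ¬ HasPair (core K t) t) : ¬ HasPair K s := by
  intro hp
  haveI := Fact.mk hs
  have hnorm : ∀ t, K ≤ normalizer (core K t : Set G) := fun t =>
    le_normalizer_of_conj fun g hg x hx => core_conj K t hg hx
  -- order `s` elements centralise the small cores
  have hsmall : ∀ t : ℕ, t.Prime → t < s → ∀ x ∈ K, orderOf x = s → ∀ c ∈ core K t, Commute x c := by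
    intro t ht hts x hx hxo c hc
    haveI := Fact.mk ht
    by_cases hne : core K t = ⊥
    · rw [hne, Subgroup.mem_bot] at hc; rw [hc]; exact Commute.one_right x
    obtain ⟨w, hw, hwo⟩ := exists_omegaCenter (core_isPGroup K t) hne
    obtain ⟨h2, hnp⟩ := hfree t ht hne
    have hall : ∀ u ∈ omegaCenter (core K t) t, u ∈ zpowers w := fun u hu => by
      by_cases h1 : u = 1
      · rw [h1]; exact one_mem _
      · exact mem_zpowers_of_not_pair hnp hw.1 hwo hu.1 (orderOf_eq_prime hu.2.1 h1) (hw.2.2 u hu.1)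
    have hn : x ∈ normalizer (zpowers w : Set G) := zpowers_conj hall hw
      (le_normalizer_of_conj (L := K) (fun g hg u hu => omegaCenter_conj (hnorm t hg) hu) hx)
    have hxw : Commute x w := (commute_or_dvd ht hs hwo hxo hn).resolve_right fun hd => by
      have := Nat.le_of_dvd (by have := ht.two_le; omega) hd
      omega
    exact commute_of_not_pair h2 (core_isPGroup K t) hnp hw hwo hs (by omega) hxo (hnorm t hx) hxw c hc
  set N := K ⊓ centralizer (core K q : Set G) ⊓ centralizer (core K r : Set G)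
  set D := N ⊓ centralizer (core K s : Set G)
  have hDc : ∀ d ∈ D, ∀ t : ℕ, t.Prime → t ∣ Nat.card K → ∀ c ∈ core K t, Commute d c := by
    intro d hd t ht hdv c hc
    rcases hK t ht hdv with rfl | rfl | rfl
    · exact (Subgroup.mem_centralizer_iff.mp hd.1.1.2 c hc).symm
    · exact (Subgroup.mem_centralizer_iff.mp hd.1.2 c hc).symm
    · exact (Subgroup.mem_centralizer_iff.mp hd.2 c hc).symm
  haveI hDab : IsMulCommutative D :=
    ⟨⟨fun a b => Subtype.ext (commute_of_centralizes_cores K a.2.1.1.1 b.2.1.1.1 (hDc a a.2) (hDc b b.2)).eq⟩⟩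
  have hNK : N ≤ K := fun x hx => hx.1.1
  have hCn : ∀ t, ∀ g ∈ K, ∀ x ∈ centralizer (core K t : Set G), g * x * g⁻¹ ∈ centralizer (core K t : Set G) := by
    intro t g hg x hx
    rw [Subgroup.mem_centralizer_iff] at hx ⊢
    intro c hc
    have h1 : g⁻¹ * c * g ∈ core K t := by simpa using core_conj K t (K.inv_mem hg) hc
    have h2 := hx _ h1
    calc c * (g * x * g⁻¹) = g * ((g⁻¹ * c * g) * x) * g⁻¹ := by group
      _ = g * (x * (g⁻¹ * c * g)) * g⁻¹ := by rw [h2]
      _ = g * x * g⁻¹ * c := by group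
  have hNn : ∀ g ∈ K, ∀ x ∈ N, g * x * g⁻¹ ∈ N := fun g hg x hx =>
    ⟨⟨K.mul_mem (K.mul_mem hg hx.1.1) (K.inv_mem hg), hCn q g hg x hx.1.2⟩, hCn r g hg x hx.2⟩
  have hDn : ∀ g ∈ K, ∀ x ∈ D, g * x * g⁻¹ ∈ D := fun g hg x hx => ⟨hNn g hg x hx.1, hCn s g hg x hx.2⟩
  -- split the order of `D`
  set S := s ^ (Nat.card D).factorization s
  set m := Nat.card D / s ^ (Nat.card D).factorization s
  have hcard : S * m = Nat.card D := Nat.ordProj_mul_ordCompl_eq_self _ s
  have hSm : Nat.Coprime S m := Nat.Coprime.pow_left _ (Nat.coprime_ordCompl hs Nat.card_pos.ne')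
  let sub : ℕ → Subgroup G := fun k =>
    { carrier := {d | d ∈ D ∧ d ^ k = 1}
      one_mem' := ⟨D.one_mem, one_pow k⟩
      mul_mem' := fun {a b} ha hb => ⟨D.mul_mem ha.1 hb.1, by
        rw [(show Commute a b from setLike_mul_comm ha.1 hb.1).mul_pow, ha.2, hb.2, one_mul]⟩
      inv_mem' := fun {a} ha => ⟨D.inv_mem ha.1, by rw [inv_pow, ha.2, inv_one]⟩ }
  have hsubn : ∀ k, ∀ g ∈ K, ∀ x ∈ sub k, g * x * g⁻¹ ∈ sub k := fun k g hg x hx =>
    ⟨hDn g hg x hx.1, by rw [conj_pow, hx.2, mul_one, mul_inv_cancel]⟩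
  haveI : IsMulCommutative (sub m) := ⟨⟨fun a b => Subtype.ext (setLike_mul_comm a.2.1 b.2.1)⟩⟩
  have hsm : ¬ s ∣ m := Nat.not_dvd_ordCompl hs Nat.card_pos.ne'
  have hVcent : ∀ x ∈ K, orderOf x = s → ∀ v ∈ sub m, Commute x v := by
    intro x hx hxo v hv
    refine (Subgroup.mem_centralizer_iff.mp (CoprimeAction.le_centralizer_of_fixes_prime_order
      (A := zpowers x) (V := sub m) (zpowers_le.mpr (le_normalizer_of_conj (hsubn m) hx)) ?_ ?_ (mem_zpowers x)) v hv).symm
    · rw [Nat.card_zpowers, hxo, hs.coprime_iff_not_dvd]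
      intro hd
      obtain ⟨⟨u, hu⟩, huo⟩ := exists_prime_orderOf_dvd_card' s hd
      rw [Subgroup.orderOf_mk] at huo
      exact hsm (huo ▸ orderOf_dvd_of_pow_eq_one hu.2)
    · rintro u hu hup a ⟨i, rfl⟩
      haveI := Fact.mk hup
      have huK := hu.1.1.1.1
      have huc := mem_core_of_centralizes K huK rfl (hDc u hu.1)
      have hlt : orderOf u < s := by
        rcases hK _ hup (K.orderOf_dvd_natCard huK) with e | e | e
        · omega
        · omega
        · exact absurd (e ▸ orderOf_dvd_of_pow_eq_one hu.2) hsm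
      exact ((hsmall _ hup hlt x hx hxo u huc).zpow_left i).eq
  -- every element of order `s` lies in the core
  have hin : ∀ x ∈ K, orderOf x = s → x ∈ core K s := by
    intro x hx hxo
    have hxN : x ∈ N := ⟨⟨hx, Subgroup.mem_centralizer_iff.mpr fun c hc => (hsmall q hq hqs x hx hxo c hc).eq.symm⟩,
      Subgroup.mem_centralizer_iff.mpr fun c hc => (hsmall r hr hrs x hx hxo c hc).eq.symm⟩
    have hcomm : ∀ g ∈ N, g * x * g⁻¹ * x⁻¹ ∈ D := by
      intro g hg
      refine ⟨N.mul_mem (N.mul_mem (N.mul_mem hg hxN) (N.inv_mem hg)) (N.inv_mem hxN),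
        Subgroup.mem_centralizer_iff.mpr fun c hc => ?_⟩
      by_cases hne : core K s = ⊥
      · rw [hne] at hc; rw [Subgroup.mem_bot.mp hc, one_mul, mul_one]
      obtain ⟨h2, hnp⟩ := hfree s hs hne
      haveI := isCyclic_of_not_pair h2 (core_isPGroup K s) hnp
      obtain ⟨⟨w, hw⟩, hgen⟩ := IsCyclic.exists_generator (α := core K s)
      have hwn : ∀ g ∈ K, g ∈ normalizer (zpowers w : Set G) := fun g hg => by
        refine zpowers_conj (N := core K s) (fun u hu => ?_) hw (hnorm s hg)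
        obtain ⟨k, hk⟩ := hgen ⟨u, hu⟩
        exact ⟨k, congrArg Subtype.val hk⟩
      obtain ⟨k, hk⟩ := hgen ⟨c, hc⟩
      have hk' : w ^ k = c := congrArg Subtype.val hk
      rw [← hk']
      exact ((commutator_commute (hwn g (hNK hg)) (hwn x hx)).zpow_right k).eq.symm
    set P := zpowers x ⊔ sub S with hP
    have hPp : IsPGroup s P := by
      refine IsPGroup.to_sup_of_normal_right' (IsPGroup.of_card (n := 1) (by rw [pow_one, Nat.card_zpowers, hxo]))
        (fun u => ⟨(Nat.card D).factorization s, Subtype.ext u.2.2⟩) ?_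
      exact zpowers_le.mpr (le_normalizer_of_conj (hsubn S) hx)
    have hPN : P ≤ N := sup_le (zpowers_le.mpr hxN) fun u hu => hu.1.1
    have hPn : ∀ g ∈ N, ∀ u ∈ P, g * u * g⁻¹ ∈ P := by
      intro g hg
      have hle : P ≤ P.comap (MulAut.conj g).toMonoidHom := by
        refine sup_le (zpowers_le.mpr ?_) fun u hu => Subgroup.mem_sup_right (hsubn S g (hNK hg) u hu)
        show g * x * g⁻¹ ∈ P
        set d := g * x * g⁻¹ * x⁻¹
        have hd : d ∈ D := hcomm g hg
        obtain ⟨α, β, hab⟩ : ∃ α β : ℤ, (S : ℤ) * α + (m : ℤ) * β = 1 :=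
          ⟨Nat.gcdA S m, Nat.gcdB S m, by rw [← Nat.gcd_eq_gcd_ab, hSm.gcd_eq_one]; rfl⟩
        have hdn : d ^ ((Nat.card D : ℤ)) = 1 := by
          rw [zpow_natCast]; exact congrArg Subtype.val (pow_card_eq_one' (x := (⟨d, hd⟩ : D)))
        set v := d ^ ((S : ℤ) * α)
        set ds := d ^ ((m : ℤ) * β)
        have hv : v ∈ sub m := ⟨D.zpow_mem hd _, by
          rw [← zpow_natCast, ← zpow_mul, show (S : ℤ) * α * m = ((Nat.card D : ℕ) : ℤ) * α by
            rw [← hcard]; push_cast; ring, zpow_mul, hdn, one_zpow]⟩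
        have hds : ds ∈ sub S := ⟨D.zpow_mem hd _, by
          rw [← zpow_natCast, ← zpow_mul, show (m : ℤ) * β * S = ((Nat.card D : ℕ) : ℤ) * β by
            rw [← hcard]; push_cast; ring, zpow_mul, hdn, one_zpow]⟩
        have hdec : d = v * ds := by rw [← zpow_add, hab, zpow_one]
        have hgx : g * x * g⁻¹ = v * (ds * x) := by
          rw [← mul_assoc, ← hdec]; simp only [d]; group
        have hmem : ds * x ∈ P := P.mul_mem (Subgroup.mem_sup_right hds) (Subgroup.mem_sup_left (mem_zpowers x))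
        have hvx : Commute v x := (hVcent x hx hxo v hv).symm
        have hvd : Commute v ds := setLike_mul_comm hv.1 hds.1
        obtain ⟨j, hj⟩ := hPp ⟨ds * x, hmem⟩
        have hj' : (ds * x) ^ s ^ j = 1 := congrArg Subtype.val hj
        have h1 : (g * x * g⁻¹) ^ (s * s ^ j) = 1 := by
          rw [pow_mul, conj_pow, show x ^ s = 1 from hxo ▸ pow_orderOf_eq_one x, mul_one, mul_inv_cancel, one_pow]
        rw [hgx, (hvd.mul_right hvx).mul_pow, mul_comm s, pow_mul (ds * x), hj', one_pow, mul_one] at h1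
        have hv1 : v = 1 := orderOf_eq_one_iff.mp (Nat.eq_one_of_dvd_coprimes
          (((hs.coprime_iff_not_dvd).mpr hsm).pow_left j |>.mul_left ((hs.coprime_iff_not_dvd).mpr hsm))
          (orderOf_dvd_of_pow_eq_one h1) (orderOf_dvd_of_pow_eq_one hv.2))
        rw [hgx, hv1, one_mul]; exact hmem
      exact fun u hu => hle hu
    have hc1 : P ≤ core N s := le_core hPN hPn hPp
    have hc2 : core N s ≤ core K s := le_core ((core_le N s).trans hNK)
      (fun g hg u hu => core_conj' (le_normalizer_of_conj hNn hg) hu) (core_isPGroup N s)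
    exact hc2 (hc1 (Subgroup.mem_sup_left (mem_zpowers x)))
  obtain ⟨a, b, hab⟩ := hp
  have ha := hin a hab.amem hab.aord
  have hne : core K s ≠ ⊥ := fun e => by
    rw [e, Subgroup.mem_bot] at ha
    exact hs.ne_one (by rw [← hab.aord, ha, orderOf_one])
  exact (hfree s hs hne).2 ⟨a, b, ha, hin b hab.bmem hab.bord, hab.aord, hab.bord, hab.comm, hab.notMem⟩

end CfsgLib.ThreeFree
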