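import Cfsg.Agent.ThreeFree.CaseA
import Cfsg.Agent.ThreeFree.CaseC
import Cfsg.Agent.ThreeFree.Free
import Cfsg.Agent.Hall.ThreePrimes

/-!
A group with elements of all orders `p * q` and none of order `p * q * r` for four primes is not solvable.
-/

set_option autoImplicit false

namespace CfsgLib.ThreeFree

open Subgroup
open scoped commutatorElement

variable {G : Type*} [Group G] [Finite G]

/-- With elements of every mixed order, every Sylow subgroup contains an independent pair. -/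
theorem exists_pair [Group.IsSolvable G] (hnt : NoTriple G) {t : ℕ} [ht : Fact t.Prime] {U : Finset ℕ}
    (hU : U.card = 3) (htU : ∀ u ∈ U, u.Prime ∧ u ≠ t) (h2 : ∀ u ∈ U, ∃ g : G, orderOf g = t * u)
    (P : Sylow t G) : HasPair (P : Subgroup G) t := by
  classical
  obtain ⟨u₀, hu₀⟩ := Finset.card_pos.mp (by omega : 0 < U.card)
  obtain ⟨g₀, hg₀⟩ := h2 u₀ hu₀
  have hdvd : t ∣ Nat.card G := (Dvd.intro u₀ rfl).trans (hg₀ ▸ orderOf_dvd_natCard g₀)
  have hPne : (P : Subgroup G) ≠ ⊥ := P.ne_bot_of_dvd_card hdvd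
  by_contra hno
  obtain ⟨w, hw, hwo⟩ := exists_omegaCenter P.2 hPne
  have hconj : ∀ y : G, orderOf y = t → ∃ k : G, zpowers (k * y * k⁻¹) = zpowers w := by
    intro y hy
    obtain ⟨Q, hQ⟩ := (IsPGroup.of_card (G := zpowers y) (n := 1) (by rw [pow_one, Nat.card_zpowers, hy])).exists_le_sylow
    obtain ⟨k, hk⟩ := MulAction.exists_smul_eq G Q P
    refine ⟨k, ?_⟩
    have hmem : k * y * k⁻¹ ∈ (P : Subgroup G) := by
      rw [← hk, Sylow.coe_subgroup_smul]
      exact Subgroup.smul_mem_pointwise_smul y (MulAut.conj k) _ (hQ (mem_zpowers y))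
    have ho : orderOf (k * y * k⁻¹) = t := by rw [← hy]; exact MulEquiv.orderOf_eq (MulAut.conj k) y
    exact Subgroup.eq_of_le_of_card_ge (zpowers_le.mpr (mem_zpowers_of_not_pair hno hw.1 hwo hmem ho (hw.2.2 _ hmem)))
      (by rw [Nat.card_zpowers, Nat.card_zpowers, ho, hwo])
  set C := centralizer ({w} : Set G)
  have helem : ∀ u ∈ U, ∃ c ∈ C, orderOf c = u := by
    intro u hu
    obtain ⟨g, hg⟩ := h2 u hu
    have hu0 := (htU u hu).1
    have h1 : orderOf (g ^ u) = t := by
      rw [orderOf_pow' _ hu0.ne_zero, hg, Nat.gcd_eq_right (dvd_mul_left u t), Nat.mul_div_cancel _ hu0.pos]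
    have h3 : orderOf (g ^ t) = u := by
      rw [orderOf_pow' _ ht.out.ne_zero, hg, Nat.gcd_eq_right (dvd_mul_right t u), Nat.mul_div_cancel_left _ ht.out.pos]
    obtain ⟨k, hk⟩ := hconj _ h1
    refine ⟨k * g ^ t * k⁻¹, mem_centralizer_singleton_iff.mpr ?_, by rw [← h3]; exact MulEquiv.orderOf_eq (MulAut.conj k) _⟩
    obtain ⟨i, hi⟩ : w ∈ zpowers (k * g ^ u * k⁻¹) := hk ▸ mem_zpowers w
    have hc : Commute (k * g ^ t * k⁻¹) (k * g ^ u * k⁻¹) := (Commute.pow_pow (Commute.refl g) t u).conj k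
    have hi' : (k * g ^ u * k⁻¹) ^ i = w := hi
    rw [← hi']
    exact (hc.zpow_right i).eq
  haveI : Group.IsSolvable C := inferInstance
  obtain ⟨H, hH⟩ := Hall.exists_isPiHall (G := C) (↑U : Set ℕ)
  have hdC : ∀ u ∈ U, u ∣ Nat.card H := by
    intro u hu
    obtain ⟨c, hc, hco⟩ := helem u hu
    have hd : u ∣ Nat.card H * H.index := by
      rw [H.card_mul_index]; exact hco ▸ C.orderOf_dvd_natCard hc
    exact ((htU u hu).1.dvd_mul.mp hd).resolve_right (hH.2 u (htU u hu).1 hu)
  have hpp : ∀ g : H, IsPrimePow (orderOf g) ∨ g = 1 := by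
    intro g
    by_cases hg1 : g = 1
    · exact .inr hg1
    left
    obtain ⟨d, hd, hdd⟩ := Nat.exists_prime_and_dvd (fun e => hg1 (orderOf_eq_one_iff.mp e))
    rw [isPrimePow_iff_unique_prime_dvd]
    refine ⟨d, ⟨hd, hdd⟩, fun d' ⟨hd', hdd'⟩ => ?_⟩
    by_contra hne
    have hdU : ∀ e : ℕ, e.Prime → e ∣ orderOf g → e ∈ U := fun e he hed => by
      have := hH.1 e he (hed.trans (orderOf_dvd_natCard g)); exact this
    set g' : G := ((g : C) : G)
    have hgo : orderOf g' = orderOf g := by rw [Subgroup.orderOf_coe, Subgroup.orderOf_coe]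
    have hgw : Commute g' w := mem_centralizer_singleton_iff.mp (g : C).2
    have ho : ∀ e : ℕ, e.Prime → e ∣ orderOf g → orderOf (g' ^ (orderOf g / e)) = e := fun e he hed => by
      rw [orderOf_pow' _ (Nat.div_pos (Nat.le_of_dvd (orderOf_pos g) hed) he.pos).ne', hgo,
        Nat.gcd_eq_right (Nat.div_dvd_of_dvd hed), Nat.div_div_self hed (orderOf_pos g).ne']
    exact hnt (g' ^ (orderOf g / d)) (g' ^ (orderOf g / d')) w ((ho d hd hdd).symm ▸ hd) ((ho d' hd' hdd').symm ▸ hd') (hwo.symm ▸ ht.out)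
      (by rw [ho d hd hdd, ho d' hd' hdd']; exact Ne.symm hne)
      (by rw [ho d' hd' hdd', hwo]; exact (htU d' (hdU d' hd' hdd')).2)
      (by rw [ho d hd hdd, hwo]; exact (htU d (hdU d hd hdd)).2)
      (Commute.pow_pow (Commute.refl g') _ _) (hgw.pow_left _) (hgw.pow_left _)
  have h3 := Hall.at_most_two_primes hpp
  have hsub : U ⊆ (Nat.card H).primeFactors := fun u hu =>
    Nat.mem_primeFactors.mpr ⟨(htU u hu).1, hdC u hu, Nat.card_pos.ne'⟩
  have := Finset.card_le_card hsub
  omega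

theorem hasPair_of_index {t : ℕ} [Fact t.Prime] (hS : ∀ P : Sylow t G, HasPair (P : Subgroup G) t) {L : Subgroup G}
    (hL : ¬ t ∣ L.index) : HasPair L t := by
  obtain ⟨P₀⟩ := (inferInstance : Nonempty (Sylow t L))
  have h1 : ¬ t ∣ ((P₀ : Subgroup L).map L.subtype).index := by
    rw [Subgroup.index_map_of_injective _ L.subtype_injective, Subgroup.range_subtype]
    exact (Fact.out : t.Prime).not_dvd_mul P₀.not_dvd_index hL
  obtain ⟨a, b, h⟩ := hS ((P₀.2.map L.subtype).toSylow h1)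
  have hle : (((P₀.2.map L.subtype).toSylow h1 : Sylow t G) : Subgroup G) ≤ L := Subgroup.map_subtype_le _
  exact ⟨a, b, hle h.amem, hle h.bmem, h.aord, h.bord, h.comm, h.notMem⟩

/-- Contradiction from a minimal normal `p`-subgroup and a `p'`-Hall subgroup. -/
theorem false_of_hall [Group.IsSolvable G] (hnt : NoTriple G) {p : ℕ} (hp : p.Prime) {U : Finset ℕ}
    (hU : U.card = 3) (hUp : ∀ u ∈ U, u.Prime ∧ u ≠ p)
    (hS : ∀ t ∈ U, ∀ (_ : Fact t.Prime) (P : Sylow t G), HasPair (P : Subgroup G) t)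
    (V : Subgroup G) (hVn : V.Normal) (hVc : IsMulCommutative V) (hVne : V ≠ ⊥) (hVe : ∀ v ∈ V, v ^ p = 1) : False := by
  classical
  haveI := hVc
  haveI := hVn
  obtain ⟨K, hK⟩ := Hall.exists_isPiHall (G := G) (↑U : Set ℕ)
  haveI : Group.IsSolvable K := inferInstance
  have hKp : ∀ t : ℕ, t.Prime → t ∣ Nat.card K → t ∈ U := fun t ht hd => hK.1 t ht hd
  have hKpair : ∀ t ∈ U, HasPair K t := fun t ht => by
    haveI := Fact.mk (hUp t ht).1
    exact hasPair_of_index (hS t ht inferInstance) (hK.2 t (hUp t ht).1 ht)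
  -- the environment for a chosen prime
  have env : ∀ q ∈ U, ∃ (r s : ℕ) (L : Subgroup G), r ∈ U ∧ s ∈ U ∧ L ≤ K ∧ Env L V p q r s := by
    intro q hq
    obtain ⟨r, s, hrs, he⟩ := Finset.card_eq_two.mp (show (U.erase q).card = 2 by
      rw [Finset.card_erase_of_mem hq, hU])
    have hr : r ∈ U.erase q := by rw [he]; exact Finset.mem_insert_self _ _
    have hs : s ∈ U.erase q := by rw [he]; exact Finset.mem_insert_of_mem (Finset.mem_singleton_self _)
    have hrU := Finset.mem_of_mem_erase hr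
    have hsU := Finset.mem_of_mem_erase hs
    obtain ⟨L, hLK, hL1, hL2⟩ := Hall.exists_isPiHallOf K ({r, s} : Set ℕ)
    have hLi : ∀ t ∈ U, t ∈ ({r, s} : Set ℕ) → ¬ t ∣ L.index := fun t ht htrs => by
      rw [← Subgroup.relIndex_mul_index hLK]
      exact (hUp t ht).1.not_dvd_mul (hL2 t (hUp t ht).1 htrs) (hK.2 t (hUp t ht).1 ht)
    refine ⟨r, s, L, hrU, hsU, hLK,
      { pprime := hp, qprime := (hUp q hq).1, rprime := (hUp r hrU).1, sprime := (hUp s hsU).1
        pq := (hUp q hq).2.symm, pr := (hUp r hrU).2.symm, ps := (hUp s hsU).2.symm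
        qr := (Finset.ne_of_mem_erase hr).symm, qs := (Finset.ne_of_mem_erase hs).symm, rs := hrs
        vcomm := hVc, vne := hVne, vexp := hVe, vnormal := hVn
        solv := inferInstance
        primes := fun t ht hd => by simpa using hL1 t ht hd
        rpair := ?_, spair := ?_, noTriple := hnt }⟩
    · haveI := Fact.mk (hUp r hrU).1
      exact hasPair_of_index (hS r hrU inferInstance) (hLi r hrU (by simp))
    · haveI := Fact.mk (hUp s hsU).1
      exact hasPair_of_index (hS s hsU inferInstance) (hLi s hsU (by simp))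
  have hnorm : ∀ t, K ≤ normalizer (core K t : Set G) := fun t =>
    le_normalizer_of_conj fun g hg x hx => core_conj K t hg hx
  have hWn : ∀ t, ∀ g ∈ K, ∀ x ∈ omegaCenter (core K t) t, g * x * g⁻¹ ∈ omegaCenter (core K t) t :=
    fun t g hg x hx => omegaCenter_conj (hnorm t hg) hx
  have hmem : ∀ {t : ℕ}, t.Prime → core K t ≠ ⊥ → t ∈ U := fun {t} ht hne => by
    haveI := Fact.mk ht
    refine hKp t ht ?_
    by_contra hd
    exact hne (core_eq_bot_of_not_dvd K hd)
  by_cases hA : ∃ q ∈ U, HasPair (omegaCenter (core K q) q) q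
  · obtain ⟨q, hq, hpair⟩ := hA
    obtain ⟨r, s, L, -, -, hLK, he⟩ := env q hq
    haveI := Fact.mk he.qprime
    set Z := omegaCenter (core K q) q
    haveI hZc : IsMulCommutative Z := omegaCenter_comm _ q
    have hLZ : L ≤ normalizer (Z : Set G) := hLK.trans (le_normalizer_of_conj (hWn q))
    by_cases hZ0 : Z ⊓ centralizer (V : Set G) = ⊥
    · refine Faith.false (L := L) (V := V) (Z := Z) (p := p) (q := q) (r := r) (s := s)
        { he with zcomm := hZc, zexp := fun c hc => hc.2.1, zpair := hpair, znormal := hLZ, faithful := fun c hc hall => ?_ }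
      have : c ∈ Z ⊓ centralizer (V : Set G) := ⟨hc, Subgroup.mem_centralizer_iff.mpr fun v hv => (hall v hv).eq.symm⟩
      rwa [hZ0, Subgroup.mem_bot] at this
    · set Z0 := Z ⊓ centralizer (V : Set G)
      haveI : IsMulCommutative Z0 := ⟨⟨fun a b => Subtype.ext (setLike_mul_comm a.2.1 b.2.1)⟩⟩
      have hVCn : ∀ g : G, g ∈ normalizer ((centralizer (V : Set G) : Subgroup G) : Set G) := fun g => by
        haveI : (centralizer (V : Set G)).Normal := Subgroup.normal_centralizer
        rw [Subgroup.normalizer_eq_top]; trivial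
      have hcop : ∀ M : Subgroup G, (∀ t : ℕ, t.Prime → t ∣ Nat.card M → t = p ∨ t = q) →
          (Nat.card L).Coprime (Nat.card M) := fun M hM => Nat.coprime_of_dvd fun t ht h1 h2 => by
        rcases he.primes t ht h1 with rfl | rfl <;> rcases hM _ ht h2 with e | e
        · exact he.pr e.symm
        · exact he.qr e.symm
        · exact he.ps e.symm
        · exact he.qs e.symm
      have hpdiv : ∀ {d : ℕ} (M : Subgroup G), d.Prime → (∀ x ∈ M, x ^ d = 1) → ∀ t : ℕ, t.Prime → t ∣ Nat.card M → t = d :=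
        fun {d} M hd hM t ht htd => by
          haveI := Fact.mk ht
          obtain ⟨⟨x, hx⟩, hxo⟩ := exists_prime_orderOf_dvd_card' t htd
          rw [Subgroup.orderOf_mk] at hxo
          exact (Nat.prime_dvd_prime_iff_eq ht hd).mp (hxo ▸ orderOf_dvd_of_pow_eq_one (hM x hx))
      haveI := he.solv
      refine TwoMod.false (L := L) (M₁ := V) (M₂ := Z0) (r := r) (s := s) ?_
      exact
      { comm := fun M hM => by rcases hM with rfl | rfl <;> infer_instance
        ne_bot := fun M hM => by rcases hM with rfl | rfl; exacts [hVne, hZ0]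
        normal := fun M hM => by
          rcases hM with rfl | rfl
          · exact fun g _ => he.vnorm g
          · refine fun g hg => ?_
            rw [Subgroup.mem_normalizer_iff]
            exact fun x => and_congr (Subgroup.mem_normalizer_iff.mp (hLZ hg) x)
              (Subgroup.mem_normalizer_iff.mp (hVCn g) x)
        coprime := fun M hM => by
          rcases hM with rfl | rfl
          · exact hcop _ fun t ht hd => .inl (hpdiv _ hp hVe t ht hd)
          · exact hcop _ fun t ht hd => .inr (hpdiv Z0 he.qprime (fun x (hx : x ∈ Z0) => hx.1.2.1) t ht hd)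
        rprime := he.rprime, sprime := he.sprime, ne := he.rs, primes := he.primes
        rpair := he.rpair, spair := he.spair
        single := fun x hxL hxp ⟨v, hv, hv1, hxv⟩ ⟨c, hc, hc1, hxc⟩ => by
          have hco := orderOf_eq_of_pgroup he.qprime (fun y (hy : y ∈ Z0) => hy.1.2.1) hc hc1
          have hxne : orderOf x ≠ q ∧ orderOf x ≠ p := by
            rcases he.primes _ hxp (L.orderOf_dvd_natCard hxL) with e | e <;> rw [e]
            · exact ⟨he.qr.symm, he.pr.symm⟩
            · exact ⟨he.qs.symm, he.ps.symm⟩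
          exact hv1 (he.ntV hxp (hco ▸ he.qprime) (by rw [hco]; exact hxne.1) hxne.2 (by rw [hco]; exact he.pq.symm) hxc hv hxv
            (Subgroup.mem_centralizer_iff.mp hc.2 v hv).symm)
        noTriple := fun x hxL y hyL hxp hyp hxy hc M hM m hm hxm hym => by
          have hne : ∀ z ∈ L, (orderOf z).Prime → orderOf z ≠ q ∧ orderOf z ≠ p := fun z hz hzp => by
            rcases he.primes _ hzp (L.orderOf_dvd_natCard hz) with e | e <;> rw [e]
            · exact ⟨he.qr.symm, he.pr.symm⟩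
            · exact ⟨he.qs.symm, he.ps.symm⟩
          rcases hM with rfl | rfl
          · exact he.ntV hxp hyp hxy (hne x hxL hxp).2 (hne y hyL hyp).2 hc hm hxm hym
          · by_contra hm1
            have hmo := orderOf_eq_of_pgroup he.qprime (fun y (hy : y ∈ Z0) => hy.1.2.1) hm hm1
            exact hnt x y m hxp hyp (hmo ▸ he.qprime) hxy (by rw [hmo]; exact (hne y hyL hyp).1)
              (by rw [hmo]; exact (hne x hxL hxp).1) hc hxm hym }
  push Not at hA
  -- cyclic centres
  have hB : ∀ t : ℕ, t.Prime → core K t ≠ ⊥ → t ≠ 2 ∧ ¬ HasPair (core K t) t := by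
    intro q hq hne
    by_contra hcon
    have hqU := hmem hq hne
    obtain ⟨r, s, L, -, -, hLK, he⟩ := env q hqU
    haveI := Fact.mk hq
    obtain ⟨z, hz, hzo⟩ := exists_omegaCenter (core_isPGroup K q) hne
    have hall : ∀ x ∈ omegaCenter (core K q) q, x ∈ zpowers z := fun x hx => by
      by_cases h1 : x = 1
      · rw [h1]; exact one_mem _
      · exact mem_zpowers_of_not_pair (hA q hqU) hz hzo hx (orderOf_eq_prime hx.2.1 h1) (hz.2.2 x hx.1)
    have hKz : K ≤ normalizer (zpowers z : Set G) := fun g hg =>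
      zpowers_conj hall hz (le_normalizer_of_conj (hWn q) hg)
    refine he.false_of_normal hzo (hLK.trans hKz) ?_
    by_cases h2 : q = 2
    · exact .inl h2
    right
    have hp' : HasPair (core K q) q := by_contra fun h => hcon ⟨h2, h⟩
    obtain ⟨u, hu, -, huz⟩ := exists_mem_layer h2 (core_isPGroup K q) hz hzo hp'
    refine ⟨layer (core K q) q h2 z hz, fun v hv => hv.2.1, ⟨hz.1, hz.2.1, fun g hg => ?_⟩,
      fun v hv => hz.2.2 v hv.1, fun v hv v' hv' => hv.2.2 v' hv'.1, ?_, u, hu, huz⟩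
    · rw [commutatorElement_eq_one_iff_mul_comm.mpr (hz.2.2 g hg).eq]; exact one_mem _
    · refine le_normalizer_of_conj fun g hg v hv => ⟨core_conj K q (hLK hg) hv.1, ?_, fun c hc => ?_⟩
      · rw [conj_pow, hv.2.1, mul_one, mul_inv_cancel]
      · have hc' : g⁻¹ * c * g ∈ core K q := by simpa using core_conj K q (K.inv_mem (hLK hg)) hc
        have h1 := conj_mem_of_normalizer (hKz (hLK hg)) (hv.2.2 _ hc')
        have e : g * ⁅v, g⁻¹ * c * g⁆ * g⁻¹ = ⁅g * v * g⁻¹, c⁆ := by simp only [commutatorElement_def]; group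
        rwa [e] at h1
  -- the largest prime
  have hUne : U.Nonempty := Finset.card_pos.mp (by omega)
  obtain ⟨q, r, hqr, he⟩ := Finset.card_eq_two.mp (show (U.erase (U.max' hUne)).card = 2 by
    rw [Finset.card_erase_of_mem (U.max'_mem hUne), hU])
  have hlt : ∀ u ∈ U.erase (U.max' hUne), u < U.max' hUne := fun u hu =>
    lt_of_le_of_ne (U.le_max' u (Finset.mem_of_mem_erase hu)) (Finset.ne_of_mem_erase hu)
  have hq : q ∈ U.erase (U.max' hUne) := by rw [he]; exact Finset.mem_insert_self _ _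
  have hr : r ∈ U.erase (U.max' hUne) := by rw [he]; exact Finset.mem_insert_of_mem (Finset.mem_singleton_self _)
  refine not_pair_of_cores K (hUp q (Finset.mem_of_mem_erase hq)).1 (hUp r (Finset.mem_of_mem_erase hr)).1
    (hUp _ (U.max'_mem hUne)).1 (hlt q hq) (hlt r hr) (fun t ht hd => ?_) hB (hKpair _ (U.max'_mem hUne))
  by_cases hts : t = U.max' hUne
  · exact .inr (.inr hts)
  · have : t ∈ U.erase (U.max' hUne) := Finset.mem_erase.mpr ⟨hts, hKp t ht hd⟩
    rw [he] at this
    simp only [Finset.mem_insert, Finset.mem_singleton] at this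
    rcases this with h | h
    · exact .inl h
    · exact .inr (.inl h)

/-- Four primes. -/
theorem not_solvable (σ : Finset ℕ) (hσ : 4 ≤ σ.card) (hprime : ∀ p ∈ σ, p.Prime)
    (h2 : ∀ p ∈ σ, ∀ q ∈ σ, p ≠ q → ∃ g : G, orderOf g = p * q)
    (h3 : ∀ p ∈ σ, ∀ q ∈ σ, ∀ r ∈ σ, p ≠ q → q ≠ r → p ≠ r → ∀ g : G, orderOf g ≠ p * q * r) :
    ¬ Group.IsSolvable G := by
  classical
  intro hG
  haveI := hG
  obtain ⟨τ, hτσ, hτ⟩ := Finset.exists_subset_card_eq hσ
  obtain ⟨H, hH⟩ := Hall.exists_isPiHall (G := G) (↑τ : Set ℕ)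
  have h2' : ∀ p ∈ τ, ∀ q ∈ τ, p ≠ q → ∃ g : H, orderOf g = p * q := by
    intro p hp q hq hpq
    obtain ⟨g, hg⟩ := h2 p (hτσ hp) q (hτσ hq) hpq
    obtain ⟨k, hk⟩ := Hall.pi_dominance hH (K := zpowers g) (fun d hd hdd => by
      rw [Nat.card_zpowers, hg] at hdd
      rcases hd.dvd_mul.mp hdd with h | h
      · rwa [(Nat.prime_dvd_prime_iff_eq hd (hprime p (hτσ hp))).mp h]
      · rwa [(Nat.prime_dvd_prime_iff_eq hd (hprime q (hτσ hq))).mp h])
    obtain ⟨h', hh', he⟩ := hk (mem_zpowers g)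
    refine ⟨⟨h', hh'⟩, ?_⟩
    rw [Subgroup.orderOf_mk, ← hg, ← he]
    exact (MulEquiv.orderOf_eq (MulAut.conj k) h').symm
  have hnt : NoTriple H := by
    intro a b c ha hb hc hab hbc hac cab cac cbc
    have hin : ∀ x : H, (orderOf x).Prime → orderOf x ∈ τ := fun x hx => hH.1 _ hx (orderOf_dvd_natCard x)
    have h1 : orderOf (a * b) = orderOf a * orderOf b :=
      cab.orderOf_mul_eq_mul_orderOf_of_coprime ((Nat.coprime_primes ha hb).mpr hab)
    have h4 : orderOf (a * b * c) = orderOf a * orderOf b * orderOf c := by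
      rw [(cac.mul_left cbc).orderOf_mul_eq_mul_orderOf_of_coprime (by
        rw [h1]; exact ((Nat.coprime_primes ha hc).mpr hac).mul_left ((Nat.coprime_primes hb hc).mpr hbc)), h1]
    exact h3 _ (hτσ (hin a ha)) _ (hτσ (hin b hb)) _ (hτσ (hin c hc)) hab hbc hac (((a * b * c : H) : G))
      (by rw [Subgroup.orderOf_coe, h4])
  obtain ⟨p₀, hp₀⟩ := Finset.card_pos.mp (by omega : 0 < τ.card)
  obtain ⟨q₀, hq₀, hne⟩ := Finset.exists_mem_ne (by omega : 1 < τ.card) p₀
  obtain ⟨g₀, hg₀⟩ := h2' p₀ hp₀ q₀ hq₀ hne.symm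
  haveI : Nontrivial H := ⟨⟨g₀, 1, fun e => by
    rw [e, orderOf_one] at hg₀
    exact (hprime p₀ (hτσ hp₀)).ne_one (mul_eq_one.mp hg₀.symm).1⟩⟩
  obtain ⟨V, hV⟩ := Hall.exists_isMinNormal (G := H)
  obtain ⟨p, hp, hVc, hVp, hVe⟩ := hV.elementaryAbelian
  haveI := Fact.mk hp
  obtain ⟨j, hj⟩ := IsPGroup.iff_card.mp hVp
  have hpτ : p ∈ τ := hH.1 p hp ((dvd_pow_self p (fun h0 => hV.2.1 (card_eq_one.mp (by rw [hj, h0, pow_zero])))).trans
    (hj ▸ V.card_subgroup_dvd_card))
  refine false_of_hall hnt hp (U := τ.erase p) (by rw [Finset.card_erase_of_mem hpτ, hτ])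
    (fun u hu => ⟨hprime u (hτσ (Finset.mem_of_mem_erase hu)), Finset.ne_of_mem_erase hu⟩) ?_ V hV.1 hVc hV.2.1 hVe
  intro t ht _ P
  have htτ := Finset.mem_of_mem_erase ht
  exact exists_pair hnt (U := τ.erase t) (by rw [Finset.card_erase_of_mem htτ, hτ])
    (fun u hu => ⟨hprime u (hτσ (Finset.mem_of_mem_erase hu)), Finset.ne_of_mem_erase hu⟩)
    (fun u hu => h2' t htτ u (Finset.mem_of_mem_erase hu) (Finset.ne_of_mem_erase hu).symm) P

end CfsgLib.ThreeFree
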