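import Mathlib

/-!
Fixed points of elements of prime order on coprime abelian modules, written inside a group.
-/

set_option autoImplicit false

namespace CfsgLib.ThreeFree

open Finset

section Abstract

variable {H M : Type*} [Group H] [CommGroup M] (φ : H →* MulAut M)

theorem prod_pow_fix {y : H} {s : ℕ} (hy : y ^ s = 1) (m : M) :
    φ y (∏ t ∈ range s, φ (y ^ t) m) = ∏ t ∈ range s, φ (y ^ t) m := by
  rw [map_prod]
  simp only [← MulAut.mul_apply, ← map_mul, ← pow_succ']
  have h1 := prod_range_succ (fun t => φ (y ^ t) m) s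
  rw [prod_range_succ'] at h1
  simp only [hy, pow_zero] at h1
  exact mul_right_cancel h1

theorem prod_pow_eq_one {y : H} {s : ℕ} (hy : y ^ s = 1) (hfix : ∀ m, φ y m = m → m = 1) (m : M) :
    ∏ t ∈ range s, φ (y ^ t) m = 1 := hfix _ (prod_pow_fix φ hy m)

omit φ in
theorem commute_of_pow {y b : H} {r i : ℕ} (hr : r.Prime) (hy : y ^ r = 1) (hi : 0 < i) (hir : i < r)
    (h : Commute (y ^ i) b) : Commute y b := by
  obtain ⟨m, hm⟩ := exists_pow_eq_self_of_coprime (x := y) (n := i) (Nat.Coprime.coprime_dvd_right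
    (orderOf_dvd_of_pow_eq_one hy) (Nat.coprime_comm.mp (hr.coprime_iff_not_dvd.mpr (Nat.not_dvd_of_pos_of_lt hi hir))))
  exact hm ▸ h.pow_left m

/-- If `y` of prime order is free on `M` and on `B` then `B` acts trivially on `M`. -/
theorem master [Finite M] (B : Subgroup H) [Finite B] {y : H} {r : ℕ} (hr : r.Prime) (hy : y ^ r = 1)
    (hyB : ∀ b ∈ B, y * b * y⁻¹ ∈ B) (hfree : ∀ b ∈ B, Commute y b → b = 1)
    (hco : (Nat.card B).Coprime (Nat.card M)) (hfix : ∀ m, φ y m = m → m = 1) :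
    ∀ b ∈ B, ∀ m, φ b m = m := by
  classical
  haveI := Fintype.ofFinite B
  let S : M → M := fun m => ∏ b : B, φ (b : H) m
  have hS : ∀ c ∈ B, ∀ m, φ c (S m) = S m := by
    intro c hc m
    simp only [S, map_prod, ← MulAut.mul_apply, ← map_mul]
    exact Fintype.prod_equiv (Equiv.mulLeft ⟨c, hc⟩) _ _ fun b => rfl
  have hinv : ∀ i : ℕ, ∀ b ∈ B, y ^ i * b * (y ^ i)⁻¹ ∈ B := by
    intro i
    induction i with
    | zero => simp
    | succ k ih =>
      intro b hb
      rw [pow_succ', show y * y ^ k * b * (y * y ^ k)⁻¹ = y * (y ^ k * b * (y ^ k)⁻¹) * y⁻¹ by group]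
      exact hyB _ (ih b hb)
  have hkey : ∀ m, m ^ Nat.card B = S m := by
    intro m
    have h0 : ∏ i ∈ range r, ∏ b : B, φ ((b : H) * y ^ i * (b : H)⁻¹) m = 1 := by
      rw [prod_comm]
      refine prod_eq_one fun b _ => ?_
      calc ∏ i ∈ range r, φ ((b : H) * y ^ i * (b : H)⁻¹) m
          = φ (b : H) (∏ i ∈ range r, φ (y ^ i) (φ (b : H)⁻¹ m)) := by
            rw [map_prod]; simp only [← MulAut.mul_apply, ← map_mul, mul_assoc]
        _ = 1 := by rw [prod_pow_eq_one φ hy hfix, map_one]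
    have hterm : ∀ i ∈ (range r).erase 0, ∏ b : B, φ ((b : H) * y ^ i * (b : H)⁻¹) m = S (φ (y ^ i) m) := by
      intro i hi
      rw [mem_erase, mem_range] at hi
      let ψ : B → B := fun b => ⟨(b : H) * (y ^ i * (b : H)⁻¹ * (y ^ i)⁻¹), B.mul_mem b.2 (hinv i _ (B.inv_mem b.2))⟩
      have hψ : Function.Bijective ψ := by
        refine Finite.injective_iff_bijective.mp fun a b hab => ?_
        have h1 : (a : H) * (y ^ i * (a : H)⁻¹ * (y ^ i)⁻¹) = (b : H) * (y ^ i * (b : H)⁻¹ * (y ^ i)⁻¹) :=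
          congrArg Subtype.val hab
        have h2 : Commute (y ^ i) ((b : H)⁻¹ * a) := by
          have := congrArg (fun z => (b : H)⁻¹ * z * y ^ i * a) h1
          simp only [mul_assoc, inv_mul_cancel_left, inv_mul_cancel, mul_one] at this
          exact (by simpa [Commute, SemiconjBy, mul_assoc] using this.symm)
        have h3 := hfree _ (B.mul_mem (B.inv_mem b.2) a.2)
          (commute_of_pow hr hy (Nat.pos_of_ne_zero hi.1) hi.2 h2)
        exact Subtype.ext (inv_mul_eq_one.mp h3).symm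
      refine Eq.trans (prod_congr rfl fun b _ => ?_) (Fintype.prod_equiv (Equiv.ofBijective ψ hψ) _ _ fun b => rfl)
      rw [← MulAut.mul_apply, ← map_mul]
      simp [ψ, mul_assoc]
    have hrest : ∏ i ∈ (range r).erase 0, φ (y ^ i) m = m⁻¹ := by
      have h1 := prod_pow_eq_one φ hy hfix m
      rw [← mul_prod_erase _ _ (mem_range.mpr hr.pos), pow_zero, map_one, MulAut.one_apply] at h1
      exact eq_inv_of_mul_eq_one_right h1
    rw [← mul_prod_erase _ _ (mem_range.mpr hr.pos), prod_congr rfl hterm] at h0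
    have h2 : ∏ i ∈ (range r).erase 0, S (φ (y ^ i) m) = S (∏ i ∈ (range r).erase 0, φ (y ^ i) m) := by
      simp only [S]
      rw [prod_comm]
      exact prod_congr rfl fun b _ => (map_prod _ _ _).symm
    rw [h2, hrest] at h0
    simp only [pow_zero, mul_one, mul_inv_cancel, map_one, MulAut.one_apply, prod_const, card_univ] at h0
    rw [← Nat.card_eq_fintype_card] at h0
    have h3 : S m⁻¹ = (S m)⁻¹ := by simp only [S, map_inv, prod_inv_distrib]
    rw [h3, mul_inv_eq_one] at h0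
    exact h0
  intro b hb m
  apply (powCoprime hco.symm).injective
  show φ b m ^ Nat.card B = m ^ Nat.card B
  rw [← map_pow, hkey, hS b hb]

/-- A non-cyclic group of order `s ^ 2` has fixed points on a coprime module. -/
theorem fix_pair [Finite M] [Nontrivial M] {a b : H} {s : ℕ} (hs : s.Prime) (hc : Commute a b)
    (ha : a ^ s = 1) (hb : b ^ s = 1) (hco : s.Coprime (Nat.card M)) :
    (∃ m, m ≠ 1 ∧ φ a m = m) ∨ ∃ i : ℕ, ∃ m, m ≠ 1 ∧ φ (b * a ^ i) m = m := by
  classical
  by_contra hcon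
  push Not at hcon
  obtain ⟨hA, hB⟩ := hcon
  have hA' : ∀ m, φ a m = m → m = 1 := fun m h => by_contra fun h1 => hA m h1 h
  have hB' : ∀ i m, φ (b * a ^ i) m = m → m = 1 := fun i m h => by_contra fun h1 => hB i m h1 h
  obtain ⟨m, hm⟩ := exists_ne (1 : M)
  apply hm
  have hm1 : m ^ s = 1 := by
    have h0 : ∏ i ∈ range s, ∏ t ∈ range s, φ ((b * a ^ i) ^ t) m = 1 := by
      refine prod_eq_one fun i _ => prod_pow_eq_one φ ?_ (hB' i) m
      rw [(hc.symm.pow_right i).mul_pow, hb, ← pow_mul, mul_comm, pow_mul, ha, one_pow, one_mul]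
    have hterm : ∀ t ∈ range s, ∏ i ∈ range s, φ ((b * a ^ i) ^ t) m = if t = 0 then m ^ s else 1 := by
      intro t ht
      rcases Nat.eq_zero_or_pos t with rfl | htp
      · simp [prod_const]
      · rw [if_neg htp.ne']
        have hfix : ∀ x, φ (a ^ t) x = x → x = 1 := by
          intro x hx
          refine hA' x ?_
          obtain ⟨k, hk⟩ := exists_pow_eq_self_of_coprime (x := a) (n := t) (Nat.Coprime.coprime_dvd_right
            (orderOf_dvd_of_pow_eq_one ha) (Nat.coprime_comm.mp (hs.coprime_iff_not_dvd.mpr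
              (Nat.not_dvd_of_pos_of_lt htp (mem_range.mp ht)))))
          rw [← hk]
          clear hk
          induction k with
          | zero => simp
          | succ k ih => rw [pow_succ, map_mul, MulAut.mul_apply, hx, ih]
        calc ∏ i ∈ range s, φ ((b * a ^ i) ^ t) m = φ (b ^ t) (∏ i ∈ range s, φ ((a ^ t) ^ i) m) := by
              rw [map_prod]
              refine prod_congr rfl fun i _ => ?_
              rw [(hc.symm.pow_right i).mul_pow, map_mul, MulAut.mul_apply, ← pow_mul, ← pow_mul, mul_comm i t]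
          _ = 1 := by rw [prod_pow_eq_one φ (by rw [← pow_mul, mul_comm, pow_mul, ha, one_pow]) hfix, map_one]
    rw [prod_comm, prod_congr rfl hterm, prod_ite_eq', if_pos (mem_range.mpr hs.pos)] at h0
    exact h0
  exact (powCoprime hco.symm).injective (show m ^ s = (1 : M) ^ s by rw [one_pow]; exact hm1)

end Abstract

section Inside

variable {G : Type*} [Group G]

/-- If `y` is free on `M` and `B` then `B` centralises `M`. -/
theorem master_sub [Finite G] (M B : Subgroup G) [IsMulCommutative M] {y : G} {r : ℕ} (hr : r.Prime)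
    (hy : y ^ r = 1) (hyM : y ∈ Subgroup.normalizer (M : Set G)) (hBM : B ≤ Subgroup.normalizer (M : Set G))
    (hyB : ∀ b ∈ B, y * b * y⁻¹ ∈ B) (hfree : ∀ b ∈ B, Commute y b → b = 1)
    (hco : (Nat.card B).Coprime (Nat.card M)) (hfix : ∀ m ∈ M, Commute y m → m = 1) :
    ∀ b ∈ B, ∀ m ∈ M, Commute b m := by
  letI : CommGroup M := { (inferInstance : Group M) with mul_comm := mul_comm' }
  intro b hb m hm
  have h := master M.normalizerMonoidHom (B.subgroupOf (Subgroup.normalizer (M : Set G))) (y := ⟨y, hyM⟩) hr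
    (Subtype.ext hy) (fun c hc => hyB _ hc) (fun c hc h => Subtype.ext (hfree _ hc (congrArg Subtype.val h)))
    (by rwa [Nat.card_congr (Subgroup.subgroupOfEquivOfLe hBM).toEquiv])
    (fun x hx => Subtype.ext (hfix _ x.2 (mul_inv_eq_iff_eq_mul.mp (congrArg Subtype.val hx))))
    ⟨b, hBM hb⟩ hb ⟨m, hm⟩
  exact mul_inv_eq_iff_eq_mul.mp (congrArg Subtype.val h)

theorem fix_pair_sub [Finite G] (M : Subgroup G) [IsMulCommutative M] (hM : M ≠ ⊥) {a b : G} {s : ℕ}
    (hs : s.Prime) (hc : Commute a b) (ha : a ^ s = 1) (hb : b ^ s = 1) (haM : a ∈ Subgroup.normalizer (M : Set G))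
    (hbM : b ∈ Subgroup.normalizer (M : Set G)) (hco : s.Coprime (Nat.card M)) :
    (∃ m ∈ M, m ≠ 1 ∧ Commute a m) ∨ ∃ i : ℕ, ∃ m ∈ M, m ≠ 1 ∧ Commute (b * a ^ i) m := by
  letI : CommGroup M := { (inferInstance : Group M) with mul_comm := mul_comm' }
  haveI : Nontrivial M := (Subgroup.nontrivial_iff_ne_bot M).mpr hM
  rcases fix_pair M.normalizerMonoidHom (a := ⟨a, haM⟩) (b := ⟨b, hbM⟩) hs (Subtype.ext hc) (Subtype.ext ha)
    (Subtype.ext hb) hco with ⟨m, hm, h⟩ | ⟨i, m, hm, h⟩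
  · exact .inl ⟨m, m.2, fun e => hm (Subtype.ext e), mul_inv_eq_iff_eq_mul.mp (congrArg Subtype.val h)⟩
  · exact .inr ⟨i, m, m.2, fun e => hm (Subtype.ext e), mul_inv_eq_iff_eq_mul.mp (congrArg Subtype.val h)⟩

/-- Coprime twisting is trivial. -/
theorem eq_one_of_twist {y a c : G} {s : ℕ} (hy : y ^ s = 1) (h : y * a * y⁻¹ = c * a) (hc : Commute y c)
    (hco : s.Coprime (orderOf c)) : c = 1 := by
  have hk : ∀ k : ℕ, y ^ k * a * (y ^ k)⁻¹ = c ^ k * a := by
    intro k
    induction k with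
    | zero => simp
    | succ k ih =>
      calc y ^ (k + 1) * a * (y ^ (k + 1))⁻¹ = y * (y ^ k * a * (y ^ k)⁻¹) * y⁻¹ := by rw [pow_succ']; group
        _ = y * c ^ k * a * y⁻¹ := by rw [ih]; group
        _ = c ^ k * y * a * y⁻¹ := by rw [(hc.pow_right k).eq]
        _ = c ^ k * (y * a * y⁻¹) := by group
        _ = c ^ (k + 1) * a := by rw [h, pow_succ]; group
  have h1 := hk s
  rw [hy, one_mul, inv_one, mul_one, right_eq_mul] at h1
  exact orderOf_eq_one_iff.mp (Nat.eq_one_of_dvd_coprimes hco.symm dvd_rfl (orderOf_dvd_of_pow_eq_one h1))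

/-- If `y` is free on `M` then the commutators with an abelian coprime `A` centralise `M`. -/
theorem master_abelian [Finite G] (M A : Subgroup G) [IsMulCommutative M] [IsMulCommutative A] {y : G} {r : ℕ}
    (hr : r.Prime) (hy : y ^ r = 1) (hyM : y ∈ Subgroup.normalizer (M : Set G))
    (hAM : A ≤ Subgroup.normalizer (M : Set G)) (hyA : ∀ a ∈ A, y * a * y⁻¹ ∈ A) (hrA : r.Coprime (Nat.card A))
    (hco : (Nat.card A).Coprime (Nat.card M)) (hfix : ∀ m ∈ M, Commute y m → m = 1) :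
    ∀ a ∈ A, ∀ m ∈ M, Commute (a * (y * a⁻¹ * y⁻¹)) m := by
  let δ : A →* G :=
    { toFun := fun a => (a : G) * (y * (a : G)⁻¹ * y⁻¹)
      map_one' := by simp
      map_mul' := fun a b => by
        have hc : Commute (b : G) (y * (a : G)⁻¹ * y⁻¹) :=
          setLike_mul_comm b.2 (hyA _ (A.inv_mem a.2))
        calc ((a * b : A) : G) * (y * ((a * b : A) : G)⁻¹ * y⁻¹)
            = (a : G) * (b * ((y * (b : G)⁻¹ * y⁻¹) * (y * (a : G)⁻¹ * y⁻¹))) := by
              rw [Subgroup.coe_mul]; group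
          _ = (a : G) * (b * ((y * (a : G)⁻¹ * y⁻¹) * (y * (b : G)⁻¹ * y⁻¹))) := by
              rw [(show Commute (y * (b : G)⁻¹ * y⁻¹) (y * (a : G)⁻¹ * y⁻¹) from
                setLike_mul_comm (hyA _ (A.inv_mem b.2)) (hyA _ (A.inv_mem a.2))).eq]
          _ = _ := by rw [← mul_assoc (b : G), hc.eq]; group }
  have hB : δ.range ≤ A := by rintro _ ⟨a, rfl⟩; exact A.mul_mem a.2 (hyA _ (A.inv_mem a.2))
  have h := master_sub M δ.range hr hy hyM (hB.trans hAM) ?_ ?_
    (hco.coprime_dvd_left (Subgroup.card_dvd_of_le hB)) hfix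
  · exact fun a ha m hm => h _ ⟨⟨a, ha⟩, rfl⟩ m hm
  · rintro _ ⟨a, rfl⟩
    refine ⟨⟨y * (a : G) * y⁻¹, hyA _ a.2⟩, ?_⟩
    show y * (a : G) * y⁻¹ * (y * (y * (a : G) * y⁻¹)⁻¹ * y⁻¹) = y * ((a : G) * (y * (a : G)⁻¹ * y⁻¹)) * y⁻¹
    group
  · rintro b ⟨a, rfl⟩ hc
    have hA : δ a ∈ A := hB ⟨a, rfl⟩
    have h1 : y * (a : G) * y⁻¹ = (δ a)⁻¹ * a := by
      show y * (a : G) * y⁻¹ = ((a : G) * (y * (a : G)⁻¹ * y⁻¹))⁻¹ * a
      group
    exact inv_eq_one.mp (eq_one_of_twist hy h1 hc.inv_right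
      (hrA.coprime_dvd_right (Subgroup.orderOf_dvd_natCard A (A.inv_mem hA))))

end Inside

end CfsgLib.ThreeFree
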