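import Cfsg.Agent.ThreeFree.Action
import Cfsg.Agent.RankOneP.Basic
import Cfsg.Agent.CoprimeAction.Abelian
import Cfsg.Agent.Subnormal.BaerSuzuki
import Cfsg.Agent.Hall.Fitting
import Cfsg.Agent.PReduced.Hom
import Cfsg.Agent.PLocalBasics.NormalElemAbelian

/-!
Vocabulary for solvable groups without elements whose order is a product of three primes.
-/

set_option autoImplicit false

namespace CfsgLib.ThreeFree

open Subgroup

variable {G : Type*} [Group G]

/-- No three commuting elements of three distinct prime orders. -/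
def NoTriple (G : Type*) [Group G] : Prop :=
  ∀ a b c : G, (orderOf a).Prime → (orderOf b).Prime → (orderOf c).Prime → orderOf a ≠ orderOf b →
    orderOf b ≠ orderOf c → orderOf a ≠ orderOf c → Commute a b → Commute a c → Commute b c → False

/-- `x` fixes a non-identity element of `M`. -/
def Fixes (M : Subgroup G) (x : G) : Prop := ∃ m ∈ M, m ≠ 1 ∧ Commute x m

theorem eq_one_of_not_fixes {M : Subgroup G} {x : G} (h : ¬ Fixes M x) : ∀ m ∈ M, Commute x m → m = 1 :=
  fun m hm hc => by_contra fun h1 => h ⟨m, hm, h1, hc⟩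

/-- Two commuting independent elements of order `r`. -/
structure IsPair (L : Subgroup G) (r : ℕ) (a b : G) : Prop where
  amem : a ∈ L
  bmem : b ∈ L
  aord : orderOf a = r
  bord : orderOf b = r
  comm : Commute a b
  notMem : b ∉ zpowers a

def HasPair (L : Subgroup G) (r : ℕ) : Prop := ∃ a b, IsPair L r a b

/-- The elements `a` and `b * a ^ i`. -/
def Comb (a b x : G) : Prop := x = a ∨ ∃ i : ℕ, x = b * a ^ i

theorem IsPair.comb {L : Subgroup G} {r : ℕ} (hr : r.Prime) {a b x : G} (h : IsPair L r a b) (hx : Comb a b x) :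
    x ∈ L ∧ orderOf x = r ∧ (∀ y, Commute y a → Commute y b → Commute y x) := by
  haveI := Fact.mk hr
  rcases hx with rfl | ⟨i, rfl⟩
  · exact ⟨h.amem, h.aord, fun _ hy _ => hy⟩
  · refine ⟨L.mul_mem h.bmem (L.pow_mem h.amem i), orderOf_eq_prime ?_ ?_, fun y h1 h2 => h2.mul_right (h1.pow_right i)⟩
    · have e1 : a ^ r = 1 := h.aord ▸ pow_orderOf_eq_one a
      have e2 : b ^ r = 1 := h.bord ▸ pow_orderOf_eq_one b
      rw [(h.comm.symm.pow_right i).mul_pow, e2, ← pow_mul, mul_comm i, pow_mul, e1, one_pow, one_mul]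
    · intro e
      exact h.notMem (by rw [mul_eq_one_iff_eq_inv.mp e]; exact inv_mem (npow_mem_zpowers a i))

theorem IsPair.exists_fixes [Finite G] {L : Subgroup G} {r : ℕ} (hr : r.Prime) {a b : G} (h : IsPair L r a b)
    (M : Subgroup G) [IsMulCommutative M] (hM : M ≠ ⊥) (ha : a ∈ normalizer (M : Set G))
    (hb : b ∈ normalizer (M : Set G)) (hco : r.Coprime (Nat.card M)) : ∃ x, Comb a b x ∧ Fixes M x := by
  rcases fix_pair_sub M hM hr h.comm (h.aord ▸ pow_orderOf_eq_one a) (h.bord ▸ pow_orderOf_eq_one b) ha hb hco with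
    ⟨m, hm, h1, hc⟩ | ⟨i, m, hm, h1, hc⟩
  · exact ⟨a, .inl rfl, m, hm, h1, hc⟩
  · exact ⟨b * a ^ i, .inr ⟨i, rfl⟩, m, hm, h1, hc⟩

theorem HasPair.exists_fixes [Finite G] {L : Subgroup G} {r : ℕ} (hr : r.Prime) (h : HasPair L r)
    (M : Subgroup G) [IsMulCommutative M] (hM : M ≠ ⊥) (hL : L ≤ normalizer (M : Set G))
    (hco : r.Coprime (Nat.card M)) : ∃ x ∈ L, orderOf x = r ∧ Fixes M x := by
  obtain ⟨a, b, hp⟩ := h
  obtain ⟨x, hx, hf⟩ := hp.exists_fixes hr M hM (hL hp.amem) (hL hp.bmem) hco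
  exact ⟨x, (hp.comb hr hx).1, (hp.comb hr hx).2.1, hf⟩

theorem mem_normalizer_of_commute {y : G} {M : Subgroup G} {x : G} (hc : Commute y x)
    (hx : x ∈ normalizer (M : Set G)) : x ∈ normalizer ((M ⊓ centralizer ({y} : Set G) : Subgroup G) : Set G) := by
  rw [Subgroup.mem_normalizer_iff] at hx ⊢
  intro m
  simp only [Subgroup.mem_inf, Subgroup.mem_centralizer_singleton_iff, ← hx m]
  refine and_congr_right fun _ => ⟨fun h => ?_, fun h => ?_⟩
  · exact ((hc.mul_right (Commute.symm h)).mul_right hc.inv_right).eq.symm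
  · have h' := (hc.inv_right.mul_right (Commute.symm h)).mul_right hc
    have e : x⁻¹ * (x * m * x⁻¹) * x = m := by group
    rw [e] at h'
    exact h'.eq.symm

/-- `y` centralising an independent pair fixes nothing, if no element of the pair shares a fixed point with it. -/
theorem IsPair.excludes [Finite G] {L : Subgroup G} {r : ℕ} (hr : r.Prime) {a b : G} (h : IsPair L r a b)
    (M : Subgroup G) [IsMulCommutative M] (ha : a ∈ normalizer (M : Set G))
    (hb : b ∈ normalizer (M : Set G)) (hco : r.Coprime (Nat.card M)) {y : G} (hya : Commute y a) (hyb : Commute y b)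
    (hT : ∀ x, Comb a b x → ∀ m ∈ M, Commute x m → Commute y m → m = 1) : ¬ Fixes M y := by
  rintro ⟨m, hm, hm1, hc⟩
  set N := M ⊓ centralizer ({y} : Set G)
  haveI : IsMulCommutative N :=
    ⟨⟨fun u v => Subtype.ext (setLike_mul_comm u.2.1 v.2.1)⟩⟩
  have hN : N ≠ ⊥ := fun e => hm1 (by
    have : m ∈ N := ⟨hm, mem_centralizer_singleton_iff.mpr hc.eq.symm⟩
    rwa [e] at this)
  obtain ⟨x, hx, n, hn, hn1, hxn⟩ := h.exists_fixes hr N hN (mem_normalizer_of_commute hya ha)
    (mem_normalizer_of_commute hyb hb) (hco.coprime_dvd_right (card_dvd_of_le inf_le_left))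
  exact hn1 (hT x hx n hn.1 hxn (mem_centralizer_singleton_iff.mp hn.2).symm)

theorem coprime_of_isPGroup [Finite G] {p r : ℕ} (hp : p.Prime) (hr : r.Prime) (hne : r ≠ p) {M : Subgroup G}
    (hM : IsPGroup p M) : r.Coprime (Nat.card M) := by
  haveI := Fact.mk hp
  obtain ⟨k, hk⟩ := IsPGroup.iff_card.mp hM
  rw [hk]; exact Nat.Coprime.pow_right k ((Nat.coprime_primes hr hp).mpr hne)

theorem orderOf_eq_of_pgroup {p : ℕ} (hp : p.Prime) {M : Subgroup G} (hM : ∀ m ∈ M, m ^ p = 1) {m : G}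
    (hm : m ∈ M) (h1 : m ≠ 1) : orderOf m = p :=
  haveI := Fact.mk hp; orderOf_eq_prime (hM m hm) h1

/-! ### Normal subgroups of prime order -/

theorem commute_or_dvd [Finite G] {w x : G} {r t : ℕ} (hr : r.Prime) (ht : t.Prime) (hw : orderOf w = r)
    (hx : orderOf x = t) (hn : x ∈ normalizer (zpowers w : Set G)) : Commute x w ∨ t ∣ r - 1 := by
  haveI : IsCyclic (zpowers w) := inferInstance
  set φ := (zpowers w).normalizerMonoidHom with hφ
  by_cases h1 : φ ⟨x, hn⟩ = 1
  · left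
    have := congrArg Subtype.val (DFunLike.congr_fun h1 ⟨w, mem_zpowers w⟩)
    exact mul_inv_eq_iff_eq_mul.mp this
  · right
    haveI := Fact.mk ht
    have h2 : orderOf (φ ⟨x, hn⟩) = t := orderOf_eq_prime (by
      rw [← map_pow, show (⟨x, hn⟩ : normalizer (zpowers w : Set G)) ^ t = 1 from
        Subtype.ext (hx ▸ pow_orderOf_eq_one x), map_one]) h1
    have h3 := orderOf_dvd_natCard (φ ⟨x, hn⟩)
    rw [h2, IsCyclic.card_mulAut, Nat.card_zpowers, hw, Nat.totient_prime hr] at h3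
    exact h3

theorem commute_of_same [Finite G] {w x : G} {r : ℕ} (hr : r.Prime) (hw : orderOf w = r) (hx : orderOf x = r)
    (hn : x ∈ normalizer (zpowers w : Set G)) : Commute x w := by
  refine (commute_or_dvd hr hr hw hx hn).resolve_right fun h => ?_
  have := Nat.le_of_dvd (by have := hr.two_le; omega) h
  have := hr.two_le; omega

theorem IsPair.exists_commute [Finite G] {L : Subgroup G} {t : ℕ} (ht : t.Prime) {a b : G} (h : IsPair L t a b)
    {w : G} {r : ℕ} (hr : r.Prime) (hw : orderOf w = r) (hn : L ≤ normalizer (zpowers w : Set G)) :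
    ∃ x, Comb a b x ∧ Commute x w := by
  haveI := Fact.mk hr
  haveI := Fact.mk ht
  set φ := (zpowers w).normalizerMonoidHom with hφ
  have hcard : Nat.card (zpowers w) = r := by rw [Nat.card_zpowers, hw]
  haveI : IsCyclic (zpowers w) := inferInstance
  haveI : IsCyclic (MulAut (zpowers w)) := by
    haveI : IsCyclic (ZMod (Nat.card (zpowers w)))ˣ := by rw [hcard]; infer_instance
    exact isCyclic_of_surjective _ (IsCyclic.mulAutMulEquiv (zpowers w)).symm.surjective
  haveI : Finite (MulAut (zpowers w)) := Finite.of_injective (fun e => (e : zpowers w → zpowers w)) DFunLike.coe_injective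
  have key : ∀ x (hx : x ∈ L), φ ⟨x, hn hx⟩ = 1 → Commute x w := fun x hx h1 =>
    mul_inv_eq_iff_eq_mul.mp (congrArg Subtype.val (DFunLike.congr_fun h1 (⟨w, mem_zpowers w⟩ : zpowers w)))
  set A := φ ⟨a, hn h.amem⟩ with hA
  set B := φ ⟨b, hn h.bmem⟩ with hB
  have hAt : A ^ t = 1 := by
    rw [hA, ← map_pow, show (⟨a, hn h.amem⟩ : normalizer (zpowers w : Set G)) ^ t = 1 from
      Subtype.ext (h.aord ▸ pow_orderOf_eq_one a), map_one]
  have hBt : B ^ t = 1 := by
    rw [hB, ← map_pow, show (⟨b, hn h.bmem⟩ : normalizer (zpowers w : Set G)) ^ t = 1 from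
      Subtype.ext (h.bord ▸ pow_orderOf_eq_one b), map_one]
  by_cases hA1 : A = 1
  · exact ⟨a, .inl rfl, key a h.amem hA1⟩
  by_cases hB1 : B = 1
  · exact ⟨b * a ^ 0, .inr ⟨0, rfl⟩, by simpa using key b h.bmem hB1⟩
  have hz := RankOneP.zpowers_eq_of_orderOf_eq (a := A⁻¹) (b := B)
    (by rw [orderOf_inv, orderOf_eq_prime hAt hA1, orderOf_eq_prime hBt hB1])
  have hB' : B ∈ zpowers A⁻¹ := hz ▸ mem_zpowers B
  obtain ⟨i, hi⟩ := (isOfFinOrder_of_finite _).mem_powers_iff_mem_zpowers.mpr hB'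
  refine ⟨b * a ^ i, .inr ⟨i, rfl⟩, key _ (L.mul_mem h.bmem (L.pow_mem h.amem i)) ?_⟩
  have e : (⟨b * a ^ i, hn (L.mul_mem h.bmem (L.pow_mem h.amem i))⟩ : normalizer (zpowers w : Set G)) =
      ⟨b, hn h.bmem⟩ * ⟨a, hn h.amem⟩ ^ i := rfl
  rw [e, map_mul, map_pow, ← hA, ← hB]
  rw [show B = A⁻¹ ^ i from hi.symm, inv_pow, inv_mul_cancel]

theorem commutator_commute {w x e : G} (hx : x ∈ normalizer (zpowers w : Set G))
    (he : e ∈ normalizer (zpowers w : Set G)) : Commute (x * e * x⁻¹ * e⁻¹) w := by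
  obtain ⟨i, hi⟩ := (Subgroup.mem_normalizer_iff.mp hx w).mp (mem_zpowers w)
  obtain ⟨j, hj⟩ := (Subgroup.mem_normalizer_iff.mp he w).mp (mem_zpowers w)
  have hi' : x * w = w ^ i * x := mul_inv_eq_iff_eq_mul.mp hi.symm
  have hj' : e * w = w ^ j * e := mul_inv_eq_iff_eq_mul.mp hj.symm
  have pw : ∀ (u : G) (k : ℤ), u * w = w ^ k * u → ∀ l : ℤ, u * w ^ l = w ^ (k * l) * u := by
    intro u k h l
    have hs : SemiconjBy u w (w ^ k) := h
    rw [zpow_mul]; exact hs.zpow_right l
  have hxe : (x * e) * w = w ^ (i * j) * (x * e) := by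
    rw [mul_assoc, hj', ← mul_assoc, pw x i hi' j, mul_assoc]
  have hex : (e * x) * w = w ^ (i * j) * (e * x) := by
    rw [mul_assoc, hi', ← mul_assoc, pw e j hj' i, mul_comm j i, mul_assoc]
  have e2 : (e * x)⁻¹ * w ^ (i * j) = w * (e * x)⁻¹ := by
    rw [inv_mul_eq_iff_eq_mul, ← mul_assoc, hex, mul_inv_cancel_right]
  show x * e * x⁻¹ * e⁻¹ * w = w * (x * e * x⁻¹ * e⁻¹)
  have h3 : Commute (x * e * (e * x)⁻¹) (w ^ (i * j)) := by
    show x * e * (e * x)⁻¹ * w ^ (i * j) = w ^ (i * j) * (x * e * (e * x)⁻¹)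
    rw [mul_assoc, e2, ← mul_assoc, hxe, mul_assoc]
  have hxu : w ∈ zpowers (w ^ (i * j)) := by
    have hm : w ^ (i * j) = (x * e) * w * (x * e)⁻¹ := by rw [hxe, mul_inv_cancel_right]
    have hle : zpowers (w ^ (i * j)) ≤ zpowers w := zpowers_le.mpr (zpow_mem (mem_zpowers w) _)
    by_cases hfin : IsOfFinOrder w
    · haveI : Finite (zpowers w) := (finite_zpowers.mpr hfin).to_subtype
      have := Subgroup.eq_of_le_of_card_ge hle (by
        rw [Nat.card_zpowers, Nat.card_zpowers, hm]; exact le_of_eq (MulEquiv.orderOf_eq (MulAut.conj (x * e)) w).symm)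
      rw [this]; exact mem_zpowers w
    · have hmem : (x * e)⁻¹ * w * (x * e) ∈ zpowers w := by
        have := (Subgroup.mem_normalizer_iff.mp ((normalizer (zpowers w : Set G)).inv_mem
          (mul_mem hx he)) w).mp (mem_zpowers w)
        simpa using this
      obtain ⟨l, hl⟩ := hmem
      refine ⟨l, ?_⟩
      show (w ^ (i * j)) ^ l = w
      rw [hm, conj_zpow, show w ^ l = _ from hl]; group
  obtain ⟨l, hl⟩ := hxu
  have h4 := h3.zpow_right l
  rw [show (w ^ (i * j)) ^ l = w from hl, mul_inv_rev, ← mul_assoc] at h4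
  exact h4.eq

end CfsgLib.ThreeFree
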