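import Cfsg.Agent.ThreeFree.Helpers

/-!
A solvable `{r, s}`-group with independent pairs of both orders cannot act on two modules so that no
element of prime order fixes points in both.
-/

set_option autoImplicit false

namespace CfsgLib.ThreeFree

open Subgroup

variable {G : Type*} [Group G] [Finite G]

/-- The hypotheses of the two-module lemma, for an unordered pair of modules. -/
structure TwoMod (L M₁ M₂ : Subgroup G) (r s : ℕ) : Prop where
  comm : ∀ M, M = M₁ ∨ M = M₂ → IsMulCommutative M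
  ne_bot : ∀ M, M = M₁ ∨ M = M₂ → M ≠ ⊥
  normal : ∀ M, M = M₁ ∨ M = M₂ → L ≤ normalizer (M : Set G)
  coprime : ∀ M, M = M₁ ∨ M = M₂ → (Nat.card L).Coprime (Nat.card M)
  rprime : r.Prime
  sprime : s.Prime
  ne : r ≠ s
  primes : ∀ t : ℕ, t.Prime → t ∣ Nat.card L → t = r ∨ t = s
  rpair : HasPair L r
  spair : HasPair L s
  single : ∀ x ∈ L, (orderOf x).Prime → Fixes M₁ x → Fixes M₂ x → False
  noTriple : ∀ x ∈ L, ∀ y ∈ L, (orderOf x).Prime → (orderOf y).Prime → orderOf x ≠ orderOf y → Commute x y →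
    ∀ M, M = M₁ ∨ M = M₂ → ∀ m ∈ M, Commute x m → Commute y m → m = 1

namespace TwoMod

variable {L M₁ M₂ : Subgroup G} {r s : ℕ}

theorem single' (h : TwoMod L M₁ M₂ r s) {M : Subgroup G} (hM : M = M₁ ∨ M = M₂) :
    ∃ M', (M' = M₁ ∨ M' = M₂) ∧ ∀ x ∈ L, (orderOf x).Prime → Fixes M x → Fixes M' x → False := by
  rcases hM with rfl | rfl
  · exact ⟨M₂, .inr rfl, h.single⟩
  · exact ⟨M₁, .inl rfl, fun x hx hp h1 h2 => h.single x hx hp h2 h1⟩

theorem symm (h : TwoMod L M₁ M₂ r s) : TwoMod L M₁ M₂ s r :=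
  { h with
    rprime := h.sprime, sprime := h.rprime, ne := h.ne.symm
    primes := fun t ht hd => (h.primes t ht hd).symm, rpair := h.spair, spair := h.rpair }

theorem scop (h : TwoMod L M₁ M₂ r s) {M : Subgroup G} (hM : M = M₁ ∨ M = M₂) : s.Coprime (Nat.card M) := by
  obtain ⟨a, b, hp⟩ := h.spair
  exact hp.aord ▸ coprime_of_mem (h.coprime M hM) hp.amem

theorem free_normal (h : TwoMod L M₁ M₂ r s) {w : G} (hwL : w ∈ L) (hwo : orderOf w = r)
    (hn : L ≤ normalizer (zpowers w : Set G)) : ∀ M, M = M₁ ∨ M = M₂ → ¬ Fixes M w := by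
  intro M hM hf
  obtain ⟨M', hM', hone⟩ := h.single' hM
  haveI := h.comm M hM
  haveI := h.comm M' hM'
  set N := M ⊓ centralizer (zpowers w : Set G)
  haveI : IsMulCommutative N := ⟨⟨fun u v => Subtype.ext (setLike_mul_comm u.2.1 v.2.1)⟩⟩
  have hN : N ≠ ⊥ := fun e => by
    obtain ⟨m, hm, hm1, hc⟩ := hf
    refine hm1 ?_
    have : m ∈ N := ⟨hm, Subgroup.mem_centralizer_iff.mpr fun c hc' => by
      obtain ⟨k, rfl⟩ := hc'; exact (hc.zpow_left k).eq⟩
    rwa [e] at this
  obtain ⟨e, heL, heo, n, hn', hn1, hen⟩ := h.spair.exists_fixes h.sprime N hN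
    (fun g hg => normalizes_fixed (h.normal M hM hg) (hn hg))
    ((h.scop hM).coprime_dvd_right (card_dvd_of_le inf_le_left))
  have hwn : Commute w n := Subgroup.mem_centralizer_iff.mp hn'.2 w (mem_zpowers w)
  have hwp : (orderOf w).Prime := hwo ▸ h.rprime
  have hep : (orderOf e).Prime := heo ▸ h.sprime
  have hne : ¬ Commute e w := fun hc =>
    hn1 (h.noTriple e heL w hwL hep hwp (by rw [heo, hwo]; exact h.ne.symm) hc M hM n hn'.1 hen hwn)
  have hefix : ¬ Fixes M' e := hone e heL hep ⟨n, hn'.1, hn1, hen⟩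
  by_cases hall : ∀ m ∈ M', Commute w m
  · exact hone w hwL hwp hf (fixes_of_centralizes (h.ne_bot M' hM') hall)
  · exact hefix (fixes_of_moves M' hwp hep (hn heL) hne (h.normal M' hM' hwL) (h.normal M' hM' heL)
      (coprime_of_mem (h.coprime M' hM') hwL) hall)

theorem commute_normal (h : TwoMod L M₁ M₂ r s) {w : G} (hwL : w ∈ L) (hwo : orderOf w = r)
    (hn : L ≤ normalizer (zpowers w : Set G)) {y : G} (hy : y ∈ L) (hyo : orderOf y = s) : Commute y w := by
  by_contra hne
  have hwp : (orderOf w).Prime := hwo ▸ h.rprime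
  have hyp : (orderOf y).Prime := hyo ▸ h.sprime
  have key : ∀ M, M = M₁ ∨ M = M₂ → Fixes M y := fun M hM => by
    haveI := h.comm M hM
    exact fixes_of_moves M hwp hyp (hn hy) hne (h.normal M hM hwL) (h.normal M hM hy)
      (coprime_of_mem (h.coprime M hM) hwL)
      fun hall => h.free_normal hwL hwo hn M hM (fixes_of_centralizes (h.ne_bot M hM) hall)
  exact h.single y hy hyp (key _ (.inl rfl)) (key _ (.inr rfl))

theorem not_pair_center (h : TwoMod L M₁ M₂ r s) : ¬ HasPair (omegaCenter (core L r) r) r := by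
  haveI := Fact.mk h.rprime
  set W := omegaCenter (core L r) r
  have hWL : W ≤ L := fun x hx => core_le L r hx.1
  have hWn : ∀ g ∈ L, ∀ x ∈ W, g * x * g⁻¹ ∈ W := fun g hg x hx =>
    omegaCenter_conj (le_normalizer_of_conj (fun g hg x hx => core_conj L r hg hx) hg) hx
  intro hp
  haveI := omegaCenter_comm (core L r) r
  have htriv : ∀ M, M = M₁ ∨ M = M₂ → ∀ x ∈ W, (∀ m ∈ M, Commute x m) → x = 1 := by
    intro M hM c hc hcM
    by_contra hc1
    obtain ⟨M', hM', hone⟩ := h.single' hM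
    haveI := h.comm M' hM'
    have hco : orderOf c = r := orderOf_eq_prime hc.2.1 hc1
    set C := W ⊓ centralizer (M : Set G)
    have hcC : c ∈ C := ⟨hc, Subgroup.mem_centralizer_iff.mpr fun m hm => (hcM m hm).eq.symm⟩
    have hCn : ∀ g ∈ L, ∀ x ∈ C, g * x * g⁻¹ ∈ C := fun g hg x hx => by
      refine ⟨hWn g hg x hx.1, Subgroup.mem_centralizer_iff.mpr fun m hm => ?_⟩
      have h1 : g⁻¹ * m * g ∈ M := by
        simpa using conj_mem_of_normalizer ((normalizer (M : Set G)).inv_mem (h.normal M hM hg)) hm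
      have h2 := Subgroup.mem_centralizer_iff.mp hx.2 _ h1
      calc m * (g * x * g⁻¹) = g * ((g⁻¹ * m * g) * x) * g⁻¹ := by group
        _ = g * (x * (g⁻¹ * m * g)) * g⁻¹ := by rw [h2]
        _ = g * x * g⁻¹ * m := by group
    by_cases hcyc : ∀ x ∈ C, x ∈ zpowers c
    · exact h.free_normal (hWL hc) hco (fun g hg => zpowers_conj hcyc hcC (le_normalizer_of_conj hCn hg)) M hM
        (fixes_of_centralizes (h.ne_bot M hM) hcM)
    · push Not at hcyc
      obtain ⟨d, hd, hdc⟩ := hcyc
      have hp' : IsPair C r c d := ⟨hcC, hd, hco, orderOf_eq_prime hd.1.2.1 (fun e => hdc (by rw [e]; exact one_mem _)),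
        hc.2.2 d hd.1.1, hdc⟩
      obtain ⟨x, hx, hxf⟩ := hp'.exists_fixes h.rprime M' (h.ne_bot M' hM') (h.normal M' hM' (hWL hc))
        (h.normal M' hM' (hWL hd.1)) (hco ▸ coprime_of_mem (h.coprime M' hM') (hWL hc))
      obtain ⟨hxC, hxo, -⟩ := hp'.comb h.rprime hx
      exact hone x (hWL hxC.1) (hxo ▸ h.rprime) (fixes_of_centralizes (h.ne_bot M hM)
        fun m hm => (Subgroup.mem_centralizer_iff.mp hxC.2 m hm).symm) hxf
  obtain ⟨a, b, hab⟩ := hp
  have hcent : ∀ y ∈ L, orderOf y = s → ∀ a ∈ W, Commute y a := by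
    intro y hy hyo a ha
    have hyp : (orderOf y).Prime := hyo ▸ h.sprime
    obtain ⟨M, hM, hf⟩ : ∃ M, (M = M₁ ∨ M = M₂) ∧ ¬ Fixes M y := by
      by_cases h1 : Fixes M₁ y
      · exact ⟨M₂, .inr rfl, h.single y hy hyp h1⟩
      · exact ⟨M₁, .inl rfl, h1⟩
    haveI := h.comm M hM
    have h1 := master_abelian M W hyp (pow_orderOf_eq_one y) (h.normal M hM hy) (hWL.trans (h.normal M hM))
      (fun a ha => hWn y hy a ha) (by
        rw [hyo]
        exact coprime_of_isPGroup h.rprime h.sprime h.ne.symm ((core_isPGroup L r).to_le fun x hx => hx.1))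
      ((h.coprime M hM).coprime_dvd_left (card_dvd_of_le hWL)) (eq_one_of_not_fixes hf) a ha
    have h2 := htriv M hM _ (W.mul_mem ha (hWn y hy _ (W.inv_mem ha))) h1
    have h3 : a = y * a * y⁻¹ := by
      rw [mul_eq_one_iff_eq_inv] at h2
      simpa [mul_assoc] using h2
    exact mul_inv_eq_iff_eq_mul.mp h3.symm
  haveI := h.comm M₁ (.inl rfl)
  obtain ⟨y, hy, hyo, hyf⟩ := h.spair.exists_fixes h.sprime M₁ (h.ne_bot _ (.inl rfl)) (h.normal _ (.inl rfl))
    (h.scop (.inl rfl))
  refine hab.excludes h.rprime M₁ (h.normal _ (.inl rfl) (hWL hab.amem)) (h.normal _ (.inl rfl) (hWL hab.bmem))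
    (hab.aord ▸ coprime_of_mem (h.coprime _ (.inl rfl)) (hWL hab.amem)) (hcent y hy hyo a hab.amem)
    (hcent y hy hyo b hab.bmem) (fun x hx m hm hxm hym => ?_) hyf
  obtain ⟨hxW, hxo, -⟩ := hab.comb h.rprime hx
  exact h.noTriple x (hWL hxW) y hy (hxo ▸ h.rprime) (hyo ▸ h.sprime) (by rw [hxo, hyo]; exact h.ne)
    (hcent y hy hyo x hxW).symm M₁ (.inl rfl) m hm hxm hym

/-- The normal subgroup of order `r` given by the core. -/
theorem exists_normal_prime (h : TwoMod L M₁ M₂ r s) (hne : core L r ≠ ⊥) :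
    ∃ w ∈ omegaCenter (core L r) r, orderOf w = r ∧ L ≤ normalizer (zpowers w : Set G) ∧
      ∀ x ∈ omegaCenter (core L r) r, x ∈ zpowers w := by
  haveI := Fact.mk h.rprime
  obtain ⟨w, hw, hwo⟩ := exists_omegaCenter (core_isPGroup L r) hne
  have hall : ∀ x ∈ omegaCenter (core L r) r, x ∈ zpowers w := fun x hx => by
    by_cases h1 : x = 1
    · rw [h1]; exact one_mem _
    · exact mem_zpowers_of_not_pair h.not_pair_center hw hwo hx (orderOf_eq_prime hx.2.1 h1) (hw.2.2 x hx.1)
  exact ⟨w, hw, hwo, fun g hg => zpowers_conj hall hw (le_normalizer_of_conj (fun g hg x hx =>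
    omegaCenter_conj (le_normalizer_of_conj (fun g hg x hx => core_conj L r hg hx) hg) hx) hg), hall⟩

/-- A noncyclic subgroup with central `w` has a further central element of order `r`. -/
theorem exists_second (h : TwoMod L M₁ M₂ r s) {w : G} (hwo : orderOf w = r)
    (hn : L ≤ normalizer (zpowers w : Set G)) {Q : Subgroup G} (hQL : Q ≤ L) (hQ : IsPGroup r Q)
    (hw : w ∈ omegaCenter Q r) (hp : HasPair Q r) : ∃ x ∈ omegaCenter Q r, orderOf x = r ∧ x ∉ zpowers w := by
  haveI := Fact.mk h.rprime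
  refine (trick hQ hw hwo hp).resolve_right ?_
  rintro ⟨u, g, hu, hg, huo, huw, hne, hmem⟩
  have hwc : Commute w u := hw.2.2 u hu
  have hp' : IsPair L r w u := ⟨hQL hw.1, hQL hu, hwo, huo, hwc, huw⟩
  have hgw : Commute g w := (hw.2.2 g hg).symm
  have key : ∀ M, M = M₁ ∨ M = M₂ → Fixes M u := by
    intro M hM
    haveI := h.comm M hM
    obtain ⟨x, hx, m, hm, hm1, hxm⟩ := hp'.exists_fixes h.rprime M (h.ne_bot M hM) (h.normal M hM (hQL hw.1))
      (h.normal M hM (hQL hu)) (hwo ▸ coprime_of_mem (h.coprime M hM) (hQL hw.1))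
    rcases hx with rfl | ⟨i, rfl⟩
    · exact absurd ⟨m, hm, hm1, hxm⟩ (h.free_normal (hQL hw.1) hwo hn M hM)
    set c := g * u * g⁻¹ * u⁻¹
    have hcw : w ∈ zpowers c := (eq_one_or_mem (hwo ▸ h.rprime) hmem).resolve_left
      fun e => hne (mul_inv_eq_one.mp e)
    obtain ⟨n', hn''⟩ := (isOfFinOrder_of_finite c).mem_powers_iff_mem_zpowers.mpr
      (show (w ^ i)⁻¹ ∈ zpowers c from inv_mem (pow_mem hcw i))
    have hgc : Commute g c := by
      obtain ⟨k, hk⟩ := hmem
      rw [show c = w ^ k from hk.symm]; exact hgw.zpow_right k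
    have hiter : ∀ k : ℕ, g ^ k * u * (g ^ k)⁻¹ = c ^ k * u := by
      intro k
      induction k with
      | zero => simp
      | succ k ih =>
        calc g ^ (k + 1) * u * (g ^ (k + 1))⁻¹ = g * (g ^ k * u * (g ^ k)⁻¹) * g⁻¹ := by rw [pow_succ']; group
          _ = g * c ^ k * u * g⁻¹ := by rw [ih]; group
          _ = c ^ k * g * u * g⁻¹ := by rw [(hgc.pow_right k).eq]
          _ = c ^ (k + 1) * u := by rw [pow_succ]; simp only [c]; group
    have e : g ^ n' * (u * w ^ i) * (g ^ n')⁻¹ = u := by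
      have h1 : g ^ n' * w ^ i = w ^ i * g ^ n' := (hgw.pow_pow n' i).eq
      calc g ^ n' * (u * w ^ i) * (g ^ n')⁻¹ = (g ^ n' * u * (g ^ n')⁻¹) * (g ^ n' * w ^ i) * (g ^ n')⁻¹ := by group
        _ = (c ^ n' * u) * (w ^ i * g ^ n') * (g ^ n')⁻¹ := by rw [hiter, h1]
        _ = c ^ n' * (u * w ^ i) := by group
        _ = c ^ n' * (w ^ i * u) := by rw [(hwc.pow_left i).eq]
        _ = (c ^ n' * w ^ i) * u := by group
        _ = u := by rw [show c ^ n' = (w ^ i)⁻¹ from hn'', inv_mul_cancel, one_mul]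
    refine ⟨g ^ n' * m * (g ^ n')⁻¹, conj_mem_of_normalizer ((normalizer (M : Set G)).pow_mem
      (h.normal M hM (hQL hg)) n') hm, fun e' => hm1 (conj_eq_one_iff.mp e'), ?_⟩
    rw [← e]; exact hxm.conj _
  exact h.single u (hQL hu) (huo ▸ h.rprime) (key _ (.inl rfl)) (key _ (.inr rfl))

theorem not_pair_core (h : TwoMod L M₁ M₂ r s) : ¬ HasPair (core L r) r := by
  haveI := Fact.mk h.rprime
  intro hp
  have hne : core L r ≠ ⊥ := fun e => by
    obtain ⟨a, b, hab⟩ := hp
    have := hab.amem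
    rw [e, Subgroup.mem_bot] at this
    exact h.rprime.ne_one (by rw [← hab.aord, this, orderOf_one])
  obtain ⟨w, hw, hwo, hn, hall⟩ := h.exists_normal_prime hne
  obtain ⟨x, hx, -, hxw⟩ := h.exists_second hwo hn (core_le L r) (core_isPGroup L r) hw hp
  exact hxw (hall x hx)

theorem false_of_odd (h : TwoMod L M₁ M₂ r s) [Group.IsSolvable L] (hr2 : r ≠ 2) : False := by
  haveI := Fact.mk h.rprime
  haveI := Fact.mk h.sprime
  -- every element of order `s` centralises the `r`-core
  have hR : ∀ y ∈ L, orderOf y = s → ∀ c ∈ core L r, Commute y c := by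
    intro y hy hyo c hc
    by_cases hne : core L r = ⊥
    · rw [hne, Subgroup.mem_bot] at hc; rw [hc]; exact Commute.one_right y
    obtain ⟨w, hw, hwo, hn, -⟩ := h.exists_normal_prime hne
    exact commute_of_not_pair hr2 (core_isPGroup L r) h.not_pair_core hw hwo h.sprime h.ne.symm hyo
      (le_normalizer_of_conj (fun g hg x hx => core_conj L r hg hx) hy)
      (h.commute_normal (core_le L r hw.1) hwo hn hy hyo) c hc
  obtain ⟨a, b, hab⟩ := h.spair
  by_cases hne : core L s = ⊥
  · have := mem_core_of_centralizes L hab.amem hab.aord fun t ht hd c hc => by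
      rcases h.primes t ht hd with rfl | rfl
      · exact hR a hab.amem hab.aord c hc
      · rw [hne, Subgroup.mem_bot] at hc; rw [hc]; exact Commute.one_right a
    rw [hne, Subgroup.mem_bot] at this
    exact h.sprime.ne_one (by rw [← hab.aord, this, orderOf_one])
  obtain ⟨w, hw, hwo, hn, hall⟩ := h.symm.exists_normal_prime hne
  have hcs : ∀ y ∈ L, orderOf y = s → Commute y w := fun y hy hyo => commute_of_same h.sprime hwo hyo (hn hy)
  set E := closure ({a, b} : Set G)
  have hEL : E ≤ L := (closure_le L).mpr (by rintro x (rfl | rfl); exacts [hab.amem, hab.bmem])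
  haveI : IsMulCommutative E := Subgroup.isMulCommutative_closure (by
    rintro u (rfl | rfl) v (rfl | rfl) <;> first | rfl | exact hab.comm.eq | exact hab.comm.eq.symm)
  have hE : IsPGroup s E := fun ⟨u, hu⟩ => ⟨1, Subtype.ext (by
    show u ^ s ^ 1 = 1
    rw [pow_one]
    induction hu using Subgroup.closure_induction with
    | mem u hu =>
      rcases hu with rfl | rfl
      · rw [← hab.aord]; exact pow_orderOf_eq_one _
      · rw [← hab.bord]; exact pow_orderOf_eq_one _
    | one => exact one_pow _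
    | mul u v hu hv ihu ihv =>
      rw [(show Commute u v from setLike_mul_comm hu hv).mul_pow, ihu, ihv, one_mul]
    | inv u _ ih => rw [inv_pow, ih, inv_one])⟩
  set Q := E ⊔ core L s
  have hQ : IsPGroup s Q := hE.to_sup_of_normal_right' (core_isPGroup L s)
    (hEL.trans (le_normalizer_of_conj fun g hg x hx => core_conj L s hg hx))
  have hQL : Q ≤ L := sup_le hEL (core_le L s)
  have hwQ : w ∈ omegaCenter Q s := by
    refine ⟨Subgroup.mem_sup_right hw.1, hw.2.1, fun c hc => ?_⟩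
    have hle : Q ≤ centralizer ({w} : Set G) := sup_le ((closure_le _).mpr (by
      rintro x (rfl | rfl)
      · exact mem_centralizer_singleton_iff.mpr (hcs _ hab.amem hab.aord).eq
      · exact mem_centralizer_singleton_iff.mpr (hcs _ hab.bmem hab.bord).eq))
      fun c hc => mem_centralizer_singleton_iff.mpr (hw.2.2 c hc).eq.symm
    exact (mem_centralizer_singleton_iff.mp (hle hc)).symm
  obtain ⟨y, hy, hyo, hyw⟩ := h.symm.exists_second hwo hn hQL hQ hwQ
    ⟨a, b, Subgroup.mem_sup_left (subset_closure (Set.mem_insert a _)),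
      Subgroup.mem_sup_left (subset_closure (Set.mem_insert_of_mem a rfl)), hab.aord, hab.bord, hab.comm, hab.notMem⟩
  have hyc := mem_core_of_centralizes L (hQL hy.1) hyo fun t ht hd c hc => by
    rcases h.primes t ht hd with rfl | rfl
    · exact hR y (hQL hy.1) hyo c hc
    · exact hy.2.2 c (Subgroup.mem_sup_right hc)
  exact h.symm.not_pair_core ⟨w, y, hw.1, hyc, hwo, hyo, hw.2.2 y hyc, hyw⟩

theorem false (h : TwoMod L M₁ M₂ r s) [Group.IsSolvable L] : False := by
  by_cases hr : r = 2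
  · exact h.symm.false_of_odd (fun hs => h.ne (hr.trans hs.symm))
  · exact h.false_of_odd hr

end TwoMod

end CfsgLib.ThreeFree
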