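import Cfsg.Agent.ThreeFree.Helpers

/-!
A normal subgroup of prime order: the module it acts on without fixed points and the contradiction.
-/

set_option autoImplicit false

namespace CfsgLib.ThreeFree

open Subgroup
open scoped commutatorElement

variable {G : Type*} [Group G]

/-- The standing hypotheses: a minimal normal `p`-subgroup and an `{r, s}`-subgroup with pairs. -/
structure Env (L V : Subgroup G) (p q r s : ℕ) : Prop where
  pprime : p.Prime
  qprime : q.Prime
  rprime : r.Prime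
  sprime : s.Prime
  pq : p ≠ q
  pr : p ≠ r
  ps : p ≠ s
  qr : q ≠ r
  qs : q ≠ s
  rs : r ≠ s
  vcomm : IsMulCommutative V
  vne : V ≠ ⊥
  vexp : ∀ v ∈ V, v ^ p = 1
  vnormal : V.Normal
  solv : Group.IsSolvable L
  primes : ∀ t : ℕ, t.Prime → t ∣ Nat.card L → t = r ∨ t = s
  rpair : HasPair L r
  spair : HasPair L s
  noTriple : NoTriple G

theorem IsPair.comb_commute {L : Subgroup G} {r : ℕ} (hr : r.Prime) {a b x y : G} (h : IsPair L r a b)
    (hx : Comb a b x) (hy : Comb a b y) : Commute x y := by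
  refine (h.comb hr hy).2.2 x ?_ ?_
  · exact ((h.comb hr hx).2.2 a (Commute.refl a) h.comm).symm
  · exact ((h.comb hr hx).2.2 b h.comm.symm (Commute.refl b)).symm

variable [Finite G]

theorem exists_pow_orderOf {N : Subgroup G} {t : ℕ} (ht : t.Prime) (hN : IsPGroup t N) {c : G} (hc : c ∈ N)
    (hc1 : c ≠ 1) : ∃ k : ℕ, orderOf (c ^ k) = t := by
  obtain ⟨j, hj⟩ := hN ⟨c, hc⟩
  have hj' : c ^ t ^ j = 1 := congrArg Subtype.val hj
  obtain ⟨i, -, hi⟩ := (Nat.dvd_prime_pow ht).mp (orderOf_dvd_of_pow_eq_one hj')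
  rcases i with _ | i
  · exact absurd (orderOf_eq_one_iff.mp (by rwa [pow_zero] at hi)) hc1
  refine ⟨t ^ i, ?_⟩
  rw [orderOf_pow' _ (pow_ne_zero _ ht.ne_zero), hi, Nat.gcd_eq_right (pow_dvd_pow t (Nat.le_succ i)), pow_succ,
    Nat.mul_div_cancel_left _ (pow_pos ht.pos i)]

/-- Cores of normal subgroups are normalised. -/
theorem core_conj' {L : Subgroup G} {t : ℕ} [Fact t.Prime] {g x : G} (hg : g ∈ normalizer (L : Set G))
    (hx : x ∈ core L t) : g * x * g⁻¹ ∈ core L t := by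
  refine le_core (N := (core L t).map (MulAut.conj g).toMonoidHom) ?_ ?_ ((core_isPGroup L t).map _)
    ⟨x, hx, rfl⟩
  · rintro _ ⟨y, hy, rfl⟩; exact conj_mem_of_normalizer hg (core_le L t hy)
  · rintro k hk _ ⟨y, hy, rfl⟩
    have hk' : g⁻¹ * k * g ∈ L := by simpa using conj_mem_of_normalizer ((normalizer (L : Set G)).inv_mem hg) hk
    refine ⟨_, core_conj L t hk' hy, ?_⟩
    simp only [MulEquiv.coe_toMonoidHom, MulAut.conj_apply]
    group

namespace Env

variable {L V : Subgroup G} {p q r s : ℕ}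

omit [Finite G] in
theorem symm (h : Env L V p q r s) : Env L V p q s r :=
  { h with
    rprime := h.sprime, sprime := h.rprime, pr := h.ps, ps := h.pr, qr := h.qs, qs := h.qr, rs := h.rs.symm
    primes := fun t ht hd => (h.primes t ht hd).symm, rpair := h.spair, spair := h.rpair }

omit [Finite G] in
theorem vpgroup (h : Env L V p q r s) : IsPGroup p V := fun v =>
  ⟨1, by rw [pow_one]; exact Subtype.ext (h.vexp v v.2)⟩

theorem vco (h : Env L V p q r s) {t : ℕ} (ht : t.Prime) (hne : t ≠ p) : t.Coprime (Nat.card V) :=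
  coprime_of_isPGroup h.pprime ht hne h.vpgroup

omit [Finite G] in
theorem vnorm (h : Env L V p q r s) (x : G) : x ∈ normalizer (V : Set G) := by
  haveI := h.vnormal
  rw [Subgroup.normalizer_eq_top]; trivial

omit [Finite G] in
theorem ntV (h : Env L V p q r s) {x y v : G} (hx : (orderOf x).Prime) (hy : (orderOf y).Prime) (hxy : orderOf x ≠ orderOf y)
    (hxp : orderOf x ≠ p) (hyp : orderOf y ≠ p) (hc : Commute x y) (hv : v ∈ V) (hxv : Commute x v)
    (hyv : Commute y v) : v = 1 := by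
  by_contra h1
  have hvo := orderOf_eq_of_pgroup h.pprime h.vexp hv h1
  exact h.noTriple x y v hx hy (hvo ▸ h.pprime) hxy (hvo ▸ hyp) (hvo ▸ hxp) hc hxv hyv

section Normal

variable {z : G}

omit [Finite G] in
theorem centralizer_normalized (hz : L ≤ normalizer (zpowers z : Set G)) :
    L ≤ normalizer ((L ⊓ centralizer ({z} : Set G) : Subgroup G) : Set G) := by
  intro g hg
  have key : ∀ g ∈ L, ∀ x ∈ L ⊓ centralizer ({z} : Set G), g * x * g⁻¹ ∈ L ⊓ centralizer ({z} : Set G) := by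
    intro g hg x hx
    refine ⟨L.mul_mem (L.mul_mem hg hx.1) (L.inv_mem hg), mem_centralizer_singleton_iff.mpr ?_⟩
    obtain ⟨k, hk⟩ := (show g⁻¹ * z * g ∈ zpowers z by
      simpa using conj_mem_of_normalizer ((normalizer (zpowers z : Set G)).inv_mem (hz hg)) (mem_zpowers z))
    have hzc : Commute x z := mem_centralizer_singleton_iff.mp hx.2
    have h2 : Commute x (g⁻¹ * z * g) := by rw [← show z ^ k = g⁻¹ * z * g from hk]; exact hzc.zpow_right k
    calc g * x * g⁻¹ * z = g * (x * (g⁻¹ * z * g)) * g⁻¹ := by group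
      _ = g * ((g⁻¹ * z * g) * x) * g⁻¹ := by rw [h2.eq]
      _ = z * (g * x * g⁻¹) := by group
  rw [Subgroup.mem_normalizer_iff]
  refine fun x => ⟨key g hg x, fun hx => ?_⟩
  have := key g⁻¹ (L.inv_mem hg) _ hx
  simpa [mul_assoc] using this

theorem core_facts (h : Env L V p q r s) (hzo : orderOf z = q) (hz : L ≤ normalizer (zpowers z : Set G))
    (hR : core (L ⊓ centralizer ({z} : Set G)) r ≠ ⊥) :
    q ≠ 2 ∧ ¬ Fixes V z ∧ ∃ e ∈ L ⊓ centralizer ({z} : Set G), orderOf e = s ∧ Fixes V e ∧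
      ∀ c ∈ core (L ⊓ centralizer ({z} : Set G)) r, Commute e c → c = 1 := by
  haveI := Fact.mk h.rprime
  haveI := h.vcomm
  set Lz := L ⊓ centralizer ({z} : Set G) with hLz
  set R0 := core Lz r with hR0
  have hR0L : R0 ≤ Lz := core_le Lz r
  have hR0z : ∀ c ∈ R0, Commute c z := fun c hc => mem_centralizer_singleton_iff.mp (hR0L hc).2
  have hLR0 : ∀ g ∈ L, ∀ c ∈ R0, g * c * g⁻¹ ∈ R0 := fun g hg c hc => core_conj' (centralizer_normalized hz hg) hc
  have hLn : L ≤ normalizer (R0 : Set G) := le_normalizer_of_conj hLR0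
  have hzp : (orderOf z).Prime := hzo ▸ h.qprime
  -- no element of order `s` in `Lz` commutes with a non-identity element of the core
  have nors : ∀ x ∈ Lz, orderOf x = s → ∀ c ∈ R0, Commute x c → c = 1 := by
    intro x hx hxo c hc hxc
    by_contra hc1
    obtain ⟨k, hk⟩ := exists_pow_orderOf h.rprime (core_isPGroup Lz r) hc hc1
    exact h.noTriple z x (c ^ k) hzp (hxo ▸ h.sprime) (hk ▸ h.rprime) (by rw [hzo, hxo]; exact h.qs)
      (by rw [hxo, hk]; exact h.rs.symm) (by rw [hzo, hk]; exact h.qr)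
      (mem_centralizer_singleton_iff.mp hx.2 : Commute x z).symm ((hR0z c hc).pow_left k).symm (hxc.pow_right k)
  obtain ⟨a, b, hab⟩ := h.spair
  obtain ⟨e, he, hez⟩ := hab.exists_commute h.sprime h.qprime hzo hz
  obtain ⟨heL, heo, -⟩ := hab.comb h.sprime he
  have heLz : e ∈ Lz := ⟨heL, mem_centralizer_singleton_iff.mpr hez.eq⟩
  have hep : (orderOf e).Prime := heo ▸ h.sprime
  have efree : ∀ c ∈ R0, Commute e c → c = 1 := nors e heLz heo
  -- an element of order `r`
  obtain ⟨c₀, hc₀, hc₀1⟩ := R0.bot_or_exists_ne_one.resolve_left hR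
  obtain ⟨k, hc⟩ := exists_pow_orderOf h.rprime (core_isPGroup Lz r) hc₀ hc₀1
  have hzfree : ¬ Fixes V z := by
    rintro ⟨m, hm, hm1, hzm⟩
    set M := V ⊓ centralizer (zpowers z : Set G)
    haveI : IsMulCommutative M := ⟨⟨fun u v => Subtype.ext (setLike_mul_comm u.2.1 v.2.1)⟩⟩
    have hMz : ∀ u ∈ M, Commute z u := fun u hu => Subgroup.mem_centralizer_iff.mp hu.2 z (mem_zpowers z)
    have hcM := master_sub M R0 hep (pow_orderOf_eq_one e) (normalizes_fixed (h.vnorm e) (hz heL))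
      (fun g hg => normalizes_fixed (h.vnorm g) (hz (hR0L hg).1)) (fun c hc => hLR0 e heL c hc) efree
      (by
        obtain ⟨j, hj⟩ := IsPGroup.iff_card.mp (core_isPGroup Lz r)
        rw [hj]
        exact ((h.vco h.rprime h.pr.symm).coprime_dvd_right (card_dvd_of_le inf_le_left)).pow_left j)
      (fun u hu hue => h.ntV hep hzp (by rw [heo, hzo]; exact h.qs.symm) (by rw [heo]; exact h.ps.symm)
        (by rw [hzo]; exact h.pq.symm) hez hu.1 hue (hMz u hu))
      (c₀ ^ k) (pow_mem hc₀ k) m ⟨hm, Subgroup.mem_centralizer_iff.mpr fun u hu => by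
        obtain ⟨j, rfl⟩ := hu; exact (hzm.zpow_left j).eq⟩
    exact hm1 (h.ntV (hc ▸ h.rprime) hzp (by rw [hc, hzo]; exact h.qr.symm) (by rw [hc]; exact h.pr.symm)
      (by rw [hzo]; exact h.pq.symm) ((hR0z c₀ hc₀).pow_left k) hm hcM hzm)
  -- an element of the pair centralising part of the core
  haveI := omegaCenter_comm R0 r
  obtain ⟨x₀, hx₀, hx₀o⟩ := exists_omegaCenter (core_isPGroup Lz r) hR
  obtain ⟨y, hy, m, hm, hm1, hym⟩ := hab.exists_fixes h.sprime (omegaCenter R0 r) (fun e' => by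
      rw [e', Subgroup.mem_bot] at hx₀
      exact h.rprime.ne_one (by rw [← hx₀o, hx₀, orderOf_one]))
    (le_normalizer_of_conj (N := omegaCenter R0 r) (fun g hg x hx => omegaCenter_conj (hLn hg) hx) hab.amem)
    (le_normalizer_of_conj (N := omegaCenter R0 r) (fun g hg x hx => omegaCenter_conj (hLn hg) hx) hab.bmem)
    (coprime_of_isPGroup h.rprime h.sprime h.rs.symm ((core_isPGroup Lz r).to_le fun x hx => hx.1))
  obtain ⟨hyL, hyo, -⟩ := hab.comb h.sprime hy
  have hyp : (orderOf y).Prime := hyo ▸ h.sprime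
  have hnyz : ¬ Commute y z := fun hc' => hm1 (nors y ⟨hyL, mem_centralizer_singleton_iff.mpr hc'.eq⟩ hyo m hm.1 hym)
  have hq2 : q ≠ 2 := by
    intro h2
    rcases commute_or_dvd h.qprime h.sprime hzo hyo (hz hyL) with h1 | h1
    · exact hnyz h1
    · rw [h2] at h1; exact h.sprime.ne_one (Nat.dvd_one.mp h1)
  have hyV : Fixes V y := fixes_of_moves V hzp hyp (hz hyL) hnyz (h.vnorm z) (h.vnorm y)
    (hzo ▸ h.vco h.qprime h.pq.symm) fun hall => hzfree (fixes_of_centralizes h.vne hall)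
  refine ⟨hq2, hzfree, e, heLz, heo, ?_, efree⟩
  by_contra hef
  obtain ⟨v, hv, hv1, hyv⟩ := hyV
  set M := V ⊓ centralizer ({y} : Set G)
  haveI : IsMulCommutative M := ⟨⟨fun u v => Subtype.ext (setLike_mul_comm u.2.1 v.2.1)⟩⟩
  set B := R0 ⊓ centralizer ({y} : Set G)
  have hey : Commute y e := hab.comb_commute h.sprime hy he
  have hB := master_sub M B hep (pow_orderOf_eq_one e) (mem_normalizer_of_commute hey (h.vnorm e))
    (fun g hg => mem_normalizer_of_commute (mem_centralizer_singleton_iff.mp hg.2 : Commute g y).symm (h.vnorm g))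
    (fun c hc => conj_mem_of_normalizer (mem_normalizer_of_commute hey (hLn heL)) hc) (fun c hc => efree c hc.1)
    (by
      obtain ⟨j, hj⟩ := IsPGroup.iff_card.mp ((core_isPGroup Lz r).to_le (inf_le_left : B ≤ R0))
      rw [hj]
      exact ((h.vco h.rprime h.pr.symm).coprime_dvd_right (card_dvd_of_le inf_le_left)).pow_left j)
    (fun u hu hue => by_contra fun h1 => hef ⟨u, hu.1, h1, hue⟩)
    m ⟨hm.1, mem_centralizer_singleton_iff.mpr hym.eq.symm⟩ v ⟨hv, mem_centralizer_singleton_iff.mpr hyv.eq.symm⟩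
  have hmo : orderOf m = r := orderOf_eq_prime hm.2.1 hm1
  exact hv1 (h.ntV (hmo ▸ h.rprime) hyp (by rw [hmo, hyo]; exact h.rs) (by rw [hmo]; exact h.pr.symm)
    (by rw [hyo]; exact h.ps.symm) hym.symm hv hB hyv)

theorem not_core_pair_free (h : Env L V p q r s) (hzo : orderOf z = q) (hz : L ≤ normalizer (zpowers z : Set G))
    (hR : core (L ⊓ centralizer ({z} : Set G)) r ≠ ⊥) : HasPair (core (L ⊓ centralizer ({z} : Set G)) r) r := by
  by_contra hno
  haveI := Fact.mk h.rprime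
  haveI := h.vcomm
  obtain ⟨-, hzfree, e, heLz, heo, ⟨v, hv, hv1, hev⟩, efree⟩ := h.core_facts hzo hz hR
  set Lz := L ⊓ centralizer ({z} : Set G) with hLz
  set R0 := core Lz r with hR0
  have hzp : (orderOf z).Prime := hzo ▸ h.qprime
  have hep : (orderOf e).Prime := heo ▸ h.sprime
  have hLR0 : ∀ g ∈ L, ∀ c ∈ R0, g * c * g⁻¹ ∈ R0 := fun g hg c hc => core_conj' (centralizer_normalized hz hg) hc
  obtain ⟨w, hw, hwo⟩ := exists_omegaCenter (core_isPGroup Lz r) hR
  have hall : ∀ x ∈ omegaCenter R0 r, x ∈ zpowers w := fun x hx => by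
    by_cases h1 : x = 1
    · rw [h1]; exact one_mem _
    · exact mem_zpowers_of_not_pair hno hw.1 hwo hx.1 (orderOf_eq_prime hx.2.1 h1) (hw.2.2 x hx.1)
  have hwn : L ≤ normalizer (zpowers w : Set G) := fun g hg => zpowers_conj hall hw
    (le_normalizer_of_conj (fun g hg x hx => omegaCenter_conj (le_normalizer_of_conj hLR0 hg) hx) hg)
  set C1 := Lz ⊓ centralizer ({w} : Set G)
  have hC1 : C1 ≤ R0 := by
    refine le_core inf_le_left (fun g hg x hx => ?_) ?_
    · refine ⟨Lz.mul_mem (Lz.mul_mem hg hx.1) (Lz.inv_mem hg), ?_⟩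
      have := conj_mem_of_normalizer (centralizer_normalized hwn hg.1) (⟨hx.1.1, hx.2⟩ : x ∈ L ⊓ centralizer ({w} : Set G))
      exact this.2
    · refine IsPGroup.of_card (n := (Nat.card C1).primeFactorsList.length) ?_
      refine Nat.eq_prime_pow_of_unique_prime_dvd Nat.card_pos.ne' fun {d} hd hdc => ?_
      rcases h.primes d hd (hdc.trans (card_dvd_of_le fun x hx => hx.1.1)) with rfl | rfl
      · rfl
      · exfalso
        haveI := Fact.mk hd
        obtain ⟨⟨x, hx⟩, hxo⟩ := exists_prime_orderOf_dvd_card' d hdc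
        rw [Subgroup.orderOf_mk] at hxo
        exact h.noTriple z x w hzp (hxo ▸ hd) (hwo ▸ h.rprime) (by rw [hzo, hxo]; exact h.qs)
          (by rw [hxo, hwo]; exact h.rs.symm) (by rw [hzo, hwo]; exact h.qr)
          (mem_centralizer_singleton_iff.mp hx.1.2 : Commute x z).symm
          (mem_centralizer_singleton_iff.mp (core_le Lz r hw.1).2 : Commute w z).symm
          (mem_centralizer_singleton_iff.mp hx.2 : Commute x w)
  obtain ⟨x, hxL, hxo, hxw⟩ : ∃ x ∈ L, orderOf x = r ∧ x ∉ zpowers w := by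
    obtain ⟨a, b, hab⟩ := h.rpair
    by_contra hcon
    push Not at hcon
    have ha := hcon a hab.amem hab.aord
    have hb := hcon b hab.bmem hab.bord
    have hz' := Subgroup.eq_of_le_of_card_ge (zpowers_le.mpr ha) (by
      rw [Nat.card_zpowers, Nat.card_zpowers, hwo, hab.aord])
    exact hab.notMem (hz' ▸ hb)
  have hcxw : Commute x w := commute_of_same h.rprime hwo hxo (hwn hxL)
  have hnxz : ¬ Commute x z := fun hc => hxw <| by
    have hx1 : x ∈ C1 := ⟨⟨hxL, mem_centralizer_singleton_iff.mpr hc.eq⟩, mem_centralizer_singleton_iff.mpr hcxw.eq⟩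
    exact mem_zpowers_of_not_pair hno hw.1 hwo (hC1 hx1) hxo hcxw.symm
  set c := x * e * x⁻¹ * e⁻¹ with hcdef
  have hcR : c ∈ R0 := hC1 ⟨⟨L.mul_mem (L.mul_mem (L.mul_mem hxL heLz.1) (L.inv_mem hxL)) (L.inv_mem heLz.1),
      mem_centralizer_singleton_iff.mpr (commutator_commute (hz hxL) (hz heLz.1)).eq⟩,
    mem_centralizer_singleton_iff.mpr (commutator_commute (hwn hxL) (hwn heLz.1)).eq⟩
  have hψm : ∀ b ∈ R0, b * (e * b⁻¹ * e⁻¹) ∈ R0 := fun b hb => R0.mul_mem hb (hLR0 e heLz.1 _ (R0.inv_mem hb))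
  let ψ : R0 → R0 := fun b => ⟨b * (e * (b : G)⁻¹ * e⁻¹), hψm b b.2⟩
  have hψ : Function.Surjective ψ := by
    refine Finite.injective_iff_surjective.mp fun a b hab => ?_
    have h1 : (a : G) * (e * (a : G)⁻¹ * e⁻¹) = (b : G) * (e * (b : G)⁻¹ * e⁻¹) := congrArg Subtype.val hab
    have h2 : Commute e ((b : G)⁻¹ * a) := by
      have := congrArg (fun z => (b : G)⁻¹ * z * e * a) h1
      simp only [mul_assoc, inv_mul_cancel_left, inv_mul_cancel, mul_one] at this
      simpa [Commute, SemiconjBy, mul_assoc] using this.symm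
    exact Subtype.ext (inv_mul_eq_one.mp (efree _ (R0.mul_mem (R0.inv_mem b.2) a.2) h2)).symm
  obtain ⟨⟨b, hb⟩, hψb⟩ := hψ ⟨c, hcR⟩
  have hbc : b * (e * b⁻¹ * e⁻¹) = x * e * x⁻¹ * e⁻¹ := congrArg Subtype.val hψb
  set x' := b⁻¹ * x with hx'
  have hbe : b * e * b⁻¹ = x * e * x⁻¹ := by
    have := congrArg (· * e) hbc
    simpa [mul_assoc] using this
  have hx'e : Commute x' e := by
    show b⁻¹ * x * e = e * (b⁻¹ * x)
    calc b⁻¹ * x * e = b⁻¹ * (x * e * x⁻¹) * x := by group
      _ = b⁻¹ * (b * e * b⁻¹) * x := by rw [hbe]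
      _ = e * (b⁻¹ * x) := by group
  have hx'L : x' ∈ L := L.mul_mem (L.inv_mem (core_le Lz r hb).1) hxL
  have hx'z : ¬ Commute x' z := fun hc => hnxz <| by
    have hbz : Commute b z := mem_centralizer_singleton_iff.mp (core_le Lz r hb).2
    have : Commute (b * x') z := hbz.mul_left hc
    rwa [hx', mul_inv_cancel_left] at this
  have hpw : ∀ k : ℕ, x' ^ k * (x ^ k)⁻¹ ∈ R0 := by
    intro k
    induction k with
    | zero => simp
    | succ k ih =>
      rw [pow_succ', pow_succ', show x' * x' ^ k * (x * x ^ k)⁻¹ = b⁻¹ * (x * (x' ^ k * (x ^ k)⁻¹) * x⁻¹) by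
        rw [hx']; group]
      exact R0.mul_mem (R0.inv_mem hb) (hLR0 x hxL _ ih)
  have hx'r : x' ^ r = 1 := by
    have h1 := hpw r
    rw [show x ^ r = 1 from hxo ▸ pow_orderOf_eq_one x, inv_one, mul_one] at h1
    exact efree _ h1 (hx'e.symm.pow_right r)
  have hx'o : orderOf x' = r := orderOf_eq_prime hx'r fun e' => hx'z (by rw [e']; exact Commute.one_left z)
  set M := V ⊓ centralizer ({e} : Set G)
  haveI : IsMulCommutative M := ⟨⟨fun u v => Subtype.ext (setLike_mul_comm u.2.1 v.2.1)⟩⟩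
  obtain ⟨m, hm, hm1, hxm⟩ := fixes_of_moves M hzp (hx'o ▸ h.rprime) (hz hx'L) hx'z
    (mem_normalizer_of_commute (mem_centralizer_singleton_iff.mp heLz.2 : Commute e z) (h.vnorm z))
    (mem_normalizer_of_commute hx'e.symm (h.vnorm x'))
    (by rw [hzo]; exact (h.vco h.qprime h.pq.symm).coprime_dvd_right (card_dvd_of_le inf_le_left))
    (fun hall => hzfree ⟨v, hv, hv1, hall v ⟨hv, mem_centralizer_singleton_iff.mpr hev.eq.symm⟩⟩)
  exact hm1 (h.ntV (hx'o ▸ h.rprime) hep (by rw [hx'o, heo]; exact h.rs) (by rw [hx'o]; exact h.pr.symm)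
    (by rw [heo]; exact h.ps.symm) hx'e hm.1 hxm (mem_centralizer_singleton_iff.mp hm.2).symm)

/-- A subgroup of exponent `q` acting as a module modulo `z`. -/
structure Layer (L : Subgroup G) (q : ℕ) (z : G) (T : Subgroup G) : Prop where
  exponent : ∀ u ∈ T, u ^ q = 1
  mem : z ∈ T
  central : ∀ u ∈ T, Commute z u
  comm : ∀ u ∈ T, ∀ v ∈ T, ⁅u, v⁆ ∈ zpowers z
  normal : L ≤ normalizer (T : Set G)
  exists_other : ∃ u ∈ T, u ∉ zpowers z

theorem false_of_layer (h : Env L V p q r s) (hzo : orderOf z = q) (hz : L ≤ normalizer (zpowers z : Set G))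
    (hR : core (L ⊓ centralizer ({z} : Set G)) r ≠ ⊥) {T : Subgroup G} (hT : Layer L q z T) : False := by
  haveI := Fact.mk h.rprime
  haveI := Fact.mk h.qprime
  haveI := h.vcomm
  have hpair := h.not_core_pair_free hzo hz hR
  obtain ⟨-, -, e, heLz, heo, hef, efree⟩ := h.core_facts hzo hz hR
  set Lz := L ⊓ centralizer ({z} : Set G) with hLz
  set R0 := core Lz r with hR0
  have hep : (orderOf e).Prime := heo ▸ h.sprime
  have hez : Commute e z := mem_centralizer_singleton_iff.mp heLz.2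
  have qord : ∀ u ∈ T, u ∉ zpowers z → IsPair T q z u := fun u hu huz =>
    ⟨hT.mem, hu, hzo, orderOf_eq_prime (hT.exponent u hu) (fun e => huz (by rw [e]; exact one_mem _)),
      hT.central u hu, huz⟩
  have excl : ∀ x : G, (orderOf x).Prime → orderOf x ≠ q → orderOf x ≠ p → ∀ u ∈ T, u ∉ zpowers z →
      Commute x z → Commute x u → ¬ Fixes V x := by
    intro x hx hxq hxp u hu huz hxz hxu
    refine (qord u hu huz).excludes h.qprime V (h.vnorm z) (h.vnorm u) (h.vco h.qprime h.pq.symm) hxz hxu ?_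
    intro y hy v hv hyv hxv
    obtain ⟨-, hyo, hyc⟩ := (qord u hu huz).comb h.qprime hy
    exact h.ntV hx (hyo ▸ h.qprime) (by rw [hyo]; exact hxq) hxp (by rw [hyo]; exact h.pq.symm) (hyc x hxz hxu) hv hxv hyv
  have hesep : ∀ u ∈ T, Commute e u → u ∈ zpowers z := fun u hu heu => by_contra fun huz =>
    excl e hep (by rw [heo]; exact h.qs.symm) (by rw [heo]; exact h.ps.symm) u hu huz hez heu hef
  -- the section `T / ⟨z⟩`
  set H := normalizer (zpowers z : Set G)
  set W := (zpowers z).subgroupOf H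
  haveI : W.Normal := Subgroup.normal_in_normalizer
  set π := QuotientGroup.mk' W
  have hTH : T ≤ H := fun u hu => by
    rw [Subgroup.mem_normalizer_iff]
    intro x
    constructor
    · rintro ⟨k, rfl⟩
      refine ⟨k, ?_⟩
      show z ^ k = u * z ^ k * u⁻¹
      rw [← ((hT.central u hu).zpow_left k).eq, mul_inv_cancel_right]
    · rintro ⟨k, hk⟩
      refine ⟨k, ?_⟩
      have hk' : z ^ k = u * x * u⁻¹ := hk
      show z ^ k = x
      calc z ^ k = u⁻¹ * (z ^ k * u) := by rw [((hT.central u hu).zpow_left k).eq]; group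
        _ = x := by rw [hk']; group
  set Tb := (T.subgroupOf H).map π
  haveI : IsMulCommutative Tb := ⟨⟨by
    rintro ⟨_, a, ha, rfl⟩ ⟨_, b, hb, rfl⟩
    refine Subtype.ext ?_
    show π a * π b = π b * π a
    rw [← commutatorElement_eq_one_iff_mul_comm, ← map_commutatorElement]
    exact (QuotientGroup.eq_one_iff _).mpr (hT.comm _ ha _ hb)⟩⟩
  set Bb := (R0.subgroupOf H).map π
  have hR0H : R0 ≤ H := fun c hc => hz (core_le Lz r hc).1
  have hBp : IsPGroup r Bb := ((core_isPGroup Lz r).comap_of_injective H.subtype H.subtype_injective).map _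
  have hTp : IsPGroup q Tb := fun ⟨u, hu⟩ => ⟨1, by
    obtain ⟨a, ha, rfl⟩ := hu
    refine Subtype.ext ?_
    show π a ^ q ^ 1 = 1
    rw [pow_one, ← map_pow, show a ^ q = 1 from Subtype.ext (hT.exponent a ha), map_one]⟩
  have hnorm : ∀ g : H, (g : G) ∈ L → π g ∈ normalizer (Tb : Set (H ⧸ W)) := fun g hg => by
    have hg' : g ∈ normalizer (T.subgroupOf H : Set H) := by
      rw [Subgroup.mem_normalizer_iff]
      exact fun x => (Subgroup.mem_normalizer_iff.mp (hT.normal hg)) x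
    exact Subgroup.le_normalizer_map π ⟨g, hg', rfl⟩
  have hmain := master_sub Tb Bb (y := π ⟨e, hz heLz.1⟩) h.sprime ?_ (hnorm _ heLz.1) ?_ ?_ ?_ ?_ ?_
  · have hcomm : ∀ c ∈ R0, ∀ u ∈ T, Commute c u := by
      intro c hc u hu
      have h1 := hmain (π ⟨c, hR0H hc⟩) ⟨⟨c, hR0H hc⟩, hc, rfl⟩ (π ⟨u, hTH hu⟩) ⟨⟨u, hTH hu⟩, hu, rfl⟩
      rw [Commute, SemiconjBy, ← commutatorElement_eq_one_iff_mul_comm, ← map_commutatorElement] at h1
      obtain ⟨k, hk⟩ := (QuotientGroup.eq_one_iff _).mp h1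
      have hk' : z ^ k = c * u * c⁻¹ * u⁻¹ := hk
      obtain ⟨j, hj⟩ := core_isPGroup Lz r ⟨c, hc⟩
      have hcz : Commute c z := mem_centralizer_singleton_iff.mp (core_le Lz r hc).2
      have hone := eq_one_of_twist (s := r ^ j) (congrArg Subtype.val hj : c ^ r ^ j = 1)
        (show c * u * c⁻¹ = z ^ k * u by rw [hk']; group)
        (hcz.zpow_right k)
        ((Nat.Coprime.pow_left j ((Nat.coprime_primes h.rprime h.qprime).mpr h.qr.symm)).coprime_dvd_right
          (orderOf_dvd_of_pow_eq_one (by rw [← zpow_natCast, ← zpow_mul, mul_comm, zpow_mul, zpow_natCast, ← hzo,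
            pow_orderOf_eq_one, one_zpow])))
      rw [hone] at hk'
      exact mul_inv_eq_iff_eq_mul.mp (mul_inv_eq_one.mp hk'.symm)
    obtain ⟨a, b, hab⟩ := hpair
    obtain ⟨u, hu, huz⟩ := hT.exists_other
    obtain ⟨x, hx, hxf⟩ := hab.exists_fixes h.rprime V h.vne (h.vnorm a) (h.vnorm b) (h.vco h.rprime h.pr.symm)
    obtain ⟨hxR, hxo, -⟩ := hab.comb h.rprime hx
    exact excl x (hxo ▸ h.rprime) (by rw [hxo]; exact h.qr.symm) (by rw [hxo]; exact h.pr.symm) u hu huz
      (hcomm x hxR z hT.mem) (hcomm x hxR u hu) hxf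
  · rw [← map_pow, show (⟨e, hz heLz.1⟩ : H) ^ s = 1 from Subtype.ext (heo ▸ pow_orderOf_eq_one e), map_one]
  · rintro _ ⟨c, hc, rfl⟩; exact hnorm c (core_le Lz r hc).1
  · rintro _ ⟨c, hc, rfl⟩
    refine ⟨⟨e, hz heLz.1⟩ * c * ⟨e, hz heLz.1⟩⁻¹, core_conj' (centralizer_normalized hz heLz.1) hc, ?_⟩
    simp
  · rintro _ ⟨c, hc, rfl⟩ hcomm
    rw [Commute, SemiconjBy, ← commutatorElement_eq_one_iff_mul_comm, ← map_commutatorElement] at hcomm
    obtain ⟨k, hk⟩ := (QuotientGroup.eq_one_iff _).mp hcomm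
    have hk' : z ^ k = e * c * e⁻¹ * (c : G)⁻¹ := hk
    have hone := eq_one_of_twist (s := s) (heo ▸ pow_orderOf_eq_one e)
      (show e * (c : G) * e⁻¹ = z ^ k * c by rw [hk']; group) (hez.zpow_right k)
      (((Nat.coprime_primes h.sprime h.qprime).mpr h.qs.symm).coprime_dvd_right
          (orderOf_dvd_of_pow_eq_one (by rw [← zpow_natCast, ← zpow_mul, mul_comm, zpow_mul, zpow_natCast, ← hzo,
            pow_orderOf_eq_one, one_zpow])))
    rw [hone] at hk'
    have hc1 : (c : G) = 1 := efree c hc (mul_inv_eq_iff_eq_mul.mp (mul_inv_eq_one.mp hk'.symm))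
    rw [show c = 1 from Subtype.ext hc1, map_one]
  · obtain ⟨i, hi⟩ := IsPGroup.iff_card.mp hBp
    obtain ⟨j, hj⟩ := IsPGroup.iff_card.mp hTp
    rw [hi, hj]; exact ((Nat.coprime_primes h.rprime h.qprime).mpr h.qr.symm).pow i j
  · rintro _ ⟨u, hu, rfl⟩ hcomm
    rw [Commute, SemiconjBy, ← commutatorElement_eq_one_iff_mul_comm, ← map_commutatorElement] at hcomm
    obtain ⟨k, hk⟩ := (QuotientGroup.eq_one_iff _).mp hcomm
    have hk' : z ^ k = e * u * e⁻¹ * (u : G)⁻¹ := hk
    have hone := eq_one_of_twist (s := s) (heo ▸ pow_orderOf_eq_one e)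
      (show e * (u : G) * e⁻¹ = z ^ k * u by rw [hk']; group) (hez.zpow_right k)
      (((Nat.coprime_primes h.sprime h.qprime).mpr h.qs.symm).coprime_dvd_right
          (orderOf_dvd_of_pow_eq_one (by rw [← zpow_natCast, ← zpow_mul, mul_comm, zpow_mul, zpow_natCast, ← hzo,
            pow_orderOf_eq_one, one_zpow])))
    rw [hone] at hk'
    exact (QuotientGroup.eq_one_iff u).mpr (hesep u hu (mul_inv_eq_iff_eq_mul.mp (mul_inv_eq_one.mp hk'.symm)))

theorem exists_core (h : Env L V p q r s) (hzo : orderOf z = q) (hz : L ≤ normalizer (zpowers z : Set G)) :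
    core (L ⊓ centralizer ({z} : Set G)) r ≠ ⊥ ∨ core (L ⊓ centralizer ({z} : Set G)) s ≠ ⊥ := by
  by_contra hcon
  push Not at hcon
  set Lz := L ⊓ centralizer ({z} : Set G)
  haveI := h.solv
  haveI : Group.IsSolvable Lz := solvable_of_solvable_injective (Subgroup.inclusion_injective (inf_le_left : Lz ≤ L))
  haveI := Fact.mk h.sprime
  obtain ⟨a, b, hab⟩ := h.spair
  obtain ⟨e, he, hez⟩ := hab.exists_commute h.sprime h.qprime hzo hz
  obtain ⟨heL, heo, -⟩ := hab.comb h.sprime he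
  have := mem_core_of_centralizes Lz (x := e) ⟨heL, mem_centralizer_singleton_iff.mpr hez.eq⟩ heo fun t ht hd c hc => by
    rcases h.primes t ht (hd.trans (card_dvd_of_le inf_le_left)) with rfl | rfl
    · rw [hcon.1, Subgroup.mem_bot] at hc; rw [hc]; exact Commute.one_right e
    · rw [hcon.2, Subgroup.mem_bot] at hc; rw [hc]; exact Commute.one_right e
  rw [hcon.2, Subgroup.mem_bot] at this
  exact h.sprime.ne_one (by rw [← heo, this, orderOf_one])

theorem false_of_normal (h : Env L V p q r s) (hzo : orderOf z = q) (hz : L ≤ normalizer (zpowers z : Set G))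
    (hT : q = 2 ∨ ∃ T, Layer L q z T) : False := by
  rcases h.exists_core hzo hz with hR | hR
  · rcases hT with h2 | ⟨T, hT⟩
    · exact (h.core_facts hzo hz hR).1 h2
    · exact h.false_of_layer hzo hz hR hT
  · rcases hT with h2 | ⟨T, hT⟩
    · exact (h.symm.core_facts hzo hz hR).1 h2
    · exact h.symm.false_of_layer hzo hz hR hT

end Normal

end Env

end CfsgLib.ThreeFree
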