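import Cfsg.Agent.ThreeFree.Basic

/-!
Cores of subgroups and two lemmas on p-groups with a distinguished central subgroup of order p.
-/

set_option autoImplicit false

namespace CfsgLib.ThreeFree

open Subgroup
open scoped commutatorElement

variable {G : Type*} [Group G] [Finite G]

/-- The `t`-core of the subgroup `L`. -/
def core (L : Subgroup G) (t : ℕ) : Subgroup G := (Cfsg.pCore t L).map L.subtype

omit [Finite G] in
theorem core_le (L : Subgroup G) (t : ℕ) : core L t ≤ L := Subgroup.map_subtype_le _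

theorem core_isPGroup (L : Subgroup G) (t : ℕ) [Fact t.Prime] : IsPGroup t (core L t) :=
  (Subnormal.isPGroup_pCore t).map _

omit [Finite G] in
theorem core_conj (L : Subgroup G) (t : ℕ) {g x : G} (hg : g ∈ L) (hx : x ∈ core L t) :
    g * x * g⁻¹ ∈ core L t := by
  obtain ⟨y, hy, rfl⟩ := hx
  exact ⟨⟨g, hg⟩ * y * ⟨g, hg⟩⁻¹, (Subnormal.normal_pCore t).conj_mem y hy _, rfl⟩

omit [Finite G] in
theorem le_normalizer_of_conj {L N : Subgroup G} (h : ∀ g ∈ L, ∀ x ∈ N, g * x * g⁻¹ ∈ N) :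
    L ≤ normalizer (N : Set G) := fun g hg => by
  rw [Subgroup.mem_normalizer_iff]
  refine fun x => ⟨h g hg x, fun hx => ?_⟩
  have := h g⁻¹ (L.inv_mem hg) _ hx
  simpa [mul_assoc] using this

omit [Finite G] in
theorem conj_mem_of_normalizer {N : Subgroup G} {g x : G} (hg : g ∈ normalizer (N : Set G)) (hx : x ∈ N) :
    g * x * g⁻¹ ∈ N := (Subgroup.mem_normalizer_iff.mp hg x).mp hx

theorem le_core {L N : Subgroup G} {t : ℕ} [Fact t.Prime] (hN : N ≤ L) (hn : ∀ g ∈ L, ∀ x ∈ N, g * x * g⁻¹ ∈ N)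
    (hp : IsPGroup t N) : N ≤ core L t := by
  intro x hx
  refine ⟨⟨x, hN hx⟩, Subnormal.le_pCore_of_isSubnormal (H := N.subgroupOf L) ?_ ?_ hx, rfl⟩
  · exact (Subgroup.Normal.mk fun (y : L) hy (g : L) => hn g g.2 y hy).isSubnormal
  · exact hp.comap_of_injective L.subtype L.subtype_injective

theorem core_eq_bot_of_not_dvd (L : Subgroup G) {t : ℕ} [Fact t.Prime] (h : ¬ t ∣ Nat.card L) : core L t = ⊥ := by
  by_contra hne
  obtain ⟨k, hk⟩ := IsPGroup.iff_card.mp (core_isPGroup L t)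
  have hk0 : k ≠ 0 := fun h0 => hne (card_eq_one.mp (by rw [hk, h0, pow_zero]))
  exact h ((dvd_pow_self t hk0).trans (hk ▸ card_dvd_of_le (core_le L t)))

/-- In a solvable group an element of prime order centralising all cores lies in one of them. -/
theorem mem_core_of_centralizes (L : Subgroup G) [Group.IsSolvable L] {x : G} (hx : x ∈ L) {s : ℕ} [Fact s.Prime]
    (hs : orderOf x = s) (hc : ∀ t : ℕ, t.Prime → t ∣ Nat.card L → ∀ c ∈ core L t, Commute x c) :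
    x ∈ core L s := by
  set C := centralizer (Cfsg.fittingSubgroup L : Set L)
  have hxC : (⟨x, hx⟩ : L) ∈ C := by
    rw [Subgroup.mem_centralizer_iff]
    intro f hf
    have hle : Cfsg.fittingSubgroup L ≤ centralizer ({⟨x, hx⟩} : Set L) := by
      rw [Hall.fitting_eq_iSup_primes]
      refine iSup_le fun t c hc' => mem_centralizer_singleton_iff.mpr (Subtype.ext ?_)
      haveI : Fact (t : ℕ).Prime := ⟨t.2⟩
      by_cases hd : (t : ℕ) ∣ Nat.card L
      · exact (hc t t.2 hd c ⟨c, hc', rfl⟩).eq.symm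
      · have hb : (c : G) ∈ core L t := ⟨c, hc', rfl⟩
        rw [core_eq_bot_of_not_dvd L hd, Subgroup.mem_bot] at hb
        simp [hb]
    exact (mem_centralizer_singleton_iff.mp (hle hf))
  have hCF : C ≤ Cfsg.fittingSubgroup L := Hall.centralizer_fitting_le
  haveI : (Cfsg.fittingSubgroup L).Normal := Components.fittingSubgroup_normal
  haveI hCn : C.Normal := Subgroup.normal_centralizer
  have hab : ((zpowers (⟨x, hx⟩ : L)).subgroupOf C).Normal := ⟨fun y hy g => by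
    have : g * y * g⁻¹ = y := by
      have h1 : (g : L) * (y : L) = (y : L) * (g : L) :=
        (Subgroup.mem_centralizer_iff.mp g.2 _ (hCF y.2)).symm
      exact mul_inv_eq_iff_eq_mul.mpr (Subtype.ext h1)
    rwa [this]⟩
  have hp : IsPGroup s (zpowers (⟨x, hx⟩ : L)) := IsPGroup.of_card (n := 1) (by
    rw [pow_one, Nat.card_zpowers, ← Subgroup.orderOf_coe]; exact hs)
  exact ⟨⟨x, hx⟩, Subnormal.le_pCore_of_isSubnormal
    (Subgroup.IsSubnormal.trans (zpowers_le.mpr hxC) hab.isSubnormal hCn.isSubnormal) hp (mem_zpowers _), rfl⟩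

/-- The elements of order dividing `t` of the centre of `Q`. -/
def omegaCenter (Q : Subgroup G) (t : ℕ) : Subgroup G where
  carrier := {x | x ∈ Q ∧ x ^ t = 1 ∧ ∀ c ∈ Q, Commute x c}
  one_mem' := ⟨Q.one_mem, one_pow t, fun c _ => Commute.one_left c⟩
  mul_mem' := fun {a b} ha hb => ⟨Q.mul_mem ha.1 hb.1, by
    rw [(ha.2.2 b hb.1).mul_pow, ha.2.1, hb.2.1, one_mul], fun c hc => (ha.2.2 c hc).mul_left (hb.2.2 c hc)⟩
  inv_mem' := fun {a} ha => ⟨Q.inv_mem ha.1, by rw [inv_pow, ha.2.1, inv_one], fun c hc => (ha.2.2 c hc).inv_left⟩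

omit [Finite G] in
theorem omegaCenter_comm (Q : Subgroup G) (t : ℕ) : IsMulCommutative (omegaCenter Q t) :=
  ⟨⟨fun a b => Subtype.ext (a.2.2.2 b b.2.1).eq⟩⟩

omit [Finite G] in
theorem omegaCenter_conj {Q : Subgroup G} {t : ℕ} {g x : G} (hg : g ∈ normalizer (Q : Set G))
    (hx : x ∈ omegaCenter Q t) : g * x * g⁻¹ ∈ omegaCenter Q t := by
  refine ⟨conj_mem_of_normalizer hg hx.1, by rw [conj_pow, hx.2.1, mul_one, mul_inv_cancel], fun c hc => ?_⟩
  have h1 : g⁻¹ * c * g ∈ Q := by simpa using conj_mem_of_normalizer ((normalizer (Q : Set G)).inv_mem hg) hc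
  have h2 := hx.2.2 _ h1
  show g * x * g⁻¹ * c = c * (g * x * g⁻¹)
  calc g * x * g⁻¹ * c = g * (x * (g⁻¹ * c * g)) * g⁻¹ := by group
    _ = g * ((g⁻¹ * c * g) * x) * g⁻¹ := by rw [h2.eq]
    _ = c * (g * x * g⁻¹) := by group

theorem exists_omegaCenter {Q : Subgroup G} {t : ℕ} [ht : Fact t.Prime] (hQ : IsPGroup t Q) (hne : Q ≠ ⊥) :
    ∃ x ∈ omegaCenter Q t, orderOf x = t := by
  haveI : Nontrivial Q := (nontrivial_iff_ne_bot Q).mpr hne
  haveI := hQ.center_nontrivial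
  obtain ⟨k, hk⟩ := IsPGroup.iff_card.mp (hQ.to_subgroup (center Q))
  have hk0 : k ≠ 0 := by
    intro h0; rw [h0, pow_zero] at hk
    exact (Finite.one_lt_card (α := center Q)).ne' hk
  obtain ⟨⟨z, hz⟩, hzo⟩ := exists_prime_orderOf_dvd_card' t (hk ▸ dvd_pow_self t hk0)
  rw [Subgroup.orderOf_mk] at hzo
  refine ⟨z, ⟨z.2, ?_, fun c hc => congrArg Subtype.val (Subgroup.mem_center_iff.mp hz ⟨c, hc⟩).symm⟩, ?_⟩
  · rw [← hzo]; exact congrArg Subtype.val (pow_orderOf_eq_one z)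
  · rwa [Subgroup.orderOf_coe]

/-- A group without independent pair whose order `t` elements commute with `w` has a unique subgroup of order `t`. -/
theorem mem_zpowers_of_not_pair {Q : Subgroup G} {t : ℕ} (h : ¬ HasPair Q t) {w x : G} (hw : w ∈ Q)
    (hwo : orderOf w = t) (hx : x ∈ Q) (hxo : orderOf x = t) (hc : Commute w x) : x ∈ zpowers w :=
  by_contra fun hn => h ⟨w, x, hw, hx, hwo, hxo, hc, hn⟩

theorem isCyclic_of_not_pair {Q : Subgroup G} {t : ℕ} [ht : Fact t.Prime] (h2 : t ≠ 2) (hQ : IsPGroup t Q)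
    (h : ¬ HasPair Q t) : IsCyclic Q := by
  by_cases hne : Q = ⊥
  · subst hne; infer_instance
  obtain ⟨w, hw, hwo⟩ := exists_omegaCenter hQ hne
  have key : ∀ x : Q, x ^ t = 1 → (x : G) ∈ zpowers w := by
    intro x hx
    by_cases h1 : (x : G) = 1
    · rw [h1]; exact Subgroup.one_mem _
    · exact mem_zpowers_of_not_pair h hw.1 hwo x.2 (orderOf_eq_prime (congrArg Subtype.val hx) h1) (hw.2.2 x x.2)
  refine RankOneP.isCyclic_of_odd h2 hQ fun x y hx hy hx1 => ?_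
  have hle : zpowers (x : G) ≤ zpowers w := zpowers_le.mpr (key x hx)
  have he := Subgroup.eq_of_le_of_card_ge hle (by
    rw [Nat.card_zpowers, Nat.card_zpowers, hwo,
      orderOf_eq_prime (congrArg Subtype.val hx) (fun e => hx1 (Subtype.ext e))])
  obtain ⟨k, hk⟩ := he ▸ key y hy
  exact ⟨k, Subtype.ext hk⟩

/-- An element of order prime to `t` centralising the socle of a cyclic `t`-group centralises it. -/
theorem commute_of_not_pair {Q : Subgroup G} {t : ℕ} [ht : Fact t.Prime] (h2 : t ≠ 2) (hQ : IsPGroup t Q)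
    (h : ¬ HasPair Q t) {w : G} (hw : w ∈ omegaCenter Q t) (hwo : orderOf w = t) {y : G} {s : ℕ} (hs : s.Prime)
    (hst : s ≠ t) (hy : orderOf y = s) (hyQ : y ∈ normalizer (Q : Set G)) (hyw : Commute y w) :
    ∀ c ∈ Q, Commute y c := by
  haveI := isCyclic_of_not_pair h2 hQ h
  haveI : IsMulCommutative Q := IsCyclic.isMulCommutative
  have hle := CoprimeAction.le_centralizer_of_fixes_prime_order (A := zpowers y) (V := Q) (zpowers_le.mpr hyQ)
    (by rw [Nat.card_zpowers, hy]; exact coprime_of_isPGroup ht.out hs hst hQ) ?_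
  · exact fun c hc => (Subgroup.mem_centralizer_iff.mp (hle (mem_zpowers y)) c hc).symm
  · intro v hv hvp a ha
    have hvo : orderOf v = t := by
      obtain ⟨k, hk⟩ := IsPGroup.iff_orderOf.mp hQ ⟨v, hv⟩
      rw [Subgroup.orderOf_mk] at hk
      rw [hk] at hvp ⊢
      rw [hvp.eq_one_of_pow, pow_one]
    obtain ⟨k, rfl⟩ := mem_zpowers_of_not_pair h hw.1 hwo hv hvo (hw.2.2 v hv)
    obtain ⟨i, rfl⟩ := ha
    exact ((hyw.zpow_right k).zpow_left i).eq

/-- Either a second central element of order `t`, or an element conjugate to a different multiple by `w`. -/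
theorem trick {Q : Subgroup G} {t : ℕ} [ht : Fact t.Prime] (hQ : IsPGroup t Q) {w : G} (hw : w ∈ omegaCenter Q t)
    (hwo : orderOf w = t) (hp : HasPair Q t) :
    (∃ x ∈ omegaCenter Q t, orderOf x = t ∧ x ∉ zpowers w) ∨
    ∃ u g : G, u ∈ Q ∧ g ∈ Q ∧ orderOf u = t ∧ u ∉ zpowers w ∧ g * u * g⁻¹ ≠ u ∧ g * u * g⁻¹ * u⁻¹ ∈ zpowers w := by
  classical
  obtain ⟨a, b, hab⟩ := hp
  have hne : {u : G | u ∈ Q ∧ orderOf u = t ∧ u ∉ zpowers w}.Nonempty := by
    by_contra he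
    rw [Set.not_nonempty_iff_eq_empty, Set.eq_empty_iff_forall_notMem] at he
    have ha : a ∈ zpowers w := by_contra fun h => he a ⟨hab.amem, hab.aord, h⟩
    have hb : b ∈ zpowers w := by_contra fun h => he b ⟨hab.bmem, hab.bord, h⟩
    have hz := Subgroup.eq_of_le_of_card_ge (zpowers_le.mpr ha) (by
      rw [Nat.card_zpowers, Nat.card_zpowers, hwo, hab.aord])
    exact hab.notMem (hz ▸ hb)
  obtain ⟨u, ⟨huQ, huo, huw⟩, hmax⟩ := (Set.toFinite {u : G | u ∈ Q ∧ orderOf u = t ∧ u ∉ zpowers w}).exists_maximalFor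
    (fun u => Nat.card ↥(Q ⊓ centralizer ({u} : Set G))) _ hne
  set C := Q ⊓ centralizer ({u} : Set G)
  by_cases hC : C = Q
  · exact .inl ⟨u, ⟨huQ, huo ▸ pow_orderOf_eq_one u, fun c hc => (mem_centralizer_singleton_iff.mp (hC.ge hc).2).symm⟩, huo, huw⟩
  right
  -- an element of `Q` normalising but not in `C`
  haveI : Group.IsNilpotent Q := hQ.isNilpotent
  have hlt : C.subgroupOf Q < ⊤ := lt_top_iff_ne_top.mpr fun e => hC (le_antisymm inf_le_left (subgroupOf_eq_top.mp e))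
  obtain ⟨g, hgN, hgC⟩ := SetLike.exists_of_lt (normalizerCondition_of_isNilpotent _ hlt)
  -- the module
  set T := omegaCenter C t
  have hwT : w ∈ T := ⟨⟨hw.1, mem_centralizer_singleton_iff.mpr (hw.2.2 u huQ).eq⟩, hw.2.1, fun c hc => hw.2.2 c hc.1⟩
  have huT : u ∈ T := ⟨⟨huQ, mem_centralizer_singleton_iff.mpr rfl⟩, huo ▸ pow_orderOf_eq_one u,
    fun c hc => (mem_centralizer_singleton_iff.mp hc.2).symm⟩
  set N := normalizer (C.subgroupOf Q : Set Q)
  haveI : (zpowers (⟨w, hw.1⟩ : Q)).Normal := ⟨fun x hx c => by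
    obtain ⟨k, rfl⟩ := hx
    have h1 : Commute (⟨w, hw.1⟩ : Q) c := Subtype.ext (hw.2.2 c c.2).eq
    refine ⟨k, ?_⟩
    show (⟨w, hw.1⟩ : Q) ^ k = c * (⟨w, hw.1⟩ : Q) ^ k * c⁻¹
    rw [← (h1.zpow_left k).eq, mul_inv_cancel_right]⟩
  set π := QuotientGroup.mk' (zpowers (⟨w, hw.1⟩ : Q))
  set Nb := N.map π
  set Tb := (T.subgroupOf Q).map π
  have hTN : T.subgroupOf Q ≤ N := fun x hx =>
    Subgroup.le_normalizer (show x ∈ C.subgroupOf Q from (hx : (x : G) ∈ T).1)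
  have hconj : ∀ n ∈ N, ∀ x ∈ T.subgroupOf Q, n * x * n⁻¹ ∈ T.subgroupOf Q := by
    intro n hn x hx
    refine omegaCenter_conj ?_ hx
    rw [Subgroup.mem_normalizer_iff]
    intro c
    have := Subgroup.mem_normalizer_iff.mp hn
    constructor
    · intro hc; exact (this ⟨c, hc.1⟩).mp hc
    · intro hc
      have hcQ : c ∈ Q := by
        have := Q.mul_mem (Q.mul_mem (Q.inv_mem n.2) hc.1) n.2
        simpa [mul_assoc] using this
      exact (this ⟨c, hcQ⟩).mpr hc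
  haveI : (Tb.subgroupOf Nb).Normal := ⟨fun x hx n => by
    obtain ⟨x', hx', ex⟩ := (hx : (x : Q ⧸ zpowers (⟨w, hw.1⟩ : Q)) ∈ Tb)
    obtain ⟨n', hn', en⟩ := (n.2 : (n : Q ⧸ zpowers (⟨w, hw.1⟩ : Q)) ∈ Nb)
    refine ⟨n' * x' * n'⁻¹, hconj n' hn' x' hx', ?_⟩
    rw [map_mul, map_mul, map_inv, ex, en]; rfl⟩
  have hTb : Tb.subgroupOf Nb ≠ ⊥ := by
    intro e
    have hu' : π ⟨u, huQ⟩ ∈ Nb := ⟨_, hTN huT, rfl⟩
    have : (⟨π ⟨u, huQ⟩, hu'⟩ : Nb) ∈ Tb.subgroupOf Nb := ⟨⟨u, huQ⟩, huT, rfl⟩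
    rw [e, Subgroup.mem_bot] at this
    obtain ⟨k, hk⟩ := (QuotientGroup.eq_one_iff _).mp (congrArg Subtype.val this)
    exact huw ⟨k, congrArg Subtype.val hk⟩
  have hinf := PReduced.inf_center_ne_bot ((hQ.to_quotient _).to_subgroup Nb) hTb
  obtain ⟨⟨v, hv⟩, ⟨hvT, hvc⟩, hv1⟩ := (Tb.subgroupOf Nb ⊓ center Nb).bot_or_exists_ne_one.resolve_left hinf
  obtain ⟨v', hv', rfl⟩ := (hvT : v ∈ Tb)
  have hv'w : (v' : G) ∉ zpowers w := fun h => by
    obtain ⟨k, hk⟩ := h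
    exact hv1 (Subtype.ext ((QuotientGroup.eq_one_iff _).mpr ⟨k, Subtype.ext hk⟩))
  have hgw : (g : G) * v' * (g : G)⁻¹ * (v' : G)⁻¹ ∈ zpowers w := by
    have h1 := congrArg Subtype.val (Subgroup.mem_center_iff.mp hvc ⟨π g, ⟨g, hgN, rfl⟩⟩)
    have h2 : π (g * v' * g⁻¹ * v'⁻¹) = 1 := by
      simp only [map_mul, map_inv]
      rw [show π g * π v' = π v' * π g from h1]; group
    obtain ⟨k, hk⟩ := (QuotientGroup.eq_one_iff _).mp h2
    exact ⟨k, congrArg Subtype.val hk⟩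
  have hv'o : orderOf (v' : G) = t := orderOf_eq_prime (hv' : (v' : G) ∈ T).2.1
    fun e => hv'w (by rw [e]; exact Subgroup.one_mem _)
  refine ⟨v', g, v'.2, g.2, hv'o, hv'w, fun e => hgC ?_, hgw⟩
  have hsub : C ≤ Q ⊓ centralizer ({(v' : G)} : Set G) := fun c hc =>
    ⟨hc.1, mem_centralizer_singleton_iff.mpr ((hv' : (v' : G) ∈ T).2.2 c hc).eq.symm⟩
  have heq := Subgroup.eq_of_le_of_card_ge hsub (hmax ⟨v'.2, hv'o, hv'w⟩ (card_le_of_le hsub))
  show (g : G) ∈ C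
  rw [heq]
  exact ⟨g.2, mem_centralizer_singleton_iff.mpr (mul_inv_eq_iff_eq_mul.mp e)⟩

/-- The elements of order dividing `t` of `Q` which are central modulo `W`. -/
def layerSet (Q W : Subgroup G) (t : ℕ) : Set G := {u | u ∈ Q ∧ u ^ t = 1 ∧ ∀ g ∈ Q, ⁅u, g⁆ ∈ W}

theorem layerSet_mul {Q : Subgroup G} {t : ℕ} [ht : Fact t.Prime] (h2 : t ≠ 2) {w : G} (hw : w ∈ omegaCenter Q t)
    {u v : G} (hu : u ∈ layerSet Q (zpowers w) t) (hv : v ∈ layerSet Q (zpowers w) t) :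
    u * v ∈ layerSet Q (zpowers w) t := by
  have hcen : ∀ c ∈ zpowers w, ∀ g ∈ Q, Commute c g := by
    rintro c ⟨k, rfl⟩ g hg; exact (hw.2.2 g hg).zpow_left k
  refine ⟨Q.mul_mem hu.1 hv.1, ?_, fun g hg => ?_⟩
  · set c := ⁅v, u⁆ with hcdef
    have hc : c ∈ zpowers w := hv.2.2 u hu.1
    have hcc : ⁅(⟨v, hv.1⟩ : Q), ⟨u, hu.1⟩⁆ ∈ center Q :=
      Subgroup.mem_center_iff.mpr fun g => Subtype.ext (hcen c hc g g.2).eq.symm
    have h := congrArg Subtype.val (PGroup.mul_pow_central hcc t)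
    obtain ⟨d, hd⟩ := PGroup.dvd_choose_two h2
    obtain ⟨k, hk⟩ := hc
    have hct : ∀ e : ℕ, c ^ (t * e) = 1 := fun e => by
      rw [pow_mul, ← show w ^ k = c from hk, ← zpow_natCast (w ^ k), ← zpow_mul, mul_comm, zpow_mul, zpow_natCast, hw.2.1, one_zpow, one_pow]
    simp only [Subgroup.coe_pow, Subgroup.coe_mul, hu.2.1, hv.2.1] at h
    rw [h, hd, one_mul, one_mul]
    exact hct d
  · have h1 := hu.2.2 g hg
    have h2 := hv.2.2 g hg
    have e : ⁅u * v, g⁆ = u * ⁅v, g⁆ * u⁻¹ * ⁅u, g⁆ := by simp only [commutatorElement_def]; group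
    rw [e, show u * ⁅v, g⁆ * u⁻¹ = ⁅v, g⁆ by rw [← (hcen _ h2 u hu.1).eq, mul_inv_cancel_right]]
    exact mul_mem h2 h1

/-- `layerSet` as a subgroup. -/
def layer (Q : Subgroup G) (t : ℕ) [Fact t.Prime] (h2 : t ≠ 2) (w : G) (hw : w ∈ omegaCenter Q t) : Subgroup G where
  carrier := layerSet Q (zpowers w) t
  one_mem' := ⟨Q.one_mem, one_pow t, fun g _ => by rw [commutatorElement_one_left]; exact Subgroup.one_mem _⟩
  mul_mem' := layerSet_mul h2 hw
  inv_mem' := fun {u} hu => ⟨Q.inv_mem hu.1, by rw [inv_pow, hu.2.1, inv_one], fun g hg => by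
    obtain ⟨k, hk⟩ := hu.2.2 g hg
    have e : ⁅u⁻¹, g⁆ = u⁻¹ * ⁅u, g⁆⁻¹ * u := by simp only [commutatorElement_def]; group
    refine ⟨-k, ?_⟩
    show w ^ (-k) = ⁅u⁻¹, g⁆
    rw [e, ← show w ^ k = ⁅u, g⁆ from hk, ← zpow_neg, mul_assoc, ((hw.2.2 u hu.1).zpow_left (-k)).eq,
      inv_mul_cancel_left]⟩

/-- For odd `t` the layer is not cyclic when `Q` has an independent pair. -/
theorem exists_mem_layer {Q : Subgroup G} {t : ℕ} [ht : Fact t.Prime] (h2 : t ≠ 2) (hQ : IsPGroup t Q) {w : G}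
    (hw : w ∈ omegaCenter Q t) (hwo : orderOf w = t) (hp : HasPair Q t) :
    ∃ u ∈ layer Q t h2 w hw, orderOf u = t ∧ u ∉ zpowers w := by
  obtain ⟨A, hAn, hA, hΩ⟩ := PLocalBasics.exists_max_normal_el hQ h2
  set w' : Q := ⟨w, hw.1⟩
  have hwc : w' ∈ center Q := Subgroup.mem_center_iff.mpr fun g => Subtype.ext (hw.2.2 g g.2).eq.symm
  have hwA : w' ∈ A := hΩ _ (Subgroup.center_le_centralizer _ hwc) (Subtype.ext hw.2.1)
  have hlt : zpowers w' < A := by
    refine lt_of_le_of_ne (zpowers_le.mpr hwA) fun e => ?_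
    obtain ⟨a, b, hab⟩ := hp
    have hin : ∀ x : G, x ∈ Q → orderOf x = t → x ∈ zpowers w := fun x hx hxo => by
      have h1 : (⟨x, hx⟩ : Q) ∈ A := hΩ _ (by
        rw [← e, Subgroup.mem_centralizer_iff]
        rintro _ ⟨k, rfl⟩
        exact ((Subgroup.mem_center_iff.mp (zpow_mem hwc k)) _).symm) (Subtype.ext (hxo ▸ pow_orderOf_eq_one x))
      rw [← e] at h1
      obtain ⟨k, hk⟩ := h1
      exact ⟨k, congrArg Subtype.val hk⟩
    have hz := Subgroup.eq_of_le_of_card_ge (zpowers_le.mpr (hin a hab.amem hab.aord)) (by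
      rw [Nat.card_zpowers, Nat.card_zpowers, hwo, hab.aord])
    exact hab.notMem (hz ▸ hin b hab.bmem hab.bord)
  haveI : (zpowers w').Normal := ⟨fun x hx c => by
    rwa [Subgroup.mem_center_iff.mp (zpowers_le.mpr hwc hx) c, mul_inv_cancel_right]⟩
  haveI := hAn
  obtain ⟨u, huA, huw, hu⟩ := PGroup.exists_mem_central_mod hQ hlt
  have huw' : (u : G) ∉ zpowers w := fun h => by
    obtain ⟨k, hk⟩ := h
    exact huw ⟨k, Subtype.ext hk⟩
  refine ⟨u, ⟨u.2, congrArg Subtype.val (hA.2 u huA), fun g hg => ?_⟩,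
    orderOf_eq_prime (congrArg Subtype.val (hA.2 u huA)) fun e => huw' (by rw [e]; exact Subgroup.one_mem _), huw'⟩
  obtain ⟨k, hk⟩ := hu ⟨g, hg⟩
  exact ⟨k, congrArg Subtype.val hk⟩

end CfsgLib.ThreeFree
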