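import Cfsg.Agent.ThreeFree.Cores

/-!
Small consequences of the master lemma.
-/

set_option autoImplicit false

namespace CfsgLib.ThreeFree

open Subgroup

variable {G : Type*} [Group G]

theorem eq_one_of_commute_zpowers {w e : G} (hw : (orderOf w).Prime) (hne : ¬ Commute e w) :
    ∀ b ∈ zpowers w, Commute e b → b = 1 := by
  rintro b ⟨k, rfl⟩ hc
  by_contra h1
  have hd : ¬ (orderOf w : ℤ) ∣ k := fun h => h1 (orderOf_dvd_iff_zpow_eq_one.mp h)
  have hg : k.gcd (orderOf w) = 1 := by
    rw [Int.gcd_comm]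
    have := (hw.coprime_iff_not_dvd (n := k.natAbs)).mpr (fun h => hd (Int.natCast_dvd.mpr h))
    simpa [Int.gcd] using this
  have hgen := Int.gcd_eq_gcd_ab k (orderOf w)
  refine hne ?_
  have : w = (w ^ k) ^ (k.gcdA (orderOf w)) := by
    rw [← zpow_mul]
    conv_lhs => rw [← zpow_one w, show (1 : ℤ) = k * k.gcdA (orderOf w) + (orderOf w : ℤ) * k.gcdB (orderOf w) by
      rw [← hgen, hg]; rfl]
    rw [zpow_add, zpow_mul w (orderOf w : ℤ), zpow_natCast, pow_orderOf_eq_one, one_zpow, mul_one]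
  rw [this]; exact hc.zpow_right _

variable [Finite G]

theorem eq_one_or_mem {w x : G} (hw : (orderOf w).Prime) (hx : x ∈ zpowers w) :
    x = 1 ∨ w ∈ zpowers x := by
  by_cases h : x = 1
  · exact .inl h
  right
  have hle := zpowers_le.mpr hx
  have hd := card_dvd_of_le hle
  rw [Nat.card_zpowers, Nat.card_zpowers] at hd
  rcases (Nat.dvd_prime hw).mp hd with h1 | h1
  · exact absurd (orderOf_eq_one_iff.mp h1) h
  · have := Subgroup.eq_of_le_of_card_ge hle (by rw [Nat.card_zpowers, Nat.card_zpowers, h1])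
    rw [this]; exact mem_zpowers w

theorem zpowers_conj {N : Subgroup G} {w : G} (hN : ∀ x ∈ N, x ∈ zpowers w) (hwN : w ∈ N) {g : G}
    (hg : g ∈ normalizer (N : Set G)) : g ∈ normalizer (zpowers w : Set G) := by
  have e : N = zpowers w := le_antisymm hN (zpowers_le.mpr hwN)
  rwa [← e]

/-- An element moving a subgroup of prime order that acts non-trivially on `M` has a fixed point on `M`. -/
theorem fixes_of_moves (M : Subgroup G) [IsMulCommutative M] {w y : G} (hw : (orderOf w).Prime)
    (hy : (orderOf y).Prime) (hyw : y ∈ normalizer (zpowers w : Set G)) (hne : ¬ Commute y w)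
    (hwM : w ∈ normalizer (M : Set G)) (hyM : y ∈ normalizer (M : Set G))
    (hco : (orderOf w).Coprime (Nat.card M)) (hmove : ¬ ∀ m ∈ M, Commute w m) : Fixes M y := by
  by_contra hf
  exact hmove (master_sub M (zpowers w) hy (pow_orderOf_eq_one y) hyM (zpowers_le.mpr hwM)
    (fun b hb => conj_mem_of_normalizer hyw hb) (eq_one_of_commute_zpowers hw hne)
    (by rwa [Nat.card_zpowers]) (eq_one_of_not_fixes hf) w (mem_zpowers w))

theorem fixes_of_centralizes {M : Subgroup G} (hM : M ≠ ⊥) {w : G} (h : ∀ m ∈ M, Commute w m) : Fixes M w := by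
  obtain ⟨m, hm, hm1⟩ := M.bot_or_exists_ne_one.resolve_left hM
  exact ⟨m, hm, hm1, h m hm⟩

theorem coprime_of_mem {L M : Subgroup G} (hc : (Nat.card L).Coprime (Nat.card M)) {x : G} (hx : x ∈ L) :
    (orderOf x).Coprime (Nat.card M) := hc.coprime_dvd_left (L.orderOf_dvd_natCard hx)

/-- The elements of `M` fixed by a normalised cyclic subgroup. -/
theorem normalizes_fixed {M : Subgroup G} {w g : G} (hgM : g ∈ normalizer (M : Set G))
    (hgw : g ∈ normalizer (zpowers w : Set G)) :
    g ∈ normalizer ((M ⊓ centralizer (zpowers w : Set G) : Subgroup G) : Set G) :=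
  by
  have key : ∀ g : G, g ∈ normalizer (zpowers w : Set G) → ∀ m ∈ centralizer (zpowers w : Set G),
      g * m * g⁻¹ ∈ centralizer (zpowers w : Set G) := by
    intro g hg m hm
    rw [Subgroup.mem_centralizer_iff] at hm ⊢
    intro c hc
    have h1 : g⁻¹ * c * g ∈ zpowers w := by
      simpa using conj_mem_of_normalizer ((normalizer (zpowers w : Set G)).inv_mem hg) hc
    have h2 := hm _ h1
    calc c * (g * m * g⁻¹) = g * ((g⁻¹ * c * g) * m) * g⁻¹ := by group
      _ = g * (m * (g⁻¹ * c * g)) * g⁻¹ := by rw [h2]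
      _ = g * m * g⁻¹ * c := by group
  rw [Subgroup.mem_normalizer_iff]
  refine fun m => ⟨fun h => ⟨conj_mem_of_normalizer hgM h.1, key g hgw m h.2⟩, fun h => ⟨?_, ?_⟩⟩
  · exact (Subgroup.mem_normalizer_iff.mp hgM m).mpr h.1
  · have := key g⁻¹ ((normalizer (zpowers w : Set G)).inv_mem hgw) _ h.2
    simpa [mul_assoc] using this

end CfsgLib.ThreeFree
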